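import Cfsg.Agent.H770.Fr

/-!
# Extension lemmas for functions (helper770)
-/

set_option autoImplicit false

namespace Cfsg.Agent.H770

open Cfsg Cfsg.FusionSystem Cfsg.Agent.H752

variable {Ω : Type*} [Group Ω] {S T : Subgroup Ω} {F : FusionSystem S} {p : ℕ}

/-- `Q` is the image of `P` under `f`. -/
def Im (f : Ω → Ω) (P Q : Subgroup Ω) : Prop := ∀ y, y ∈ Q ↔ ∃ x ∈ P, f x = y

theorem Im.apply {f : Ω → Ω} {P Q : Subgroup Ω} (h : Im f P Q) {x : Ω} (hx : x ∈ P) : f x ∈ Q :=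
  (h _).2 ⟨x, hx, rfl⟩

theorem Im.congr {f g : Ω → Ω} {P Q : Subgroup Ω} (h : Im f P Q) (he : ∀ x ∈ P, g x = f x) :
    Im g P Q := fun y => by
  rw [h y]
  constructor
  · rintro ⟨x, hx, rfl⟩; exact ⟨x, hx, he x hx⟩
  · rintro ⟨x, hx, rfl⟩; exact ⟨x, hx, (he x hx).symm⟩

theorem Im.comp {f g : Ω → Ω} {P Q R : Subgroup Ω} (h : Im f P Q) (h' : Im g Q R) :
    Im (fun x => g (f x)) P R := fun y => by
  rw [h' y]
  constructor
  · rintro ⟨z, hz, rfl⟩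
    obtain ⟨x, hx, rfl⟩ := (h z).1 hz
    exact ⟨x, hx, rfl⟩
  · rintro ⟨x, hx, rfl⟩
    exact ⟨f x, h.apply hx, rfl⟩

theorem Im.id (P : Subgroup Ω) : Im (fun x => x) P P := fun _ => ⟨fun h => ⟨_, h, rfl⟩, by
  rintro ⟨x, hx, rfl⟩; exact hx⟩

theorem Im.symm {f g : Ω → Ω} {P Q : Subgroup Ω} (h : Im f P Q) (hg : ∀ x ∈ P, g (f x) = x) :
    Im g Q P := fun y => by
  constructor
  · intro hy; exact ⟨f y, h.apply hy, hg y hy⟩
  · rintro ⟨z, hz, rfl⟩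
    obtain ⟨x, hx, rfl⟩ := (h z).1 hz
    rw [hg x hx]; exact hx

theorem Mp.exists_im {f : Ω → Ω} {P R : Subgroup Ω} (hf : Mp F P f) (hR : R ≤ P) :
    ∃ T : Subgroup Ω, Im f R T ∧ T ≤ S ∧ Nat.card T = Nat.card R := hf.exists_image hR

theorem Mp.im_card {f : Ω → Ω} {P R : Subgroup Ω} (hf : Mp F P f) (h : Im f P R) :
    Nat.card R = Nat.card P := by
  obtain ⟨R', hR', -, h3⟩ := hf.exists_image le_rfl
  have : R = R' := by ext y; rw [h y, hR' y]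
  rw [this, h3]

theorem Mp.im_le {f : Ω → Ω} {P R : Subgroup Ω} (hf : Mp F P f) (h : Im f P R) : R ≤ S := by
  intro y hy
  obtain ⟨x, hx, rfl⟩ := (h y).1 hy
  exact hf.mem hx

theorem Mp.isConj {f : Ω → Ω} {P R : Subgroup Ω} (hf : Mp F P f) (h : Im f P R) :
    F.IsConj P R := by
  obtain ⟨φ, hφ, h1⟩ := hf
  refine ⟨φ, hφ, ?_⟩
  ext y
  rw [h y]
  constructor
  · rintro ⟨x, rfl⟩
    exact ⟨x, x.2, (h1 x x.2).symm⟩
  · rintro ⟨x, hx, rfl⟩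
    exact ⟨⟨x, hx⟩, h1 x hx⟩

theorem exists_mp_of_isConj {P R : Subgroup Ω} (h : F.IsConj P R) :
    ∃ f, Mp F P f ∧ Im f P R := by
  obtain ⟨φ, hφ, rfl⟩ := h
  refine ⟨ex φ, mp_ex hφ, fun y => ?_⟩
  constructor
  · rintro ⟨x, rfl⟩
    exact ⟨x, x.2, ex_coe _ x⟩
  · rintro ⟨x, hx, rfl⟩
    exact ⟨⟨x, hx⟩, (ex_apply _ hx).symm⟩

theorem im_ac {P : Subgroup Ω} (a : MulAut P) : Im (ac a) P P := fun y => by
  constructor
  · intro hy
    exact ⟨ac a⁻¹ y, ac_mem _ hy, ac_ac_inv a hy⟩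
  · rintro ⟨x, hx, rfl⟩
    exact ac_mem a hx

theorem Mp.im_of_maps {P : Subgroup Ω} [Finite P] {f : Ω → Ω} (h : Mp F P f)
    (hm : ∀ x ∈ P, f x ∈ P) : Im f P P := fun y => by
  constructor
  · exact fun hy => h.surj hm hy
  · rintro ⟨x, hx, rfl⟩
    exact hm x hx

/-- A map of the system carrying `P` onto `Q` carries the elements of its source which normalize `P` to
elements normalizing `Q`. -/
theorem Mp.mem_normalizer {W P Q : Subgroup Ω} {f : Ω → Ω} (h : Mp F W f) (hP : P ≤ W)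
    (hI : Im f P Q) {g : Ω} (hg : g ∈ W) (hgn : g ∈ Subgroup.normalizer (P : Set Ω)) :
    f g ∈ Subgroup.normalizer (Q : Set Ω) := by
  rw [Subgroup.mem_normalizer_iff]
  have key : ∀ g ∈ W, g ∈ Subgroup.normalizer (P : Set Ω) → ∀ y ∈ Q, f g * y * (f g)⁻¹ ∈ Q := by
    intro g hg hgn y hy
    obtain ⟨x, hx, rfl⟩ := (hI y).1 hy
    rw [← h.inv hg, ← h.mul hg (hP hx), ← h.mul (mul_mem hg (hP hx)) (inv_mem hg)]
    exact hI.apply ((Subgroup.mem_normalizer_iff.1 hgn x).1 hx)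
  intro y
  refine ⟨key g hg hgn y, fun hy => ?_⟩
  have h1 := key g⁻¹ (inv_mem hg) (inv_mem hgn) _ hy
  rw [h.inv hg] at h1
  simpa [mul_assoc] using h1

theorem Mp.mem_centralizer {W P Q : Subgroup Ω} {f : Ω → Ω} (h : Mp F W f) (hP : P ≤ W)
    (hI : Im f P Q) {g : Ω} (hg : g ∈ W) (hgn : g ∈ Subgroup.centralizer (P : Set Ω)) :
    f g ∈ Subgroup.centralizer (Q : Set Ω) := by
  rw [Subgroup.mem_centralizer_iff]
  intro y hy
  obtain ⟨x, hx, rfl⟩ := (hI y).1 hy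
  rw [← h.mul hg (hP hx), ← h.mul (hP hx) hg, Subgroup.mem_centralizer_iff.1 hgn x hx]

section sat

variable [Finite S] [Fact p.Prime]

/-- Extension to the normalizer, for functions. -/
theorem mp_normalizer (hS : IsPGroup p S) (hF : F.IsSaturated p) {P Q : Subgroup Ω} {f : Ω → Ω}
    (hQ : F.IsFullyNormalized Q) (hf : Mp F P f) (hI : Im f P Q) :
    ∃ k, Mp F (normalizerIn S P) k ∧ Im k P Q := by
  have hQa := H802.isFullyAutomized_of_isFullyNormalized hS hF hQ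
  have hQr := H802.isReceptive_of_isFullyNormalized hS hF hQ
  have hle : P ≤ normalizerIn S P := le_inf hf.le Subgroup.le_normalizer
  obtain ⟨χ, hχ, h1⟩ := hf
  have hr : χ.range = Q := by
    ext y
    rw [hI y]
    constructor
    · rintro ⟨x, rfl⟩
      exact ⟨x, x.2, (h1 x x.2).symm⟩
    · rintro ⟨x, hx, rfl⟩
      exact ⟨⟨x, hx⟩, h1 x hx⟩
  obtain ⟨k, hk, ψ, hψ, h2⟩ := H759.exists_normalizer_hom F hS hQa hQr hχ hr
  refine ⟨ex ψ, mp_ex hψ, ?_⟩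
  have h3 : Im (fun x => ac k (f x)) P Q := hI.comp (im_ac k)
  refine h3.congr fun x hx => ?_
  have hm : χ ⟨x, hx⟩ ∈ Q := by rw [h1]; exact hI.apply hx
  rw [ex_apply _ (hle hx), h2 ⟨x, hx⟩ hm (hle hx), ← h1 x hx, ac_apply k hm]

omit [Finite S] in
/-- Receptivity for functions. -/
theorem mp_receptive {P Q : Subgroup Ω} {f : Ω → Ω}
    (hQr : F.IsReceptive Q) (hf : Mp F P f) (hI : Im f P Q) :
    ∃ (X : Subgroup Ω) (k : Ω → Ω), Mp F X k ∧ (∀ x ∈ P, k x = f x) ∧ P ≤ X ∧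
      centralizerIn S P ≤ X ∧ X ≤ normalizerIn S P ∧
      ∀ g ∈ S, g ∈ Subgroup.normalizer (P : Set Ω) →
        (∃ s ∈ S, ∀ x ∈ P, f (g * x * g⁻¹) = s * f x * s⁻¹) → g ∈ X := by
  have hPS := hf.le
  obtain ⟨χ, hχ, h1⟩ := hf
  have hr : χ.range = Q := by
    ext y
    rw [hI y]
    constructor
    · rintro ⟨x, rfl⟩
      exact ⟨x, x.2, (h1 x x.2).symm⟩
    · rintro ⟨x, hx, rfl⟩
      exact ⟨⟨x, hx⟩, h1 x hx⟩
  obtain ⟨ψ, hψ, h2⟩ := hQr.2 P χ hχ hr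
  have hPe : P ≤ extender S P χ := H802.le_extender hPS (H802.hom_apply_mem hχ)
  refine ⟨extender S P χ, ex ψ, mp_ex hψ, fun x hx => ?_, hPe,
    H802.centralizerIn_le_extender _ _ _, H802.extender_le_normalizerIn _ _ _, ?_⟩
  · rw [ex_apply _ (hPe hx), h2 x hx (hPe hx), h1]
  · rintro g hg hgn ⟨s, hs, h3⟩
    rw [H802.mem_extender_iff]
    refine ⟨hg, hgn, s, hs, fun x hx => ?_⟩
    rw [h1, h1 x x.2]
    exact h3 x x.2

/-- The extension lemma with kernel `K`, for automorphisms as functions. -/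
theorem mp_ext_kernel (hS : IsPGroup p S) {Q N : Subgroup Ω}
    (hQa : F.IsFullyAutomized p Q) (hQr : F.IsReceptive Q) {α : MulAut Q}
    (hα : α ∈ F.autGroup Q) (K : Subgroup (MulAut Q)) (hKA : K ≤ F.autGroup Q)
    (hK : ∀ a ∈ F.autGroup Q, ∀ k ∈ K, a * k * a⁻¹ ∈ K) (hNS : N ≤ S)
    (hN : N ≤ Subgroup.normalizer (Q : Set Ω))
    (h : ∀ g ∈ N, ∃ k ∈ K, ∃ s ∈ S, s ∈ Subgroup.normalizer (Q : Set Ω) ∧
      ∀ x ∈ Q, ac α (g * x * g⁻¹) = ac k (s * ac α x * s⁻¹)) :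
    ∃ k ∈ K, ∃ ψ, Mp F (Q ⊔ N) ψ ∧ ∀ x ∈ Q, ψ x = ac k (ac α x) := by
  have hQS := hQa.1
  have hfQ : Finite Q := H802.finite_of_le hQS
  have hαm := (H759.mem_autGroup F hQS).1 hα
  obtain ⟨k, hk, ψ, hψ, h2⟩ := H759.exists_extension F hS hQa hQr hαm (by
      ext y
      constructor
      · rintro ⟨x, rfl⟩; exact (α x).2
      · intro hy
        exact ⟨α⁻¹ ⟨y, hy⟩, by
          show ((α (α⁻¹ ⟨y, hy⟩) : Q) : Ω) = y
          rw [MulAut.apply_inv_self]⟩) K hKA hK N hNS hN (by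
      intro g hg
      obtain ⟨k, hk, s, hs, hsn, h3⟩ := h g hg
      refine ⟨k, hk, s, hs, hsn, fun x hx hy => ?_⟩
      have h4 := h3 x x.2
      rw [ac_apply α hx, ac_apply α x.2] at h4
      have h5 : s * ((α x : Q) : Ω) * s⁻¹ ∈ Q := hy
      rw [ac_apply k h5] at h4
      exact h4)
  refine ⟨k, hk, ex ψ, mp_ex hψ, fun x hx => ?_⟩
  have hx' : x ∈ Q ⊔ N := (le_sup_left : Q ≤ Q ⊔ N) hx
  rw [ex_apply _ hx', ac_apply α hx, ac_apply k (α _).2]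
  exact h2 ⟨x, hx⟩ (α _).2 hx'

end sat

end Cfsg.Agent.H770
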