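import Cfsg.Agent.H770.E3
import Cfsg.Agent.H802.FusKSat

/-!
# The normalizer system in terms of functions (helper770)
-/

set_option autoImplicit false

namespace Cfsg.Agent.H770

open Cfsg Cfsg.FusionSystem Cfsg.Agent.H752

variable {Ω : Type*} [Group Ω] {S T : Subgroup Ω} {p : ℕ}

section

variable {F : FusionSystem S} {Q : Subgroup Ω} {N : FusionSystem (normalizerIn S Q)}

theorem mp_normalizerSystem_iff (hN : F.IsNormalizerSystem Q N) {P : Subgroup Ω} {f : Ω → Ω} :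
    Mp N P f ↔ P ≤ normalizerIn S Q ∧ (∀ x ∈ P, f x ∈ normalizerIn S Q) ∧
      ∃ k, Mp F (P ⊔ Q) k ∧ (∀ x ∈ P, k x = f x) ∧ Im k Q Q := by
  constructor
  · rintro ⟨φ, hφ, h1⟩
    rw [hN P] at hφ
    obtain ⟨h2, h3, h4, ψ, hψ, h5, h6⟩ := hφ
    refine ⟨h3, fun x hx => by rw [← h1 x hx]; exact h4 _, ex ψ, mp_ex hψ, fun x hx => ?_, ?_⟩
    · rw [ex_apply _ ((le_sup_left : P ≤ P ⊔ Q) hx), ← h1 x hx]
      exact h5 ⟨x, hx⟩
    · intro y
      constructor
      · intro hy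
        rw [← h6] at hy
        obtain ⟨x, hx, hxy⟩ := hy
        exact ⟨x, hx, by rw [ex_coe]; exact hxy⟩
      · rintro ⟨x, hx, rfl⟩
        have hx' : x ∈ P ⊔ Q := (le_sup_right : Q ≤ P ⊔ Q) hx
        rw [ex_apply _ hx']
        exact h6.le ⟨⟨x, hx'⟩, hx, rfl⟩
  · rintro ⟨h3, h4, k, ⟨ψ, hψ, hk⟩, h5, h6⟩
    refine ⟨ψ.comp (Subgroup.inclusion le_sup_left), ?_, fun x hx => ?_⟩
    · rw [hN P]
      refine ⟨H802.restrict_mem hψ _, h3, fun x => ?_, ψ, hψ, fun x => rfl, ?_⟩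
      · have h7 : (ψ.comp (Subgroup.inclusion (le_sup_left : P ≤ P ⊔ Q))) x = f x := by
          rw [← h5 x x.2, ← hk x ((le_sup_left : P ≤ P ⊔ Q) x.2)]
          rfl
        rw [h7]
        exact h4 x x.2
      · ext y
        rw [h6 y]
        constructor
        · rintro ⟨x, hx, rfl⟩
          exact ⟨x, hx, (hk x x.2).symm⟩
        · rintro ⟨x, hx, rfl⟩
          have hx' : x ∈ P ⊔ Q := (le_sup_right : Q ≤ P ⊔ Q) hx
          exact ⟨⟨x, hx'⟩, hx, hk x hx'⟩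
    · rw [← h5 x hx, ← hk x ((le_sup_left : P ≤ P ⊔ Q) hx)]
      rfl

theorem mp_normalizerSystem_iff' [Finite S] (hN : F.IsNormalizerSystem Q N) (hQS : Q ≤ S)
    {P : Subgroup Ω} {f : Ω → Ω} (hQP : Q ≤ P) :
    Mp N P f ↔ Mp F P f ∧ P ≤ normalizerIn S Q ∧ ∀ x ∈ Q, f x ∈ Q := by
  rw [mp_normalizerSystem_iff hN]
  have hfQ : Finite Q := H802.finite_of_le hQS
  constructor
  · rintro ⟨h1, h2, k, hk, h3, h4⟩
    refine ⟨(hk.res le_sup_left).congr fun x hx => (h3 x hx).symm, h1, fun x hx => ?_⟩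
    rw [← h3 x (hQP hx)]
    exact h4.apply hx
  · rintro ⟨h1, h2, h3⟩
    have hI : Im f Q Q := Mp.im_of_maps (h1.res hQP) h3
    refine ⟨h2, fun x hx => ⟨h1.mem hx, Mp.mem_normalizer h1 hQP hI hx (h2 hx).2⟩, f, ?_,
      fun _ _ => rfl, hI⟩
    rw [sup_eq_left.2 hQP]
    exact h1

theorem normalizerSystem_isSubsystemOf (hN : F.IsNormalizerSystem Q N) : N.IsSubsystemOf F := by
  intro P φ hφ
  rw [hN P] at hφ
  exact hφ.1

end

section

variable [Finite S] [Fact p.Prime] {F : FusionSystem S}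

omit [Fact p.Prime] in
/-- `W C_S(W)` is centric for `W` fully centralized. -/
theorem isCentric_sup_centralizer {W : Subgroup Ω} (hW : F.IsFullyCentralized W) :
    F.IsCentric (W ⊔ centralizerIn S W) := by
  refine ⟨sup_le hW.1 inf_le_left, fun R hR => ?_⟩
  obtain ⟨f, hf, hfI⟩ := exists_mp_of_isConj hR
  obtain ⟨W', hW', hW'S, -⟩ := Mp.exists_im hf (le_sup_left : W ≤ W ⊔ centralizerIn S W)
  have hWW' : F.IsConj W W' := Mp.isConj (hf.res le_sup_left) hW'
  have hcard := hW.2 W' hWW'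
  obtain ⟨C', hC', hC'S, hC'c⟩ := Mp.exists_im hf (le_sup_right : centralizerIn S W ≤ _)
  have hC'le : C' ≤ centralizerIn S W' := by
    intro y hy
    obtain ⟨x, hx, rfl⟩ := (hC' y).1 hy
    have hx' : x ∈ W ⊔ centralizerIn S W := (le_sup_right : centralizerIn S W ≤ _) hx
    exact ⟨hf.mem hx', Mp.mem_centralizer hf le_sup_left hW' hx' hx.2⟩
  have hfin : Finite (centralizerIn S W') := H802.finite_of_le inf_le_left
  have hC'e : C' = centralizerIn S W' :=
    Subgroup.eq_of_le_of_card_ge hC'le (by rw [hC'c]; exact hcard)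
  have hW'R : W' ≤ R := by
    intro y hy
    obtain ⟨x, hx, rfl⟩ := (hW' y).1 hy
    exact hfI.apply ((le_sup_left : W ≤ _) hx)
  have hC'R : C' ≤ R := by
    intro y hy
    obtain ⟨x, hx, rfl⟩ := (hC' y).1 hy
    exact hfI.apply ((le_sup_right : centralizerIn S W ≤ _) hx)
  calc centralizerIn S R ≤ centralizerIn S W' :=
        inf_le_inf_left S (Subgroup.centralizer_le hW'R)
    _ = C' := hC'e.symm
    _ ≤ R := hC'R

/-- A subgroup containing the fully normalized `Q` that is centric in `N_F(Q)` is centric in `F`. -/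
theorem isCentric_of_normalizerSystem (hS : IsPGroup p S) (hF : F.IsSaturated p) {Q : Subgroup Ω}
    (hQ : F.IsFullyNormalized Q) {N : FusionSystem (normalizerIn S Q)}
    (hN : F.IsNormalizerSystem Q N) {V : Subgroup Ω} (hQV : Q ≤ V) (hV : N.IsCentric V) :
    F.IsCentric V := by
  have hVS : V ≤ S := hV.1.trans inf_le_left
  refine ⟨hVS, fun V' hVV' => ?_⟩
  obtain ⟨f, hf, hfI⟩ := exists_mp_of_isConj hVV'
  have hV'S := Mp.im_le hf hfI
  obtain ⟨Q', hQ', hQ'S, -⟩ := Mp.exists_im hf hQV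
  obtain ⟨i, hi, hi1, hi2⟩ := (hf.res hQV).exists_symm le_rfl hQ'
  have hiI : Im i Q' Q := fun y => by
    constructor
    · intro hy
      exact ⟨f y, hQ'.apply hy, hi1 y hy⟩
    · rintro ⟨z, hz, rfl⟩
      exact (hi2 z hz).1
  obtain ⟨k, hk, hkI⟩ := mp_normalizer hS hF hQ hi hiI
  have hV'N : V' ≤ normalizerIn S Q' := by
    intro y hy
    obtain ⟨x, hx, rfl⟩ := (hfI y).1 hy
    exact ⟨hV'S hy, Mp.mem_normalizer hf hQV hQ' hx (hV.1 hx).2⟩
  have hQ'V' : Q' ≤ V' := by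
    intro y hy
    obtain ⟨x, hx, rfl⟩ := (hQ' y).1 hy
    exact hfI.apply (hQV hx)
  have hCN : centralizerIn S V' ≤ normalizerIn S Q' := by
    refine le_inf inf_le_left (inf_le_right.trans ?_)
    exact (Subgroup.centralizer_le hQ'V').trans (Subgroup.centralizer_le_normalizer _)
  obtain ⟨V'', hV'', hV''S, -⟩ := Mp.exists_im hk hV'N
  have hg : Mp N V (fun x => k (f x)) := by
    rw [mp_normalizerSystem_iff' hN hQ.1 hQV]
    exact ⟨hf.comp hk fun x hx => hV'N (hfI.apply hx), hV.1, fun x hx => hkI.apply (hQ'.apply hx)⟩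
  have hconj : N.IsConj V V'' := Mp.isConj hg (hfI.comp hV'')
  have hc := hV.2 V'' hconj
  intro c hcc
  have h1 : k c ∈ centralizerIn (normalizerIn S Q) V'' := by
    refine ⟨⟨hk.mem (hCN hcc), Mp.mem_normalizer hk (hQ'V'.trans hV'N) hkI (hCN hcc)
      (hCN hcc).2⟩, ?_⟩
    exact Mp.mem_centralizer hk hV'N hV'' (hCN hcc) hcc.2
  obtain ⟨v, hv, hvc⟩ := (hV'' _).1 (hc h1)
  rw [← hk.inj (hV'N hv) (hCN hcc) hvc]
  exact hv

end

end Cfsg.Agent.H770
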