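import Cfsg.Agent.H770.NSys

/-!
# Index prime to `p`: Frattini factors of the identity of a non-centric subgroup (helper770)
-/

set_option autoImplicit false

namespace Cfsg.Agent.H770

open Cfsg Cfsg.FusionSystem Cfsg.Agent.H752

variable {Ω : Type*} [Group Ω] {S T : Subgroup Ω} {p : ℕ}

theorem conj_mem_centralizerIn {Q : Subgroup Ω} {g x : Ω} (hg : g ∈ normalizerIn S Q)
    (hx : x ∈ centralizerIn S Q) : g * x * g⁻¹ ∈ centralizerIn S Q := by
  obtain ⟨hg1, hg2⟩ := hg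
  obtain ⟨hx1, hx2⟩ := hx
  have hg1' : g ∈ S := hg1
  have hx1' : x ∈ S := hx1
  refine ⟨S.mul_mem (S.mul_mem hg1' hx1') (S.inv_mem hg1'), ?_⟩
  show g * x * g⁻¹ ∈ Subgroup.centralizer (Q : Set Ω)
  rw [Subgroup.mem_centralizer_iff]
  intro y hy
  have h1 : g⁻¹ * y * g ∈ Q := (Subgroup.mem_normalizer_iff''.1 hg2 y).1 hy
  have h2 := Subgroup.mem_centralizer_iff.1 hx2 _ h1
  have h3 : g * (g⁻¹ * y * g * x) * g⁻¹ = g * (x * (g⁻¹ * y * g)) * g⁻¹ := by
    rw [h2]
  calc y * (g * x * g⁻¹) = g * (g⁻¹ * y * g * x) * g⁻¹ := by group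
    _ = g * (x * (g⁻¹ * y * g)) * g⁻¹ := h3
    _ = g * x * g⁻¹ * y := by group

section

variable {E F : FusionSystem S}

theorem Th.mul_right {Q X : Subgroup Ω} {f : Ω → Ω} {a e : MulAut S} (hEF : E.IsSubsystemOf F)
    (hI : InvC E F) (h : Th E F Q X f a) (he : e ∈ E.autGroup S) : Th E F Q X f (a * e) := by
  obtain ⟨g, h1, h2, h3⟩ := h
  exact ⟨g, h1.mul_right le_rfl hI he hEF, h2, h3⟩

theorem Th.of_fr {Q X P : Subgroup Ω} {f g : Ω → Ω} {a c : MulAut S} (hEF : E.IsSubsystemOf F)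
    (hI : InvC E F) (h : Th E F Q X f a) (h1 : Fr E F P g a) (h2 : Fr E F P g c)
    (h3 : E3 E F P) : Th E F Q X f c := by
  have h4 := h.mul_right hEF hI (h3 _ (h2.div le_rfl hEF hI h1))
  rwa [mul_inv_cancel_left] at h4

variable [Finite S] [Fact p.Prime]

/-- The extension `Q C_S(Q)` and its maps. -/
theorem exists_Th (hS : IsPGroup p S) (hF : F.IsSaturated p) (hEF : E.IsSubsystemOf F)
    (hFr : ∀ (P : Subgroup Ω) (f : Ω → Ω), Mp F P f → ∃ a, Fr E F P f a)
    {Q : Subgroup Ω} (hQ : F.IsFullyNormalized Q) {f : Ω → Ω} (hf : Mp F Q f)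
    (hfQ : ∀ x ∈ Q, f x ∈ Q) : ∃ a, Th E F Q (Q ⊔ centralizerIn S Q) f a := by
  have hQS := hQ.1
  have hfin : Finite Q := H802.finite_of_le hQS
  have hI : Im f Q Q := Mp.im_of_maps hf hfQ
  obtain ⟨X, k, hk, hke, hQX, hCX, -, -⟩ :=
    mp_receptive (H802.isReceptive_of_isFullyNormalized hS hF hQ) hf hI
  obtain ⟨a, ha⟩ := hFr _ _ (hk.res (sup_le hQX hCX))
  refine ⟨a, k, ha, ?_, hke⟩
  refine (ha.mp le_rfl hEF).mem_sup (fun x hx => ?_) (fun x hx => ?_)
  · rw [hke x hx]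
    exact (le_sup_left : Q ≤ _) (hfQ x hx)
  · refine (le_sup_right : centralizerIn S Q ≤ _) ⟨hk.mem (hCX hx), ?_⟩
    exact Mp.mem_centralizer hk hQX (hI.congr hke) (hCX hx) hx.2

/-- (i'): maps of `N_F(Q)` on centric subgroups containing `Q`. -/
theorem th_of_centric (hS : IsPGroup p S) (hF : F.IsSaturated p) (hEF : E.IsSubsystemOf F)
    (hI : InvC E F)
    (hFr : ∀ (P : Subgroup Ω) (f : Ω → Ω), Mp F P f → ∃ a, Fr E F P f a)
    (hE3 : ∀ P, F.IsCentric P → E3 E F P) {Q : Subgroup Ω} (hQ : F.IsFullyNormalized Q)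
    {N : FusionSystem (normalizerIn S Q)} (hN : F.IsNormalizerSystem Q N) (hNs : N.IsSaturated p) :
    ∀ (P : Subgroup Ω) (f : Ω → Ω), Mp N P f → Q ≤ P → F.IsCentric P → ∀ a, Fr E F P f a →
      Th E F Q (Q ⊔ centralizerIn S Q) f a := by
  have hQS := hQ.1
  have hfQ : Finite Q := H802.finite_of_le hQS
  have hNf : Finite (normalizerIn S Q) := H802.finite_of_le inf_le_left
  have hNp : IsPGroup p (normalizerIn S Q) := hS.to_le inf_le_left
  have hNF : N.IsSubsystemOf F := normalizerSystem_isSubsystemOf hN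
  have hXS : Q ⊔ centralizerIn S Q ≤ S := sup_le hQS inf_le_left
  have hfX : Finite (Q ⊔ centralizerIn S Q : Subgroup Ω) := H802.finite_of_le hXS
  have hQN : ∀ {P : Subgroup Ω} {f : Ω → Ω}, Mp N P f → Q ≤ P → ∀ x ∈ Q, f x ∈ Q := by
    intro P f hf hQP
    exact ((mp_normalizerSystem_iff' hN hQS hQP).1 hf).2.2
  refine mp_induction N hNp hNs (fun P f => Q ≤ P → F.IsCentric P → ∀ a, Fr E F P f a →
      Th E F Q (Q ⊔ centralizerIn S Q) f a) ?_ ?_ ?_ ?_ ?_
  · intro P f g _ h he hQP hPc a ha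
    exact (h hQP hPc a (ha.congr fun x hx => (he x hx).symm)).congr fun x hx => he x (hQP hx)
  · intro P R f hf h hRP hQR hRc a ha
    have hPS := hf.le.trans inf_le_left
    obtain ⟨b, hb⟩ := hFr _ _ (mp_mono hNF hf)
    exact h (hQR.trans hRP) (H802.isCentric_of_le hRc hRP hPS) a
      (Fr.extend hEF hI hb hRP ha (hE3 R hRc))
  · intro P R f g hf hg h1 h2 hPR hQP hPc a ha
    obtain ⟨b, hb⟩ := hFr _ _ (mp_mono hNF hf)
    obtain ⟨c, hc⟩ := hFr _ _ (mp_mono hNF hg)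
    have hfQ' := hQN hf hQP
    have hQR : Q ≤ R := by
      intro y hy
      obtain ⟨x, hx, rfl⟩ := (Mp.im_of_maps ((mp_mono hNF hf).res hQP) hfQ' y).1 hy
      exact hPR x (hQP hx)
    obtain ⟨P', hP', hP'S, -⟩ := Mp.exists_im (mp_mono hNF hf) le_rfl
    have hRc : F.IsCentric R := by
      refine H802.isCentric_of_le (H802.isCentric_of_isConj hPc
        (Mp.isConj (mp_mono hNF hf) hP')) ?_ (hg.le.trans inf_le_left)
      intro y hy
      obtain ⟨x, hx, rfl⟩ := (hP' y).1 hy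
      exact hPR x hx
    have h3 := (h1 hQP hPc b hb).comp le_rfl hI (h2 hQR hRc c hc) hfQ'
    exact h3.of_fr hEF hI (hb.comp le_rfl hI hc hPR) ha (hE3 P hPc)
  · intro P R f g hf h1 hg hinv hQR hRc a ha
    have hfm := mp_mono hNF hf
    have hgm := mp_mono hNF hg
    have hgP : ∀ y ∈ R, g y ∈ P := fun y hy => by
      obtain ⟨x, hx, -, h⟩ := hinv y hy
      rw [h]; exact hx
    have hfg : ∀ y ∈ R, f (g y) = y := fun y hy => by
      obtain ⟨x, hx, h', h⟩ := hinv y hy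
      rw [h]; exact h'
    have hgQ := hQN hg hQR
    have hIg : Im g Q Q := Mp.im_of_maps (hgm.res hQR) hgQ
    have hQP : Q ≤ P := by
      intro y hy
      obtain ⟨x, hx, rfl⟩ := (hIg y).1 hy
      exact hgP x (hQR hx)
    obtain ⟨R', hR', hR'S, -⟩ := Mp.exists_im hgm le_rfl
    have hR'P : R' ≤ P := by
      intro y hy
      obtain ⟨x, hx, rfl⟩ := (hR' y).1 hy
      exact hgP x hx
    have hPc : F.IsCentric P := H802.isCentric_of_le (H802.isCentric_of_isConj hRc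
        (Mp.isConj hgm hR')) hR'P (hf.le.trans inf_le_left)
    obtain ⟨b, hb⟩ := hFr _ _ hfm
    have h2 := (h1 hQP hPc b hb).symm le_rfl hEF hI le_sup_left (g := g) (fun y hy =>
      ⟨g y, hgQ y hy, hfg y (hQR hy), rfl⟩)
    exact h2.of_fr hEF hI (hb.symm le_rfl hI fun y hy => ⟨g y, hgP y hy, hfg y hy, rfl⟩) ha
      (hE3 R hRc)
  · intro V hVa hVr IH α hα f hfα hQV hVc a ha
    have hVN := hVa.1
    have hVS : V ≤ S := hVN.trans inf_le_left
    have hfV : Finite V := H802.finite_of_le hVS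
    have hfe : ∀ x ∈ V, f x = ac α x := fun x hx => by rw [hfα x hx, ac_apply α hx]
    have hfN : Mp N V f := (mp_ac hVN hα).congr hfe
    have hfF := mp_mono hNF hfN
    have hfQ' := hQN hfN hQV
    have hIf : Im f Q Q := Mp.im_of_maps (hfF.res hQV) hfQ'
    by_cases hCV : centralizerIn S Q ≤ V
    · refine ⟨f, ha.res (sup_le hQV hCV), ?_, fun _ _ => rfl⟩
      refine (hfF.res (sup_le hQV hCV)).mem_sup (fun x hx => ?_) (fun x hx => ?_)
      · exact (le_sup_left : Q ≤ _) (hfQ' x hx)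
      · exact (le_sup_right : centralizerIn S Q ≤ _) ⟨hfF.mem (hCV hx),
          Mp.mem_centralizer hfF hQV hIf (hCV hx) hx.2⟩
    · have hne : V ≠ normalizerIn S Q := by
        rintro rfl
        exact hCV (inf_le_inf_left S (Subgroup.centralizer_le_normalizer _))
      -- the group `K`
      let K : Subgroup (MulAut V) :=
        { carrier := {k | k ∈ N.autGroup V ∧ Fr E F V (ac k) 1 ∧
            Th E F Q (Q ⊔ centralizerIn S Q) (ac k) 1}
          one_mem' := by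
            refine ⟨one_mem _, (Fr.one (mp_id E hVS)).congr fun x hx => ac_one hx, ?_⟩
            exact ⟨fun x => x, Fr.one (mp_id E hXS), fun x hx => hx,
              fun x hx => (ac_one (hQV hx)).symm⟩
          mul_mem' := by
            rintro k k' ⟨h1, h2, h3⟩ ⟨h1', h2', h3'⟩
            refine ⟨mul_mem h1 h1', ?_, ?_⟩
            · have h4 := h2'.comp le_rfl hI h2 fun x hx => ac_mem _ hx
              rw [mul_one] at h4
              exact h4.congr fun x hx => ac_mul _ _ hx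
            · have h4 := h3'.comp le_rfl hI h3 (hQN (mp_ac hVN h1') hQV)
              rw [mul_one] at h4
              exact h4.congr fun x hx => ac_mul _ _ (hQV hx)
          inv_mem' := by
            rintro k ⟨h1, h2, h3⟩
            refine ⟨inv_mem h1, ?_, ?_⟩
            · have h4 := h2.symm le_rfl hI (R := V) (g := ac k⁻¹) fun y hy =>
                ⟨ac k⁻¹ y, ac_mem _ hy, ac_ac_inv k hy, rfl⟩
              rwa [inv_one] at h4
            · have h4 := h3.symm le_rfl hEF hI le_sup_left (g := ac k⁻¹) fun y hy =>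
                ⟨ac k⁻¹ y, hQN (mp_ac hVN (inv_mem h1)) hQV y hy, ac_ac_inv k (hQV hy), rfl⟩
              rwa [inv_one] at h4 }
      have hKA : K ≤ N.autGroup V := fun k hk => hk.1
      have hconj : ∀ (b k : MulAut V), b ∈ N.autGroup V → k ∈ N.autGroup V →
          Fr E F V (ac k) 1 → Th E F Q (Q ⊔ centralizerIn S Q) (ac k) 1 → b * k * b⁻¹ ∈ K := by
        intro b k hb hk h2 h3
        obtain ⟨t, ht⟩ := hFr _ _ (mp_mono hNF (mp_ac hVN hb))
        have hbQ := hQN (mp_ac hVN hb) hQV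
        have hbiQ := hQN (mp_ac hVN (inv_mem hb)) hQV
        have hkQ := hQN (mp_ac hVN hk) hQV
        obtain ⟨t', ht'⟩ := exists_Th hS hF hEF hFr hQ ((mp_mono hNF (mp_ac hVN hb)).res hQV) hbQ
        refine ⟨mul_mem (mul_mem hb hk) (inv_mem hb), ?_, ?_⟩
        · have h4 := ht.symm le_rfl hI (R := V) (g := ac b⁻¹) fun y hy =>
                ⟨ac b⁻¹ y, ac_mem _ hy, ac_ac_inv b hy, rfl⟩
          have h5 := (h4.comp le_rfl hI h2 fun x hx => ac_mem _ hx).comp le_rfl hI ht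
            fun x hx => ac_mem _ (ac_mem _ hx)
          rw [one_mul, mul_inv_cancel] at h5
          exact h5.congr fun x hx => by rw [ac_mul _ _ hx, ac_mul _ _ (ac_mem _ hx)]
        · have h4 := ht'.symm le_rfl hEF hI le_sup_left (g := ac b⁻¹) fun y hy =>
                ⟨ac b⁻¹ y, hbiQ y hy, ac_ac_inv b (hQV hy), rfl⟩
          have h5 := (h4.comp le_rfl hI h3 fun x hx => hbiQ x hx).comp le_rfl hI ht'
            fun x hx => hkQ _ (hbiQ x hx)
          rw [one_mul, mul_inv_cancel] at h5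
          exact h5.congr fun x hx => by rw [ac_mul _ _ (hQV hx), ac_mul _ _ (ac_mem _ (hQV hx))]
      have hcg : ∀ (g : Ω) (hg : g ∈ normalizerIn S Q) (hgV : g ∈ Subgroup.normalizer (V : Set Ω)),
          Fr E F V (ac (H759.conjAut V g hgV)) 1 ∧
          Th E F Q (Q ⊔ centralizerIn S Q) (ac (H759.conjAut V g hgV)) 1 := by
        intro g hg hgV
        constructor
        · exact (Fr.one (mp_conj E hVS hg.1)).congr fun x hx => by
            rw [ac_apply _ hx]; rfl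
        · refine ⟨fun x => g * x * g⁻¹, Fr.one (mp_conj E hXS hg.1), ?_, fun x hx => by
            rw [ac_apply _ (hQV hx)]; rfl⟩
          refine (mp_conj F hXS hg.1).mem_sup (fun x hx => ?_) (fun x hx => ?_)
          · exact (le_sup_left : Q ≤ _) ((Subgroup.mem_normalizer_iff.1 hg.2 x).1 hx)
          · exact (le_sup_right : centralizerIn S Q ≤ _) (conj_mem_centralizerIn hg hx)
      obtain ⟨k, hk, ψ, hψ, h1⟩ := mp_ext_kernel (F := N) hNp
        (N := normalizerIn (normalizerIn S Q) V) hVa hVr hα K hKA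
        (fun b hb k hk => hconj b k hb hk.1 hk.2.1 hk.2.2) inf_le_left inf_le_right (by
          intro g hg
          obtain ⟨h2, h3⟩ := hcg g hg.1 hg.2
          refine ⟨α * H759.conjAut V g hg.2 * α⁻¹, hconj α _ hα
            (conjAut_mem_autGroup hVN hg.1 hg.2) h2 h3, 1,
            one_mem _, one_mem _, fun x hx => ?_⟩
          rw [one_mul, inv_one, mul_one, ac_conj_apply hg.2 hx])
      have hcard : Nat.card V < Nat.card (V ⊔ normalizerIn (normalizerIn S Q) V : Subgroup Ω) := by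
        have hfin : Finite (V ⊔ normalizerIn (normalizerIn S Q) V : Subgroup Ω) :=
          H802.finite_of_le (sup_le hVS (inf_le_left.trans inf_le_left))
        exact (H802.card_lt_card_normalizerIn hNp hVN hne).trans_le
          (Nat.card_mono (Set.toFinite _) (le_sup_right : normalizerIn _ V ≤ _))
      have hψF := mp_mono hNF hψ
      obtain ⟨t, ht⟩ := hFr _ _ hψF
      have h2 := IH _ ψ hψ hcard (hQV.trans le_sup_left) (H802.isCentric_of_le hVc le_sup_left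
        hψF.le) t ht
      obtain ⟨hk1, hk2, hk3⟩ := K.inv_mem hk
      have hψQ := hQN hψ (hQV.trans le_sup_left)
      have h3 := h2.comp le_rfl hI hk3 hψQ
      have h4 := (ht.res (le_sup_left : V ≤ _)).comp le_rfl hI hk2 fun x hx => by
        rw [h1 x hx]
        exact ac_mem _ (ac_mem _ hx)
      have hcomp : ∀ x ∈ V, ac k⁻¹ (ψ x) = f x := fun x hx => by
        rw [h1 x hx, ac_inv_ac k (ac_mem _ hx), hfe x hx]
      exact (h3.congr fun x hx => (hcomp x (hQV hx)).symm).of_fr hEF hI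
        (h4.congr fun x hx => (hcomp x hx).symm) ha (hE3 V hVc)

/-- (ii): every map of `N_F(Q)` extends to a map with source containing `Q` and compatible Frattini
factor. -/
theorem exists_th (hS : IsPGroup p S) (hF : F.IsSaturated p) (hEF : E.IsSubsystemOf F)
    (hI : InvC E F)
    (hFr : ∀ (P : Subgroup Ω) (f : Ω → Ω), Mp F P f → ∃ a, Fr E F P f a)
    (hE3 : ∀ P, F.IsCentric P → E3 E F P) {Q : Subgroup Ω} (hQ : F.IsFullyNormalized Q)
    {N : FusionSystem (normalizerIn S Q)} (hN : F.IsNormalizerSystem Q N) (hNs : N.IsSaturated p) :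
    ∀ (P : Subgroup Ω) (f : Ω → Ω), Mp N P f → ∃ k, Mp N (P ⊔ Q) k ∧ (∀ x ∈ P, k x = f x) ∧
      ∃ a, Fr E F (P ⊔ Q) k a ∧ Th E F Q (Q ⊔ centralizerIn S Q) k a := by
  have hQS := hQ.1
  have hQNS : Q ≤ normalizerIn S Q := le_inf hQS Subgroup.le_normalizer
  have hfQ : Finite Q := H802.finite_of_le hQS
  have hNf : Finite (normalizerIn S Q) := H802.finite_of_le inf_le_left
  have hNp : IsPGroup p (normalizerIn S Q) := hS.to_le inf_le_left
  have hNF : N.IsSubsystemOf F := normalizerSystem_isSubsystemOf hN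
  have hXS : Q ⊔ centralizerIn S Q ≤ S := sup_le hQS inf_le_left
  have hfX : Finite (Q ⊔ centralizerIn S Q : Subgroup Ω) := H802.finite_of_le hXS
  have hQN : ∀ {P : Subgroup Ω} {f : Ω → Ω}, Mp N P f → Q ≤ P → ∀ x ∈ Q, f x ∈ Q := by
    intro P f hf hQP
    exact ((mp_normalizerSystem_iff' hN hQS hQP).1 hf).2.2
  refine mp_induction N hNp hNs (fun P f => ∃ k, Mp N (P ⊔ Q) k ∧ (∀ x ∈ P, k x = f x) ∧
      ∃ a, Fr E F (P ⊔ Q) k a ∧ Th E F Q (Q ⊔ centralizerIn S Q) k a) ?_ ?_ ?_ ?_ ?_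
  · rintro P f g _ ⟨k, h1, h2, h3⟩ he
    exact ⟨k, h1, fun x hx => (h2 x hx).trans (he x hx).symm, h3⟩
  · rintro P R f _ ⟨k, h1, h2, a, h3, h4⟩ hRP
    have hle : R ⊔ Q ≤ P ⊔ Q := sup_le_sup_right hRP Q
    exact ⟨k, h1.res hle, fun x hx => h2 x (hRP hx), a, h3.res hle, h4⟩
  · rintro P R f g _ _ ⟨k, h1, h2, a, h3, h4⟩ ⟨k', h1', h2', a', h3', h4'⟩ hPR
    have hkQ := hQN h1 le_sup_right
    have hm : ∀ x ∈ P ⊔ Q, k x ∈ R ⊔ Q := h1.mem_sup
      (fun x hx => (le_sup_left : R ≤ _) (by rw [h2 x hx]; exact hPR x hx))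
      (fun x hx => (le_sup_right : Q ≤ _) (hkQ x hx))
    refine ⟨_, h1.comp h1' hm, fun x hx => ?_, _, h3.comp le_rfl hI h3' hm,
      h4.comp le_rfl hI h4' hkQ⟩
    show k' (k x) = g (f x)
    rw [h2 x hx, h2' _ (hPR x hx)]
  · rintro P R f g hf ⟨k, h1, h2, a, h3, h4⟩ hg hinv
    have hkQ := hQN h1 le_sup_right
    have hIk : Im k Q Q := Mp.im_of_maps (h1.res le_sup_right) hkQ
    obtain ⟨W, hW, hWS, -⟩ := Mp.exists_im h1 le_rfl
    obtain ⟨i, hi, hi1, hi2⟩ := h1.exists_symm le_rfl hW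
    have hRW : R ≤ W := by
      intro y hy
      obtain ⟨x, hx, hxy, -⟩ := hinv y hy
      rw [← hxy, ← h2 x hx]
      exact hW.apply ((le_sup_left : P ≤ _) hx)
    have hQW : Q ≤ W := by
      intro y hy
      obtain ⟨x, hx, rfl⟩ := (hIk y).1 hy
      exact hW.apply ((le_sup_right : Q ≤ _) hx)
    have hiI : ∀ y ∈ Q, ∃ x ∈ Q, k x = y ∧ i y = x := by
      intro y hy
      obtain ⟨x, hx, rfl⟩ := (hIk y).1 hy
      exact ⟨x, hx, rfl, hi1 x ((le_sup_right : Q ≤ _) hx)⟩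
    refine ⟨i, hi.res (sup_le hRW hQW), fun y hy => ?_, a⁻¹, ?_,
      h4.symm le_rfl hEF hI le_sup_left hiI⟩
    · obtain ⟨x, hx, hxy, hgy⟩ := hinv y hy
      rw [hgy, ← hxy, ← h2 x hx]
      exact hi1 x ((le_sup_left : P ≤ _) hx)
    · exact h3.symm le_rfl hI fun y hy => by
        have hyW := sup_le hRW hQW hy
        exact ⟨i y, (hi2 y hyW).1, (hi2 y hyW).2, rfl⟩
  · intro V hVa hVr IH α hα f hfα
    have hVN := hVa.1
    have hVS : V ≤ S := hVN.trans inf_le_left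
    have hfV : Finite V := H802.finite_of_le hVS
    have hfe : ∀ x ∈ V, f x = ac α x := fun x hx => by rw [hfα x hx, ac_apply α hx]
    have hfN : Mp N V f := (mp_ac hVN hα).congr hfe
    have hfF := mp_mono hNF hfN
    -- it suffices to extend `f` to a bigger subgroup
    have hbig : ∀ (R : Subgroup Ω) (k : Ω → Ω), Mp N R k → V ≤ R → Nat.card V < Nat.card R →
        (∀ x ∈ V, k x = f x) → ∃ k, Mp N (V ⊔ Q) k ∧ (∀ x ∈ V, k x = f x) ∧
        ∃ a, Fr E F (V ⊔ Q) k a ∧ Th E F Q (Q ⊔ centralizerIn S Q) k a := by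
      intro R k hk hVR hcard he
      obtain ⟨k', h1, h2, a, h3, h4⟩ := IH R k hk hcard
      have hle : V ⊔ Q ≤ R ⊔ Q := sup_le_sup_right hVR Q
      exact ⟨k', h1.res hle, fun x hx => (h2 x (hVR hx)).trans (he x hx), a, h3.res hle, h4⟩
    by_cases hQV : Q ≤ V
    · by_cases hVc : N.IsCentric V
      · have hVF := isCentric_of_normalizerSystem hS hF hQ hN hQV hVc
        obtain ⟨a, ha⟩ := hFr _ _ hfF
        rw [sup_eq_left.2 hQV]
        exact ⟨f, hfN, fun _ _ => rfl, a, ha,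
          th_of_centric hS hF hEF hI hFr hE3 hQ hN hNs V f hfN hQV hVF a ha⟩
      · obtain ⟨R, hVR, hcard, ψ, hψ, he⟩ := H802.exists_extension_of_not_centric hVr hVc hα
        refine hbig R (ex ψ) (mp_ex hψ) hVR hcard fun x hx => ?_
        rw [ex_apply _ (hVR hx), he x hx, hfα x hx]
    · obtain ⟨-, -, k, hk, hke, hkI⟩ := (mp_normalizerSystem_iff hN).1 hfN
      have hlt : Nat.card V < Nat.card (V ⊔ Q : Subgroup Ω) := by
        have hfin : Finite (V ⊔ Q : Subgroup Ω) := H802.finite_of_le hk.le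
        refine lt_of_le_of_ne (Subgroup.card_le_of_le le_sup_left) fun h => hQV ?_
        rw [Subgroup.eq_of_le_of_card_ge le_sup_left h.ge]
        exact le_sup_right
      refine hbig (V ⊔ Q) k ?_ le_sup_left hlt hke
      rw [mp_normalizerSystem_iff' hN hQS le_sup_right]
      exact ⟨hk, sup_le hVN hQNS, fun x hx => hkI.apply hx⟩

/-- (C2). -/
theorem c2 (hS : IsPGroup p S) (hF : F.IsSaturated p) (hEF : E.IsSubsystemOf F)
    (hI : InvC E F)
    (hFr : ∀ (P : Subgroup Ω) (f : Ω → Ω), Mp F P f → ∃ a, Fr E F P f a)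
    (𝒬 : Subgroup Ω → Prop) (h𝒬S : 𝒬 S) (h𝒬c : ∀ P Q, 𝒬 P → F.IsConj P Q → 𝒬 Q)
    (hgen : ∀ D : FusionSystem S, (∀ P f, 𝒬 P → Mp E P f → Mp D P f) → ∀ P f, Mp E P f → Mp D P f)
    (hE3' : ∀ P, 𝒬 P → E3 E F P)
    (hE3 : ∀ P, F.IsCentric P → E3 E F P) :
    ∀ Q : Subgroup Ω, Q ≤ S → F.IsFullyNormalized Q → ∀ a, Fr E F Q (fun x => x) a →
      ∃ g, Fr E F (Q ⊔ centralizerIn S Q) g a ∧ ∀ x ∈ Q, g x = x := by
  refine down_ind _ ?_
  intro Q hQS IH hQ a ha
  have hXS : Q ⊔ centralizerIn S Q ≤ S := sup_le hQS inf_le_left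
  have hfX : Finite (Q ⊔ centralizerIn S Q : Subgroup Ω) := H802.finite_of_le hXS
  have hfQ : Finite Q := H802.finite_of_le hQS
  by_cases hEQ : E3 E F Q
  · refine ⟨fun x => x, ?_, fun _ _ => rfl⟩
    have h1 := (Fr.one (F := F) (mp_id E hXS)).mul_right le_rfl hI (hEQ a ha) hEF
    rwa [one_mul] at h1
  have hQ𝒬 : ∀ P, F.IsConj Q P → ¬ 𝒬 P := fun P hP h => hEQ (hE3' Q (h𝒬c P Q h (H802.isConj_symm hP)))
  obtain ⟨N, hN⟩ := H802.exists_normalizerSystem F hQS
  have hNs := H802.normalizerSystem_isSaturated hS hF hQ hN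
  have hNF : N.IsSubsystemOf F := normalizerSystem_isSubsystemOf hN
  have hi' := th_of_centric hS hF hEF hI hFr hE3 hQ hN hNs
  have hii := exists_th hS hF hEF hI hFr hE3 hQ hN hNs
  have hQNS : Q ≤ normalizerIn S Q := le_inf hQS Subgroup.le_normalizer
  have hQN : ∀ {P : Subgroup Ω} {f : Ω → Ω}, Mp N P f → Q ≤ P → ∀ x ∈ Q, f x ∈ Q := by
    intro P f hf hQP
    exact ((mp_normalizerSystem_iff' hN hQS hQP).1 hf).2.2
  suffices hext : ∀ (W : Subgroup Ω) (f : Ω → Ω) (a : MulAut S), Q ≤ W → Q ≠ W →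
      W ≤ normalizerIn S Q → Fr E F W f a → (∀ x ∈ Q, f x ∈ Q) →
      Th E F Q (Q ⊔ centralizerIn S Q) f a by
    obtain ⟨g, h1, -, h2⟩ := chain_lemma (X := Q ⊔ centralizerIn S Q) hS hF hEF hI hFr 𝒬 h𝒬S hgen
      hQ le_sup_left hXS hQ𝒬 hext ha
    exact ⟨g, h1, h2⟩
  intro W f a hQW hne hWN hf hfQ'
  have hWS : W ≤ S := hWN.trans inf_le_left
  have hfW : Finite W := H802.finite_of_le hWS
  have hfm := hf.mp le_rfl hEF
  have hWlt : Nat.card Q < Nat.card W := lt_of_le_of_ne (Subgroup.card_le_of_le hQW) fun h =>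
    hne (Subgroup.eq_of_le_of_card_ge hQW h.ge)
  -- the Frattini factors of the identity of `W`
  have hid : ∀ x, Fr E F W (fun x => x) x →
      Th E F Q (Q ⊔ centralizerIn S Q) (fun x => x) x := by
    obtain ⟨W₁, hWW₁, hW₁n⟩ := H802.exists_isFullyNormalized hS hF hWS
    obtain ⟨κ₀, hκ₀, hκ₀I⟩ := exists_mp_of_isConj hWW₁
    obtain ⟨κ, hκ, hκI⟩ := mp_normalizer hS hF hW₁n hκ₀ hκ₀I
    have hWNW : W ≤ normalizerIn S W := le_inf hWS Subgroup.le_normalizer
    have hW₁S := hW₁n.1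
    have hfW₁ : Finite W₁ := H802.finite_of_le hW₁S
    obtain ⟨Q₁, hQ₁, hQ₁S, -⟩ := Mp.exists_im hκ (hQW.trans hWNW)
    obtain ⟨j, hj, hj1, hj2⟩ := hκ.exists_symm (hQW.trans hWNW) hQ₁
    have hjI : Im j Q₁ Q := hQ₁.symm hj1
    obtain ⟨k, hk, hkI⟩ := mp_normalizer hS hF hQ hj hjI
    have hQ₁W₁ : Q₁ ≤ W₁ := by
      intro y hy
      obtain ⟨x, hx, rfl⟩ := (hQ₁ y).1 hy
      exact hκI.apply (hQW hx)
    have hW₁N : W₁ ≤ normalizerIn S Q₁ := by
      intro y hy
      obtain ⟨x, hx, rfl⟩ := (hκI y).1 hy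
      exact ⟨hκ.mem (hWNW hx), Mp.mem_normalizer hκ (hQW.trans hWNW) hQ₁ (hWNW hx) (hWN hx).2⟩
    have hC₁N : centralizerIn S W₁ ≤ normalizerIn S Q₁ := by
      refine le_inf inf_le_left (inf_le_right.trans ?_)
      exact (Subgroup.centralizer_le hQ₁W₁).trans (Subgroup.centralizer_le_normalizer _)
    have hV₁N : W₁ ⊔ centralizerIn S W₁ ≤ normalizerIn S Q₁ := sup_le hW₁N hC₁N
    have hV₁S : W₁ ⊔ centralizerIn S W₁ ≤ S := sup_le hW₁S inf_le_left
    have hfV₁ : Finite (W₁ ⊔ centralizerIn S W₁ : Subgroup Ω) := H802.finite_of_le hV₁S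
    obtain ⟨s, hs⟩ := hFr _ _ hκ
    obtain ⟨r, hr⟩ := hFr _ _ hk
    have hcard₁ : Nat.card Q < Nat.card W₁ := by
      rw [← H802.isConj_card_eq hWW₁]; exact hWlt
    have hIH := IH W₁ hW₁S hcard₁ hW₁n
    obtain ⟨V, hV, hVS, -⟩ := Mp.exists_im hk hV₁N
    obtain ⟨i, hi, hi1, hi2⟩ := hk.exists_symm hV₁N hV
    have hVN : V ≤ normalizerIn S Q := by
      intro y hy
      obtain ⟨x, hx, rfl⟩ := (hV y).1 hy
      exact ⟨hVS hy, Mp.mem_normalizer hk (hQ₁W₁.trans hW₁N) hkI (hV₁N hx) (hV₁N hx).2⟩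
    have hQV : Q ≤ V := by
      intro y hy
      obtain ⟨x, hx, rfl⟩ := (hkI y).1 hy
      exact hV.apply ((le_sup_left : W₁ ≤ _) (hQ₁W₁ hx))
    have hVc : F.IsCentric V := H802.isCentric_of_isConj
      (isCentric_sup_centralizer (H802.isFullyCentralized_of_isFullyNormalized hS hF hW₁n))
      (Mp.isConj (hk.res hV₁N) hV)
    have hi₁ : Fr E F V i r⁻¹ := (hr.res hV₁N).symm le_rfl hI fun y hy =>
      ⟨i y, (hi2 y hy).1, (hi2 y hy).2, rfl⟩
    -- first form
    have hA : ∀ x, Fr E F W (fun x => x) x →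
        Th E F Q (Q ⊔ centralizerIn S Q) (fun x => x) (r * s * x * (r * s)⁻¹) := by
      intro x hx
      obtain ⟨m, hm, hm1, hm2⟩ := hκ.exists_symm hWNW hκI
      have hmF : Fr E F W₁ m s⁻¹ := (hs.res hWNW).symm le_rfl hI fun y hy =>
        ⟨m y, (hm2 y hy).1, (hm2 y hy).2, rfl⟩
      have h1 := (hmF.comp le_rfl hI hx fun y hy => (hm2 y hy).1).comp le_rfl hI hs
        fun y hy => hWNW (hm2 y hy).1
      have h2 : Fr E F W₁ (fun x => x) (s * (x * s⁻¹)) := h1.congr fun y hy => (hm2 y hy).2.symm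
      obtain ⟨γ, hγ, hγe⟩ := hIH _ h2
      have hγm := hγ.mp le_rfl hEF
      have hγV : ∀ y ∈ W₁ ⊔ centralizerIn S W₁, γ y ∈ W₁ ⊔ centralizerIn S W₁ := by
        refine hγm.mem_sup (fun y hy => ?_) (fun y hy => ?_)
        · rw [hγe y hy]
          exact (le_sup_left : W₁ ≤ _) hy
        · refine (le_sup_right : centralizerIn S W₁ ≤ _)
            ⟨hγm.mem ((le_sup_right : centralizerIn S W₁ ≤ _) hy), ?_⟩
          exact Mp.mem_centralizer hγm le_sup_left ((Im.id W₁).congr hγe)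
            ((le_sup_right : centralizerIn S W₁ ≤ _) hy) hy.2
      have h3 := (hi₁.comp le_rfl hI hγ fun y hy => (hi2 y hy).1).comp le_rfl hI hr
        fun y hy => hV₁N (hγV _ (hi2 y hy).1)
      have h4 : ∀ y ∈ Q, k (γ (i y)) = y := by
        intro y hy
        obtain ⟨z, hz, rfl⟩ := (hkI y).1 hy
        have hz' : z ∈ W₁ ⊔ centralizerIn S W₁ := (le_sup_left : W₁ ≤ _) (hQ₁W₁ hz)
        rw [hi1 z hz', hγe z (hQ₁W₁ hz)]
      have h5 : Mp N V (fun y => k (γ (i y))) := by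
        rw [mp_normalizerSystem_iff' hN hQS hQV]
        exact ⟨h3.mp le_rfl hEF, hVN, fun y hy => by rw [h4 y hy]; exact hy⟩
      have h6 := (hi' V _ h5 hQV hVc _ h3).congr (g := fun x => x) fun y hy => (h4 y hy).symm
      have h7 : r * (s * (x * s⁻¹) * r⁻¹) = r * s * x * (r * s)⁻¹ := by group
      rwa [h7] at h6
    -- the map `λ`
    have hlamN : Mp N W (fun x => k (κ x)) := by
      rw [mp_normalizerSystem_iff' hN hQS hQW]
      exact ⟨(hκ.res hWNW).comp hk fun x hx => hW₁N (hκI.apply hx), hWN,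
        fun x hx => hkI.apply (hQ₁.apply hx)⟩
    have hlam : Fr E F W (fun x => k (κ x)) (r * s) :=
      (hs.res hWNW).comp le_rfl hI hr fun x hx => hW₁N (hκI.apply hx)
    obtain ⟨k', hk'N, hk'e, δ, hδ, hδT⟩ := hii W _ hlamN
    have hδ' : Fr E F W (fun x => k (κ x)) δ := (hδ.res le_sup_left).congr fun x hx =>
      (hk'e x hx).symm
    have hδT' : Th E F Q (Q ⊔ centralizerIn S Q) (fun x => k (κ x)) δ := hδT.congr fun x hx =>
      (hk'e x (hQW hx)).symm
    have hy := hlam.div le_rfl hEF hI hδ'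
    intro x hx
    have hy' : Fr E F W (fun x => x) (δ⁻¹ * (r * s))⁻¹ :=
      hy.symm le_rfl hI fun z hz => ⟨z, hz, rfl, rfl⟩
    have hx' : Fr E F W (fun x => x) ((δ⁻¹ * (r * s))⁻¹ * (x * (δ⁻¹ * (r * s)))) :=
      (hy.comp le_rfl hI hx fun z hz => hz).comp le_rfl hI hy' fun z hz => hz
    have h1 := hA _ hx'
    have hlamQ := hQN hlamN hQW
    have hlamI : Im (fun x => k (κ x)) Q Q := Mp.im_of_maps ((mp_mono hNF hlamN).res hQW) hlamQ
    obtain ⟨m, hm, hm1, hm2⟩ := (mp_mono hNF hlamN).exists_symm hQW hlamI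
    have h2 := hδT'.symm le_rfl hEF hI le_sup_left (g := m) fun y hy =>
      ⟨m y, (hm2 y hy).1, (hm2 y hy).2, rfl⟩
    have h3 := (hδT'.comp le_rfl hI h1 hlamQ).comp le_rfl hI h2 hlamQ
    have h4 : δ⁻¹ * (r * s * ((δ⁻¹ * (r * s))⁻¹ * (x * (δ⁻¹ * (r * s)))) * (r * s)⁻¹ * δ) = x := by
      group
    rw [h4] at h3
    exact h3.congr fun y hy => (hm1 y hy).symm
  have hfN : Mp N W f := by
    rw [mp_normalizerSystem_iff' hN hQS hQW]
    exact ⟨hfm, hWN, hfQ'⟩
  obtain ⟨k, hkN, hke, b, hb, hbT⟩ := hii W f hfN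
  have hb' : Fr E F W f b := (hb.res le_sup_left).congr fun x hx => (hke x hx).symm
  have h1 := (hid _ (hf.div le_rfl hEF hI hb')).comp le_rfl hI (hbT.congr (g := f)
    fun x hx => (hke x (hQW hx)).symm) fun x hx => hx
  rwa [mul_inv_cancel_left] at h1

end

end Cfsg.Agent.H770
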