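import Cfsg.Agent.H770.MpExt

/-!
# The chain lemma (helper770)

`E ≤ F` systems over `S`, `E` invariant under `Aut_F(S)` and with the Frattini property, generated by its maps on a
family `𝒬`. For a fully normalized `Q ∉ 𝒬` the Frattini factors of the identity of `Q` are realized on a bigger
subgroup `X` as soon as this holds "locally".
-/

set_option autoImplicit false

namespace Cfsg.Agent.H770

open Cfsg Cfsg.FusionSystem Cfsg.Agent.H752

variable {Ω : Type*} [Group Ω] {S T : Subgroup Ω} {p : ℕ}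

/-- `f` on `Q` extends to a map from `X` to `X` with Frattini factor `a`. -/
def Th (E : FusionSystem T) (F : FusionSystem S) (Q X : Subgroup Ω) (f : Ω → Ω) (a : MulAut T) :
    Prop :=
  ∃ g, Fr E F X g a ∧ (∀ x ∈ X, g x ∈ X) ∧ ∀ x ∈ Q, g x = f x

section Th

variable {E : FusionSystem T} {F : FusionSystem S} {Q X : Subgroup Ω} {f g : Ω → Ω}
  {a b : MulAut T}

theorem Th.congr (h : Th E F Q X f a) (he : ∀ x ∈ Q, g x = f x) : Th E F Q X g a := by
  obtain ⟨k, h1, h2, h3⟩ := h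
  exact ⟨k, h1, h2, fun x hx => (h3 x hx).trans (he x hx).symm⟩

theorem Th.comp (hTS : T ≤ S) (hI : InvC E F) (hf : Th E F Q X f a) (hg : Th E F Q X g b)
    (hQ : ∀ x ∈ Q, f x ∈ Q) : Th E F Q X (fun x => g (f x)) (b * a) := by
  obtain ⟨k, h1, h2, h3⟩ := hf
  obtain ⟨k', h1', h2', h3'⟩ := hg
  refine ⟨_, h1.comp hTS hI h1' h2, fun x hx => h2' _ (h2 x hx), fun x hx => ?_⟩
  show k' (k x) = _
  rw [h3 x hx, h3' _ (hQ x hx)]

theorem Th.symm [Finite X] (hTS : T ≤ S) (hEF : E.IsSubsystemOf F) (hI : InvC E F)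
    (hQX : Q ≤ X) (hf : Th E F Q X f a)
    (hg : ∀ y ∈ Q, ∃ x ∈ Q, f x = y ∧ g y = x) : Th E F Q X g a⁻¹ := by
  obtain ⟨k, h1, h2, h3⟩ := hf
  have hm := h1.mp hTS hEF
  obtain ⟨k', h4, h5, h6⟩ := hm.exists_symm le_rfl (T := X) (Mp.im_of_maps hm h2)
  refine ⟨k', h1.symm hTS hI fun y hy => ?_, fun x hx => (h6 x hx).1, fun y hy => ?_⟩
  · exact ⟨k' y, (h6 y hy).1, (h6 y hy).2, rfl⟩
  · obtain ⟨x, hx, rfl, hgy⟩ := hg y hy
    rw [hgy, ← h3 x hx, h5 x (hQX hx)]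

end Th

section chain

variable {E F : FusionSystem S}

/-- The transport condition. -/
def Cl (E F : FusionSystem S) (Q X : Subgroup Ω) (P : Subgroup Ω) (f : Ω → Ω) : Prop :=
  ∀ (P' P'' : Subgroup Ω) (k' k'' g : Ω → Ω) (t' t'' : MulAut S), P' ≤ P → Im f P' P'' →
    Fr E F (normalizerIn S P') k' t' → Im k' P' Q →
    Fr E F (normalizerIn S P'') k'' t'' → Im k'' P'' Q →
    (∀ x ∈ P', g (k' x) = k'' (f x)) → Th E F Q X g (t'' * t'⁻¹)

/-- The one-step lemma. -/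
theorem chain_step [Finite S] (hEF : E.IsSubsystemOf F) (hI : InvC E F) {Q X : Subgroup Ω}
    (hext : ∀ (W : Subgroup Ω) (f : Ω → Ω) (a : MulAut S), Q ≤ W → Q ≠ W → W ≤ normalizerIn S Q →
      Fr E F W f a → (∀ x ∈ Q, f x ∈ Q) → Th E F Q X f a)
    {P' P'' Y : Subgroup Ω} {k' k'' f g : Ω → Ω} {t' t'' : MulAut S} (hP'Y : P' ≤ Y)
    (hne : P' ≠ Y) (hYN : Y ≤ normalizerIn S P') (hf : Mp E Y f) (hfI : Im f P' P'')
    (h1 : Fr E F (normalizerIn S P') k' t') (h2 : Im k' P' Q)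
    (h3 : Fr E F (normalizerIn S P'') k'' t'') (h4 : Im k'' P'' Q)
    (hg : ∀ x ∈ P', g (k' x) = k'' (f x)) : Th E F Q X g (t'' * t'⁻¹) := by
  have hk'm := h1.mp le_rfl hEF
  have hk''m := h3.mp le_rfl hEF
  obtain ⟨W, hW, hWS, hWc⟩ := Mp.exists_im hk'm hYN
  obtain ⟨i, hi, hi1, hi2⟩ := hk'm.exists_symm hYN hW
  have hPN : P' ≤ normalizerIn S P' := hP'Y.trans hYN
  have hfY : ∀ x ∈ Y, f x ∈ normalizerIn S P'' := fun x hx =>
    ⟨hf.mem hx, Mp.mem_normalizer hf hP'Y hfI hx (hYN hx).2⟩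
  have hFi : Fr E F W i t'⁻¹ := (h1.res hYN).symm le_rfl hI fun y hy =>
    ⟨i y, (hi2 y hy).1, (hi2 y hy).2, rfl⟩
  have hη : Fr E F W (fun w => k'' (f (i w))) (t'' * (1 * t'⁻¹)) :=
    (hFi.comp le_rfl hI (Fr.one hf) fun y hy => (hi2 y hy).1).comp le_rfl hI h3
      fun y hy => hfY _ (hi2 y hy).1
  rw [one_mul] at hη
  have hQW : Q ≤ W := by
    intro y hy
    obtain ⟨x, hx, rfl⟩ := (h2 y).1 hy
    exact hW.apply (hP'Y hx)
  have hfin : Finite Y := H802.finite_of_le (hYN.trans inf_le_left)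
  have hQW' : Q ≠ W := by
    rintro rfl
    have h5 := Mp.im_card (hk'm.res hPN) h2
    exact hne (Subgroup.eq_of_le_of_card_ge hP'Y (by rw [← hWc, h5]))
  refine (hext W _ _ hQW hQW' ?_ hη ?_).congr ?_
  · intro w hw
    obtain ⟨y, hy, rfl⟩ := (hW w).1 hw
    exact ⟨hWS hw, Mp.mem_normalizer (hk'm) hPN h2 (hYN hy) (hYN hy).2⟩
  · intro y hy
    obtain ⟨x, hx, rfl⟩ := (h2 y).1 hy
    rw [hi1 x (hP'Y hx)]
    exact h4.apply (hfI.apply hx)
  · intro y hy
    obtain ⟨x, hx, rfl⟩ := (h2 y).1 hy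
    rw [hi1 x (hP'Y hx), hg x hx]

/-- **Chain lemma.** -/
theorem chain_lemma [Finite S] [Fact p.Prime] (hS : IsPGroup p S) (hF : F.IsSaturated p)
    (hEF : E.IsSubsystemOf F) (hI : InvC E F)
    (hFr : ∀ (P : Subgroup Ω) (f : Ω → Ω), Mp F P f → ∃ a, Fr E F P f a)
    (𝒬 : Subgroup Ω → Prop) (h𝒬S : 𝒬 S)
    (hgen : ∀ D : FusionSystem S, (∀ P f, 𝒬 P → Mp E P f → Mp D P f) → ∀ P f, Mp E P f → Mp D P f)
    {Q X : Subgroup Ω} (hQ : F.IsFullyNormalized Q) (hQX : Q ≤ X) (hXS : X ≤ S)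
    (hQ𝒬 : ∀ P, F.IsConj Q P → ¬ 𝒬 P)
    (hext : ∀ (W : Subgroup Ω) (f : Ω → Ω) (a : MulAut S), Q ≤ W → Q ≠ W → W ≤ normalizerIn S Q →
      Fr E F W f a → (∀ x ∈ Q, f x ∈ Q) → Th E F Q X f a)
    {a : MulAut S} (ha : Fr E F Q (fun x => x) a) : Th E F Q X (fun x => x) a := by
  have hQS := hQ.1
  have hfX : Finite X := H802.finite_of_le hXS
  -- the maps of `E` on members of `𝒬` satisfy the transport condition
  have hkey : ∀ (P : Subgroup Ω) (f : Ω → Ω), 𝒬 P → Mp E P f → Cl E F Q X P f := by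
    intro P f hP hf P' P'' k' k'' g t' t'' hP'P hfI h1 h2 h3 h4 hg
    have hk'm := h1.mp le_rfl hEF
    have hPN : P' ≤ normalizerIn S P' := le_inf (hP'P.trans hf.le) Subgroup.le_normalizer
    have hconj : F.IsConj Q P' := H802.isConj_symm (Mp.isConj (hk'm.res hPN) h2)
    have hne : P' ≠ P := fun h => hQ𝒬 P' hconj (h ▸ hP)
    have hlt := H802.lt_inf_normalizer hS hP'P hf.le hne
    exact chain_step hEF hI hext (Y := P ⊓ Subgroup.normalizer (P' : Set Ω)) hlt.le hlt.ne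
      (inf_le_inf_right _ hf.le) (hf.res inf_le_left) hfI h1 h2 h3 h4 hg
  let D : FusionSystem S := subSys F S (Cl E F Q X)
    (by
      intro P f g hf h he P' P'' k' k'' g' t' t'' hP'P hfI h1 h2 h3 h4 hg
      exact h P' P'' k' k'' g' t' t'' hP'P (hfI.congr fun x hx => (he x (hP'P hx)).symm) h1 h2 h3 h4
        fun x hx => by rw [hg x hx, he x (hP'P hx)])
    (fun P f hf _ => ⟨hf.le, fun x hx => hf.mem hx⟩)
    (by
      intro P hP s hs
      refine ⟨mp_conj F hP hs, ?_⟩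
      intro P' P'' k' k'' g' t' t'' hP'P hfI h1 h2 h3 h4 hg
      exact hkey S _ h𝒬S (mp_conj E le_rfl hs) P' P'' k' k'' g' t' t'' (hP'P.trans hP) hfI h1 h2
        h3 h4 hg)
    (by
      intro P R f h hf hh hCf hCh hPR P' P''' k' k''' g t' t''' hP'P hI3 h1 h2 h3 h4 hg
      obtain ⟨P'', hP'', hP''S, -⟩ := Mp.exists_im hf hP'P
      have hP''R : P'' ≤ R := by
        intro y hy
        obtain ⟨x, hx, rfl⟩ := (hP'' y).1 hy
        exact hPR x (hP'P hx)
      have hI4 : Im h P'' P''' := fun y => by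
        rw [hI3 y]
        constructor
        · rintro ⟨x, hx, rfl⟩
          exact ⟨f x, hP''.apply hx, rfl⟩
        · rintro ⟨z, hz, rfl⟩
          obtain ⟨x, hx, rfl⟩ := (hP'' z).1 hz
          exact ⟨x, hx, rfl⟩
      -- a map `P'' → Q`
      have hk'm := h1.mp le_rfl hEF
      have hk'''m := h3.mp le_rfl hEF
      have hPN''' : P''' ≤ normalizerIn S P''' := le_inf (Mp.im_le (hh.res hP''R) hI4)
        Subgroup.le_normalizer
      have hQ'' : Mp F P'' (fun x => k''' (h x)) :=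
        (hh.res hP''R).comp hk'''m fun x hx => hPN''' (hI4.apply hx)
      obtain ⟨k'', hk''m, hk''I⟩ := mp_normalizer hS hF hQ hQ'' (hI4.comp h4)
      obtain ⟨t'', ht''⟩ := hFr _ _ hk''m
      -- the maps of `Q`
      obtain ⟨i', hi'm, hi'1, hi'2⟩ := hk'm.exists_symm (le_inf (hP'P.trans hf.le)
        Subgroup.le_normalizer) h2
      have hP''N : P'' ≤ normalizerIn S P'' := le_inf hP''S Subgroup.le_normalizer
      obtain ⟨i'', hi''m, hi''1, hi''2⟩ := hk''m.exists_symm hP''N hk''I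
      have hA := hCf P' P'' k' k'' (fun y => k'' (f (i' y))) t' t'' hP'P hP'' h1 h2 ht'' hk''I
        fun x hx => by
          show k'' (f (i' (k' x))) = _
          rw [hi'1 x hx]
      have hB := hCh P'' P''' k'' k''' (fun y => k''' (h (i'' y))) t'' t''' hP''R hI4 ht'' hk''I
        h3 h4 fun x hx => by
          show k''' (h (i'' (k'' x))) = _
          rw [hi''1 x hx]
      have hC := hA.comp le_rfl hI hB fun y hy => by
        show k'' (f (i' y)) ∈ Q
        exact hk''I.apply (hP''.apply (hi'2 y hy).1)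
      have e1 : t''' * t''⁻¹ * (t'' * t'⁻¹) = t''' * t'⁻¹ := by group
      rw [e1] at hC
      refine hC.congr fun y hy => ?_
      obtain ⟨x, hx, rfl⟩ := (h2 y).1 hy
      show g (k' x) = k''' (h (i'' (k'' (f (i' (k' x))))))
      rw [hi'1 x hx, hi''1 _ (hP''.apply hx)]
      exact hg x hx)
    (by
      intro P R f g hf hCf hgm hinv hfR P' P'' k' k'' u t' t'' hP'R hgI h1 h2 h3 h4 hu
      have hP''P : P'' ≤ P := by
        intro y hy
        obtain ⟨x, hx, rfl⟩ := (hgI y).1 hy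
        obtain ⟨z, hz, rfl, h5⟩ := hinv x (hP'R hx)
        rw [h5]; exact hz
      have hfg : ∀ x ∈ P', f (g x) = x := by
        intro x hx
        obtain ⟨z, hz, hzx, h5⟩ := hinv x (hP'R hx)
        rw [h5]; exact hzx
      have hfI : Im f P'' P' := hgI.symm hfg
      have hk'm := h1.mp le_rfl hEF
      have hk''m := h3.mp le_rfl hEF
      have hP''S : P'' ≤ S := hP''P.trans hf.le
      have hP''N : P'' ≤ normalizerIn S P'' := le_inf hP''S Subgroup.le_normalizer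
      obtain ⟨i'', hi''m, hi''1, hi''2⟩ := hk''m.exists_symm hP''N h4
      have hA := hCf P'' P' k'' k' (fun y => k' (f (i'' y))) t'' t' hP''P hfI h3 h4 h1 h2
        fun x hx => by
          show k' (f (i'' (k'' x))) = _
          rw [hi''1 x hx]
      have hB := hA.symm le_rfl hEF hI hQX (g := u) ?_
      · have e1 : (t' * t''⁻¹)⁻¹ = t'' * t'⁻¹ := by group
        rwa [e1] at hB
      · intro y hy
        obtain ⟨x, hx, rfl⟩ := (h2 y).1 hy
        refine ⟨k'' (g x), h4.apply (hgI.apply hx), ?_, hu x hx⟩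
        show k' (f (i'' (k'' (g x)))) = k' x
        rw [hi''1 _ (hgI.apply hx), hfg x hx])
  obtain ⟨haF, f₀, hf₀, hid⟩ := ha
  have h1 : Mp D Q f₀ := hgen D (fun P f hP hf => mp_subSys_iff.2 ⟨mp_mono hEF hf, hkey P f hP hf⟩)
    Q f₀ hf₀
  have h2 : Cl E F Q X Q f₀ := (mp_subSys_iff.1 h1).2
  obtain ⟨P'', hP'', hP''S, -⟩ := Mp.exists_im hf₀ le_rfl
  have h3 := h2 Q P'' (fun x => x) (ac a) (fun x => x) 1 a le_rfl hP''
    (Fr.one (mp_id E inf_le_left)) (Im.id Q) (Fr.of_aut haF inf_le_left) (fun y => by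
      constructor
      · intro hy
        exact ⟨f₀ y, hP''.apply hy, (hid y hy).symm⟩
      · rintro ⟨z, hz, rfl⟩
        obtain ⟨x, hx, rfl⟩ := (hP'' z).1 hz
        rw [← hid x hx]; exact hx) (fun x hx => hid x hx)
  simpa using h3

end chain

end Cfsg.Agent.H770
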