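import Cfsg.Agent.H770.Core
import Cfsg.Agent.H756.WeakA

/-!
# The subsystem attached to a normal subgroup `K` of `Aut_F(T)` of index prime to `p` containing `Aut_E(T)`
(helper770)
-/

set_option autoImplicit false

namespace Cfsg.Agent.H770

open Cfsg Cfsg.FusionSystem Cfsg.Agent.H752 Cfsg.Agent.H756

variable {Ω : Type*} [Group Ω] {S T : Subgroup Ω} {p : ℕ}

section

variable [Finite S] [Fact p.Prime] {F : FusionSystem S}

/-- The automorphisms in `F` of `P` acting trivially on `P ∩ T` and modulo `T`. -/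
def KT (F : FusionSystem S) (T P : Subgroup Ω) : Subgroup (MulAut P) where
  carrier := {k | k ∈ F.autGroup P ∧ (∀ x ∈ P, x ∈ T → ac k x = x) ∧ ∀ x ∈ P, x⁻¹ * ac k x ∈ T}
  one_mem' := ⟨one_mem _, fun x hx _ => ac_one hx, fun x hx => by
    rw [ac_one hx]; simp⟩
  mul_mem' := by
    rintro a b ⟨ha, ha1, ha2⟩ ⟨hb, hb1, hb2⟩
    refine ⟨mul_mem ha hb, fun x hx hxT => ?_, fun x hx => ?_⟩
    · rw [ac_mul _ _ hx, hb1 x hx hxT, ha1 x hx hxT]
    · rw [ac_mul _ _ hx]
      have : x⁻¹ * ac a (ac b x) = (x⁻¹ * ac b x) * ((ac b x)⁻¹ * ac a (ac b x)) := by group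
      rw [this]
      exact T.mul_mem (hb2 x hx) (ha2 _ (ac_mem _ hx))
  inv_mem' := by
    rintro a ⟨ha, ha1, ha2⟩
    refine ⟨inv_mem ha, fun x hx hxT => ?_, fun x hx => ?_⟩
    · conv_lhs => rw [← ha1 x hx hxT]
      exact ac_inv_ac a hx
    · have h1 := ha2 (ac a⁻¹ x) (ac_mem _ hx)
      rw [ac_ac_inv a hx] at h1
      have : x⁻¹ * ac a⁻¹ x = ((ac a⁻¹ x)⁻¹ * x)⁻¹ := by group
      rw [this]
      exact T.inv_mem h1

/-- A centric fully normalized `P` such that `P ∩ T` is not `T`-centric is not radical. -/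
theorem not_radical_of_not_tc (hS : IsPGroup p S) (hF : F.IsSaturated p)
    (hT : F.StronglyClosed T) {P : Subgroup Ω} (hPc : F.IsCentric P)
    (hPT : ¬ TC F T (P ⊓ T)) :
    ∃ K : Subgroup (MulAut P), K ≤ F.autGroup P ∧ (∀ a ∈ F.autGroup P, ∀ k ∈ K, a * k * a⁻¹ ∈ K) ∧
      IsPGroup p K ∧ ¬ K ≤ Inn P := by
  have hPS := hPc.1
  have hfP : Finite P := H802.finite_of_le hPS
  refine ⟨KT F T P, fun k hk => hk.1, ?_, ?_, ?_⟩
  · rintro a ha k ⟨hk, hk1, hk2⟩
    have ham := mp_ac hPS ha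
    refine ⟨mul_mem (mul_mem ha hk) (inv_mem ha), fun x hx hxT => ?_, fun x hx => ?_⟩
    · have h1 : ac a⁻¹ x ∈ T := mp_mem_of_stronglyClosed hT (mp_ac hPS (inv_mem ha)) hx hxT
      rw [ac_mul _ _ hx, ac_mul _ _ (ac_mem _ hx), hk1 _ (ac_mem _ hx) h1, ac_ac_inv a hx]
    · rw [ac_mul _ _ hx, ac_mul _ _ (ac_mem _ hx)]
      have hy : ac a⁻¹ x ∈ P := ac_mem _ hx
      have h1 := mp_mem_of_stronglyClosed hT ham
        (P.mul_mem (P.inv_mem hy) (ac_mem k hy)) (hk2 _ hy)
      rw [ham.mul (P.inv_mem hy) (ac_mem k hy), ham.inv hy, ac_ac_inv a hx] at h1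
      exact h1
  · rintro ⟨k, hk, hk1, hk2⟩
    obtain ⟨n, hn⟩ := H759.exists_pow_eq_one_of_chain (hS.to_le hPS) k 2
      (fun i => if i = 0 then ⊤ else if i = 1 then (P ⊓ T).subgroupOf P else ⊥) (by simp) (by simp)
      (by
        intro i hi x hx
        rcases i with _ | _ | _ | i
        · simp
        · have hx' : (x : Ω) ∈ T := by
            have : (x : Ω) ∈ P ⊓ T := by simpa [Subgroup.mem_subgroupOf] using hx
            exact this.2
          have h1 : k x = x := by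
            apply Subtype.ext
            rw [← ac_apply k x.2, hk1 x x.2 hx']
          rw [h1]; exact hx
        · have hx' : x = 1 := by simpa using hx
          simp [hx']
        · omega)
      (by
        intro i hi x hx
        rcases i with _ | _ | i
        · have h1 := hk2 x x.2
          rw [ac_apply k x.2] at h1
          simpa [Subgroup.mem_subgroupOf] using h1
        · have hx' : (x : Ω) ∈ T := by
            have : (x : Ω) ∈ P ⊓ T := by simpa [Subgroup.mem_subgroupOf] using hx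
            exact this.2
          have h1 : k x = x := by
            apply Subtype.ext
            rw [← ac_apply k x.2, hk1 x x.2 hx']
          simp [h1]
        · omega)
    exact ⟨n, Subtype.ext hn⟩
  · -- the group is not inner
    have h1 : ∃ f : Ω → Ω, Mp F (P ⊓ T) f ∧ ∃ z ∈ T, (∀ x ∈ P ⊓ T, f x * z = z * f x) ∧
        ∀ x ∈ P ⊓ T, f x ≠ z := by
      by_contra hcon
      push Not at hcon
      exact hPT ⟨inf_le_right, fun f hf z hz hc => hcon f hf z hz hc⟩
    obtain ⟨f, hf, z, hzT, hzc, hzn⟩ := h1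
    have hPTS : P ⊓ T ≤ S := inf_le_left.trans hPS
    obtain ⟨R', hR', hR'S, -⟩ := Mp.exists_im hf le_rfl
    obtain ⟨R'', hR'R'', hR''n⟩ := H802.exists_isFullyNormalized hS hF hR'S
    obtain ⟨k₀, hk₀, hk₀I⟩ := exists_mp_of_isConj hR'R''
    obtain ⟨k, hk, hkI⟩ := mp_normalizer hS hF hR''n hk₀ hk₀I
    have hR'N : R' ≤ normalizerIn S R' := le_inf hR'S Subgroup.le_normalizer
    have hzC : z ∈ Subgroup.centralizer (R' : Set Ω) := by
      rw [Subgroup.mem_centralizer_iff]
      intro y hy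
      obtain ⟨x, hx, rfl⟩ := (hR' y).1 hy
      exact hzc x hx
    have hzN : z ∈ normalizerIn S R' := ⟨hT.1 hzT, Subgroup.centralizer_le_normalizer _ hzC⟩
    have hkz : k z ∈ T := mp_mem_of_stronglyClosed hT hk hzN hzT
    have hkzC : k z ∈ Subgroup.centralizer (R'' : Set Ω) := Mp.mem_centralizer hk hR'N hkI hzN hzC
    have hkzR : k z ∉ R'' := by
      intro h2
      obtain ⟨y, hy, hyz⟩ := (hkI _).1 h2
      have h3 := hk.inj (hR'N hy) hzN hyz
      obtain ⟨x, hx, hxy⟩ := (hR' y).1 hy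
      exact hzn x hx (hxy.trans h3)
    -- the map `m`
    obtain ⟨m, hm, hmI⟩ := mp_normalizer hS hF hR''n (hf.comp hk₀ fun x hx => hR'.apply hx)
      (hR'.comp hk₀I)
    have hPN : P ≤ normalizerIn S (P ⊓ T) := by
      refine le_inf hPS ?_
      rw [Subgroup.le_normalizer_iff]
      intro x hx y hy
      exact ⟨P.mul_mem (P.mul_mem hx hy.1) (P.inv_mem hx),
        H759.StronglyClosed.conj_mem hT (hPS hx) hy.2⟩
    have hPTN : P ⊓ T ≤ normalizerIn S (P ⊓ T) := inf_le_left.trans hPN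
    obtain ⟨P'', hP'', hP''S, -⟩ := Mp.exists_im hm hPN
    have hP''c : F.IsCentric P'' := H802.isCentric_of_isConj hPc (Mp.isConj (hm.res hPN) hP'')
    have hP''T : ∀ y ∈ P'', y ∈ T → y ∈ R'' := by
      intro y hy hyT
      obtain ⟨x, hx, rfl⟩ := (hP'' y).1 hy
      exact hmI.apply ⟨hx, mp_mem_of_stronglyClosed' hT hm (hPN hx) hyT⟩
    have hR''P'' : R'' ≤ P'' := by
      intro y hy
      obtain ⟨x, hx, rfl⟩ := (hmI y).1 hy
      exact hP''.apply hx.1
    -- an element of `C_T(R'')` normalizing `P''` outside `P''`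
    set C : Subgroup Ω := T ⊓ Subgroup.centralizer (R'' : Set Ω) with hC
    have hCS : C ≤ S := inf_le_left.trans hT.1
    have hP''C : P'' ≤ Subgroup.normalizer (C : Set Ω) := by
      rw [Subgroup.le_normalizer_iff]
      intro x hx y hy
      refine ⟨H759.StronglyClosed.conj_mem hT (hP''S hx) hy.1, ?_⟩
      have hxN : x ∈ normalizerIn S R'' := by
        refine ⟨hP''S hx, H802.mem_normalizer_of_conj_mem (hR''P''.trans hP''S) fun y hy => ?_⟩
        refine hP''T _ (P''.mul_mem (P''.mul_mem hx (hR''P'' hy)) (P''.inv_mem hx)) ?_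
        refine H759.StronglyClosed.conj_mem hT (hP''S hx) ?_
        obtain ⟨w, hw, rfl⟩ := (hmI y).1 hy
        exact mp_mem_of_stronglyClosed hT hm (hPTN hw) hw.2
      exact (conj_mem_centralizerIn hxN ⟨hCS hy, hy.2⟩).2
    have hlt : P'' < P'' ⊔ C := by
      refine lt_of_le_of_ne le_sup_left fun h2 => hkzR (hP''T _ ?_ hkz)
      rw [h2]
      exact (le_sup_right : C ≤ _) ⟨hkz, hkzC⟩
    obtain ⟨g, hg, hgP, hgN⟩ := H759.exists_mem_normalizer_not_mem hS (sup_le hP''S hCS) hlt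
    obtain ⟨x, hx, t, ht, rfl⟩ := (H759.mem_sup_of_normalizes hP''C).1 hg
    have htP : t ∉ P'' := fun h2 => hgP (P''.mul_mem hx h2)
    have htN : t ∈ Subgroup.normalizer (P'' : Set Ω) := by
      have h2 := mul_mem (inv_mem (Subgroup.le_normalizer hx)) hgN
      simpa [← mul_assoc] using h2
    -- transport to `P`
    obtain ⟨i, hi, hi1, hi2⟩ := (hm.res hPN).exists_symm le_rfl hP''
    have hct : ∀ y ∈ P'', t * y * t⁻¹ ∈ P'' := fun y hy => (Subgroup.mem_normalizer_iff.1 htN y).1 hy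
    have hκm : Mp F P (fun x => i (t * m x * t⁻¹)) :=
      ((hm.res hPN).comp (mp_conj F hP''S (hCS ht)) fun x hx => hP''.apply hx).comp hi
        fun x hx => hct _ (hP''.apply hx)
    obtain ⟨κ, hκ, hκe⟩ := exists_ac hκm fun x hx => (hi2 _ (hct _ (hP''.apply hx))).1
    intro hle
    have hκK : κ ∈ KT F T P := by
      refine ⟨hκ, fun x hx hxT => ?_, fun x hx => ?_⟩
      · rw [← hκe x hx]
        have h2 : m x ∈ R'' := hmI.apply ⟨hx, hxT⟩
        have h3 : m x * t = t * m x := Subgroup.mem_centralizer_iff.1 ht.2 _ h2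
        have h4 : t * m x * t⁻¹ = m x := by rw [← h3]; group
        rw [h4, hi1 x hx]
      · have h2 : m (x⁻¹ * ac κ x) ∈ T := by
          rw [hm.mul (P.inv_mem hx |> fun h => hPN h) (hPN (ac_mem _ hx)), hm.inv (hPN hx), ← hκe x hx,
            (hi2 _ (hct _ (hP''.apply hx))).2]
          have hmx : m x ∈ S := hm.mem (hPN hx)
          have h3 : (m x)⁻¹ * (t * m x * t⁻¹) = ((m x)⁻¹ * t * m x) * t⁻¹ := by group
          rw [h3]
          exact T.mul_mem (H759.StronglyClosed.conj_mem' hT hmx ht.1) (T.inv_mem ht.1)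
        exact mp_mem_of_stronglyClosed' hT hm (hPN (P.mul_mem (P.inv_mem hx) (ac_mem _ hx))) h2
    obtain ⟨y, hy⟩ := hle hκK
    apply htP
    have hmy : m y ∈ P'' := hP''.apply y.2
    have h5 : (m y)⁻¹ * t ∈ centralizerIn S P'' := by
      refine ⟨S.mul_mem (S.inv_mem (hP''S hmy)) (hCS ht), ?_⟩
      show (m y)⁻¹ * t ∈ Subgroup.centralizer (P'' : Set Ω)
      rw [Subgroup.mem_centralizer_iff]
      intro w hw
      obtain ⟨x, hx, rfl⟩ := (hP'' w).1 hw
      have h6 : ac κ x = y * x * (y : Ω)⁻¹ := by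
        rw [ac_apply κ hx, ← hy]; rfl
      have h7 : m (ac κ x) = t * m x * t⁻¹ := by
        rw [← hκe x hx, (hi2 _ (hct _ (hP''.apply hx))).2]
      rw [h6, hm.mul (P.mul_mem y.2 hx |> fun h => hPN h) (hPN (P.inv_mem y.2)),
        hm.mul (hPN y.2) (hPN hx), hm.inv (hPN y.2)] at h7
      have h8 : (m y)⁻¹ * (m y * m x * (m y)⁻¹) * t = (m y)⁻¹ * (t * m x * t⁻¹) * t := by rw [h7]
      have h9 : m x * ((m y)⁻¹ * t) = (m y)⁻¹ * (m y * m x * (m y)⁻¹) * t := by group
      rw [h9, h8]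
      group
    have h10 := hP''c.2 P'' (H802.isConj_refl F hP''S) h5
    have h11 := P''.mul_mem hmy h10
    rwa [mul_inv_cancel_left] at h11

end

end Cfsg.Agent.H770
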