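import Cfsg.Agent.H770.Char

/-!
# The subsystem attached to a normal subgroup `K` of `Aut_F(T)` of index prime to `p` containing `Aut_E(T)`:
construction (helper770)
-/

set_option autoImplicit false
set_option linter.unusedVariables false

namespace Cfsg.Agent.H770

open Cfsg Cfsg.FusionSystem Cfsg.Agent.H752 Cfsg.Agent.H756

variable {Ω : Type*} [Group Ω] {S T : Subgroup Ω} {p : ℕ}

/-- `E` weakly normal in `F` over `T`, `Aut_E(T) ≤ K`, `K` normal in `Aut_F(T)` of index prime to `p`. -/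
structure CharData (p : ℕ) (E : FusionSystem T) (F : FusionSystem S) (K : Subgroup (MulAut T)) :
    Prop where
  hS : IsPGroup p S
  hE : E.IsWeaklyNormalIn F p
  hK : K ≤ F.autGroup T
  hKn : ∀ a ∈ F.autGroup T, ∀ k ∈ K, a * k * a⁻¹ ∈ K
  hEK : E.autGroup T ≤ K
  hKp : ∀ a ∈ F.autGroup T, ∀ n : ℕ, a ^ p ^ n ∈ K → a ∈ K

/-- On `P ∩ T`, `f` is a map of `E` followed by an element of `K`. -/
def KE (E : FusionSystem T) (F : FusionSystem S) (K : Subgroup (MulAut T)) (P : Subgroup Ω)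
    (f : Ω → Ω) : Prop := ∃ κ ∈ K, Fr E F (P ⊓ T) f κ

/-- The subgroups `P` of `S` with `P ∩ T` `T`-centric. -/
def QT (F : FusionSystem S) (T P : Subgroup Ω) : Prop := P ≤ S ∧ TC F T (P ⊓ T)

/-- The system generated by the maps on members of `QT` satisfying `KE`. -/
noncomputable def charSys (E : FusionSystem T) (F : FusionSystem S) (K : Subgroup (MulAut T)) :
    FusionSystem S :=
  subSys F S (fun P f => ∀ D : FusionSystem S, InvC D F →
      (∀ P f, QT F T P → Mp F P f → KE E F K P f → Mp D P f) → Mp D P f)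
    (fun P f g _ h he D hD hg => (h D hD hg).congr he)
    (fun P f hf _ => ⟨hf.le, fun x hx => hf.mem hx⟩)
    (fun P hP s hs => ⟨mp_conj F hP hs, fun D _ _ => mp_conj D hP hs⟩)
    (fun P Q f g _ _ h1 h2 hPQ D hD hg => (h1 D hD hg).comp (h2 D hD hg) hPQ)
    (fun P R f g _ h _ hinv _ D hD hg => (h D hD hg).symm hinv)

theorem mp_charSys_iff {E : FusionSystem T} {F : FusionSystem S} {K : Subgroup (MulAut T)}
    {P : Subgroup Ω} {f : Ω → Ω} : Mp (charSys E F K) P f ↔ Mp F P f ∧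
      ∀ D : FusionSystem S, InvC D F →
      (∀ P f, QT F T P → Mp F P f → KE E F K P f → Mp D P f) → Mp D P f := mp_subSys_iff

namespace CharData

variable [Finite S] {E : FusionSystem T} {F : FusionSystem S}
  {K : Subgroup (MulAut T)}

omit [Finite S] in
theorem sub (h : CharData p E F K) : E.IsSubsystemOf F := h.hE.2.2.1

omit [Finite S] in
theorem sc (h : CharData p E F K) : F.StronglyClosed T := h.hE.2.2.2.1

omit [Finite S] in
theorem le (h : CharData p E F K) : T ≤ S := h.sc.1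

theorem inv (h : CharData p E F K) : InvC E F := by
  have : Finite T := H802.finite_of_le h.le
  exact (isInvariantIn_iff.1 h.hE.2.2).2.2.1

theorem fr (h : CharData p E F K) {P : Subgroup Ω} {f : Ω → Ω} (hPT : P ≤ T) (hf : Mp F P f) :
    ∃ a, Fr E F P f a := by
  have : Finite T := H802.finite_of_le h.le
  exact FratC.exists_fr ((isInvariantIn_iff.1 h.hE.2.2).2.2.2 P f hPT hf) h.sc

omit [Finite S] in
theorem ac_mem_T (h : CharData p E F K) {P : Subgroup Ω} {f : Ω → Ω} (hf : Mp F P f) {x : Ω}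
    (hx : x ∈ P ⊓ T) : f x ∈ T := mp_mem_of_stronglyClosed h.sc hf hx.1 hx.2

/-- Restriction to `T` of an element of `Aut_F(S)`. -/
theorem exists_res (h : CharData p E F K) {a : Ω → Ω} (ha : Mp F S a) :
    ∃ b ∈ F.autGroup T, ∀ x ∈ T, a x = ac b x := by
  have : Finite T := H802.finite_of_le h.le
  exact exists_ac (ha.res h.le) fun x hx => mp_mem_of_stronglyClosed h.sc ha (h.le hx) hx

theorem ke_comp (h : CharData p E F K) {P Q : Subgroup Ω} {f g : Ω → Ω} (hf : Mp F P f)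
    (h1 : KE E F K P f) (h2 : KE E F K Q g) (hPQ : ∀ x ∈ P, f x ∈ Q) :
    KE E F K P (fun x => g (f x)) := by
  obtain ⟨κ, hκ, h3⟩ := h1
  obtain ⟨κ', hκ', h4⟩ := h2
  exact ⟨κ' * κ, mul_mem hκ' hκ, h3.comp h.le h.inv h4 fun x hx => ⟨hPQ x hx.1, h.ac_mem_T hf hx⟩⟩

theorem ke_symm (h : CharData p E F K) {P R : Subgroup Ω} {f g : Ω → Ω} (hf : Mp F P f)
    (h1 : KE E F K P f) (hinv : ∀ y ∈ R, ∃ x ∈ P, f x = y ∧ g y = x) : KE E F K R g := by
  obtain ⟨κ, hκ, h3⟩ := h1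
  refine ⟨κ⁻¹, inv_mem hκ, h3.symm h.le h.inv fun y hy => ?_⟩
  obtain ⟨x, hx, hxy, h5⟩ := hinv y hy.1
  exact ⟨x, ⟨hx, mp_mem_of_stronglyClosed' h.sc hf hx (hxy ▸ hy.2)⟩, hxy, h5⟩

theorem ke_conj (h : CharData p E F K) {P R : Subgroup Ω} {f a k : Ω → Ω} (hf : Mp F P f)
    (h1 : KE E F K P f) (ha : Mp F S a) (hR : ∀ y ∈ R, ∃ x ∈ P, a x = y ∧ k y = a (f x)) :
    KE E F K R k := by
  obtain ⟨κ, hκ, h3⟩ := h1
  obtain ⟨b, hb, hab⟩ := h.exists_res ha
  have hbi : ∀ y ∈ R ⊓ T, ac b⁻¹ y ∈ P ⊓ T ∧ a (ac b⁻¹ y) = y := by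
    rintro y ⟨hy, hyT⟩
    obtain ⟨x, hx, rfl, -⟩ := hR y hy
    have hxS := hf.le hx
    have hxT : x ∈ T := mp_mem_of_stronglyClosed' h.sc ha hxS hyT
    rw [hab x hxT, ac_inv_ac b hxT]
    exact ⟨⟨hx, hxT⟩, hab x hxT⟩
  refine ⟨b * (κ * b⁻¹), by rw [← mul_assoc]; exact h.hKn b hb κ hκ, ?_⟩
  have h4 : Fr E F (R ⊓ T) (ac b⁻¹) b⁻¹ := Fr.of_aut (inv_mem hb) inf_le_right
  have h5 : Fr E F T (ac b) b := Fr.of_aut hb le_rfl
  have h6 := (h4.comp h.le h.inv h3 fun y hy => (hbi y hy).1).comp h.le h.inv h5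
    fun y hy => h.ac_mem_T hf (hbi y hy).1
  refine h6.congr fun y hy => ?_
  obtain ⟨x, hx, rfl, h7⟩ := hR y hy.1
  have hxS := hf.le hx
  have hxT : x ∈ T := mp_mem_of_stronglyClosed' h.sc ha hxS hy.2
  have h8 : ac b⁻¹ (a x) = x := by rw [hab x hxT, ac_inv_ac b hxT]
  show k (a x) = ac b (f (ac b⁻¹ (a x)))
  rw [h8, h7]
  exact hab _ (h.ac_mem_T hf ⟨hx, hxT⟩)

theorem conj_mem_K [Fact p.Prime] (h : CharData p E F K) {s : Ω} (hs : s ∈ S) :
    H759.conjAut T s (H759.StronglyClosed.le_normalizer h.sc hs) ∈ K := by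
  obtain ⟨n, hn⟩ := conjAut_ppow (p := p) h.hS hs (H759.StronglyClosed.le_normalizer h.sc hs)
  exact h.hKp _ (conjAut_mem_autGroup h.le hs _) n (by rw [hn]; exact one_mem _)

theorem ke_of_conj [Fact p.Prime] (h : CharData p E F K) {P : Subgroup Ω} {s : Ω} (hs : s ∈ S) :
    KE E F K P (fun x => s * x * s⁻¹) := by
  refine ⟨_, h.conj_mem_K hs, (Fr.of_aut (h.hK (h.conj_mem_K hs)) inf_le_right).congr fun x hx => ?_⟩
  rw [ac_apply _ hx.2]
  rfl

/-- All maps satisfying `KE`. -/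
noncomputable def bigSys [Fact p.Prime] (h : CharData p E F K) : FusionSystem S :=
  subSys F S (fun P f => KE E F K P f)
    (fun P f g _ h1 he => by
      obtain ⟨κ, hκ, h3⟩ := h1
      exact ⟨κ, hκ, h3.congr fun x hx => he x hx.1⟩)
    (fun P f hf _ => ⟨hf.le, fun x hx => hf.mem hx⟩)
    (fun P hP s hs => ⟨mp_conj F hP hs, h.ke_of_conj hs⟩)
    (fun P Q f g hf _ h1 h2 hPQ => h.ke_comp hf h1 h2 hPQ)
    (fun P R f g hf h1 _ hinv _ => h.ke_symm hf h1 hinv)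

theorem mp_bigSys_iff [Fact p.Prime] (h : CharData p E F K) {P : Subgroup Ω} {f : Ω → Ω} :
    Mp h.bigSys P f ↔ Mp F P f ∧ KE E F K P f := mp_subSys_iff

theorem invC_bigSys [Fact p.Prime] (h : CharData p E F K) : InvC h.bigSys F := by
  intro P R f a k hf ha hR
  obtain ⟨h1, h2⟩ := h.mp_bigSys_iff.1 hf
  exact h.mp_bigSys_iff.2 ⟨invC_self P R f a k h1 ha hR, h.ke_conj h1 h2 ha hR⟩

theorem ke_of_mp [Fact p.Prime] (h : CharData p E F K) {P : Subgroup Ω} {f : Ω → Ω}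
    (hf : Mp (charSys E F K) P f) : KE E F K P f :=
  (h.mp_bigSys_iff.1 ((mp_charSys_iff.1 hf).2 h.bigSys h.invC_bigSys fun _ _ _ h1 h2 =>
    h.mp_bigSys_iff.2 ⟨h1, h2⟩)).2

omit [Finite S] in
theorem mp_of_ke {P : Subgroup Ω} {f : Ω → Ω} (hP : QT F T P) (hf : Mp F P f)
    (hk : KE E F K P f) : Mp (charSys E F K) P f :=
  mp_charSys_iff.2 ⟨hf, fun D _ hD => hD P f hP hf hk⟩

omit [Finite S] in
theorem charSys_sub : (charSys E F K).IsSubsystemOf F := subSys_isSubsystemOf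

theorem qt_self (h : CharData p E F K) {P : Subgroup Ω} (hTP : T ≤ P) (hPS : P ≤ S) :
    QT F T P := by
  have : Finite T := H802.finite_of_le h.le
  have hPT : P ⊓ T = T := inf_eq_right.2 hTP
  refine ⟨hPS, ?_⟩
  rw [hPT]
  refine ⟨le_rfl, fun f hf z hz _ => ?_⟩
  exact hf.surj (fun x hx => mp_mem_of_stronglyClosed h.sc hf hx hx) hz

theorem qt_conj (h : CharData p E F K) {P Q : Subgroup Ω} (hP : QT F T P) (hPQ : F.IsConj P Q) :
    QT F T Q := by
  obtain ⟨f, hf, hfI⟩ := exists_mp_of_isConj hPQ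
  refine ⟨Mp.im_le hf hfI, hP.2.image h.sc (hf.res inf_le_left) fun y => ?_⟩
  constructor
  · rintro ⟨hy, hyT⟩
    obtain ⟨x, hx, rfl⟩ := (hfI y).1 hy
    exact ⟨x, ⟨hx, mp_mem_of_stronglyClosed' h.sc hf hx hyT⟩, rfl⟩
  · rintro ⟨x, hx, rfl⟩
    exact ⟨hfI.apply hx.1, mp_mem_of_stronglyClosed h.sc hf hx.1 hx.2⟩

theorem fr_pow (h : CharData p E F K) {R : Subgroup Ω} (hRT : R ≤ T) {P : Subgroup Ω}
    {α : MulAut P} (hRP : R ≤ P) (hm : ∀ x ∈ R, ac α x ∈ R) {δ : MulAut T}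
    (hδ : Fr E F R (ac α) δ) (n : ℕ) : Fr E F R (ac (α ^ n)) (δ ^ n) := by
  have hmn : ∀ n : ℕ, ∀ x ∈ R, ac (α ^ n) x ∈ R := by
    intro n
    induction n with
    | zero => intro x hx; rw [pow_zero, ac_one (hRP hx)]; exact hx
    | succ n ih => intro x hx; rw [pow_succ, ac_mul _ _ (hRP hx)]; exact ih _ (hm x hx)
  induction n with
  | zero =>
    rw [pow_zero, pow_zero]
    exact (Fr.one (mp_id E hRT)).congr fun x hx => ac_one (hRP hx)
  | succ n ih =>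
    rw [pow_succ, pow_succ]
    exact (hδ.comp h.le h.inv ih hm).congr fun x hx => ac_mul _ _ (hRP hx)

/-- If the identity of a `T`-centric `R` has Frattini factor `δ`, then `δ ∈ K`. -/
theorem mem_K_of_fr [Fact p.Prime] (h : CharData p E F K) {R : Subgroup Ω} (hR : TC F T R)
    {δ : MulAut T} (hδ : Fr E F R (fun x => x) δ) : δ ∈ K := by
  have h1 := hδ.mp_of_id h.le h.inv
  obtain ⟨k, hk⟩ := pow_mem_of_restrict h.hS h.hE R hR δ hδ.mem h1
  exact h.hKp δ hδ.mem k (h.hEK hk)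

theorem pdata [Fact p.Prime] (h : CharData p E F K) :
    PData p (charSys E F K) F (QT F T) := by
  have hF := h.hE.2.1
  have hI : InvC (charSys E F K) F := by
    intro P R f a k hf ha hR
    obtain ⟨h1, h2⟩ := mp_charSys_iff.1 hf
    exact mp_charSys_iff.2 ⟨invC_self P R f a k h1 ha hR, fun D hD hg =>
      hD P R f a k (h2 D hD hg) ha hR⟩
  have hconj : ∀ P Q, QT F T P → F.IsConj P Q → QT F T Q := fun P Q hP hPQ => h.qt_conj hP hPQ
  refine ⟨charSys_sub, hI, h.qt_self h.le le_rfl, hconj, ?_, ?_, ?_, ?_⟩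
  · refine gen_of_inv charSys_sub hI (QT F T) hconj fun D hD hg P f hf => ?_
    exact (mp_charSys_iff.1 hf).2 D hD fun P f hP hf hk => hg P f hP (mp_of_ke hP hf hk)
  · intro P hP a ha
    have haF := ha.mem
    obtain ⟨κ, hκ, h1⟩ := h.ke_of_mp (ha.mp_of_id le_rfl hI)
    obtain ⟨b, hb, hab⟩ := h.exists_res (mp_ac le_rfl haF)
    have h2 : Fr E F (P ⊓ T) (ac a) b := (Fr.of_aut hb inf_le_right).congr fun x hx => hab x hx.2
    have h3 := h.mem_K_of_fr hP.2 (h2.div h.le h.sub h.inv h1)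
    have h4 : b ∈ K := by
      have := mul_mem hκ h3
      rwa [mul_inv_cancel_left] at this
    apply mem_of_mp_ac
    exact mp_of_ke (h.qt_self h.le le_rfl) (mp_ac le_rfl haF)
      ⟨b, h4, (Fr.of_aut hb inf_le_right).congr fun x hx => hab x hx.2⟩
  · rintro R hRn hRc hR _ α hα ⟨n, hn⟩
    refine mp_of_ke hR (mp_ac hRn.1 hα) ?_
    have hRT : R ⊓ T ≤ T := inf_le_right
    have hαm := mp_ac (F := F) hRn.1 hα
    obtain ⟨δ, hδ⟩ := h.fr hRT (hαm.res inf_le_left)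
    refine ⟨δ, ?_, hδ⟩
    have h1 := h.fr_pow hRT inf_le_left (fun x hx => ⟨ac_mem _ hx.1, h.ac_mem_T hαm hx⟩) hδ (p ^ n)
    rw [hn] at h1
    have h2 := h.mem_K_of_fr hR.2 (h1.congr fun x hx => (ac_one hx.1).symm)
    exact h.hKp δ hδ.mem n h2
  · intro R _ hRc hR
    exact not_radical_of_not_tc h.hS hF h.sc hRc fun h1 => hR ⟨hRc.1, h1⟩

/-- The automorphisms of `S` in the subsystem. -/
theorem mp_S_iff [Fact p.Prime] (h : CharData p E F K) {a : Ω → Ω} :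
    Mp (charSys E F K) S a ↔ Mp F S a ∧ ∃ κ ∈ K, ∀ x ∈ T, a x = ac κ x := by
  constructor
  · intro ha
    refine ⟨mp_mono charSys_sub ha, ?_⟩
    obtain ⟨κ, hκ, -, f₀, hf₀, h1⟩ := h.ke_of_mp ha
    have hST : S ⊓ T = T := inf_eq_right.2 h.le
    rw [hST] at hf₀ h1
    have : Finite T := H802.finite_of_le h.le
    obtain ⟨ε, hε, h2⟩ := exists_ac hf₀ fun x hx => hf₀.mem hx
    exact ⟨κ * ε, mul_mem hκ (h.hEK hε), fun x hx => by rw [h1 x hx, h2 x hx, ac_mul _ _ hx]⟩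
  · rintro ⟨ha, κ, hκ, h1⟩
    exact mp_of_ke (h.qt_self h.le le_rfl) ha ⟨κ, hκ, (Fr.of_aut (h.hK hκ) inf_le_right).congr
      fun x hx => h1 x hx.2⟩

/-- The automorphisms of `T` in the subsystem. -/
theorem autGroup_T [Fact p.Prime] (h : CharData p E F K) : (charSys E F K).autGroup T = K := by
  have : Finite T := H802.finite_of_le h.le
  ext α
  constructor
  · intro hα
    obtain ⟨κ, hκ, -, f₀, hf₀, h1⟩ := h.ke_of_mp (mp_ac h.le hα)
    have hST : T ⊓ T = T := inf_idem T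
    rw [hST] at hf₀ h1
    obtain ⟨ε, hε, h2⟩ := exists_ac hf₀ fun x hx => hf₀.mem hx
    have h3 : α = κ * ε := by
      ext x
      rw [← ac_apply _ x.2, ← ac_apply _ x.2, h1 x x.2, h2 x x.2, ac_mul _ _ x.2]
    rw [h3]
    exact mul_mem hκ (h.hEK hε)
  · intro hα
    apply mem_of_mp_ac
    exact mp_of_ke (h.qt_self le_rfl h.le) (mp_ac h.le (h.hK hα))
      ⟨α, hα, Fr.of_aut (h.hK hα) inf_le_right⟩

/-- `E` is contained in the subsystem. -/
theorem E_sub [Fact p.Prime] (h : CharData p E F K) : E.IsSubsystemOf (charSys E F K) := by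
  have hfT : Finite T := H802.finite_of_le h.le
  let D : FusionSystem T := subSys F T (fun P f => Mp (charSys E F K) P f ∧ P ≤ T ∧ ∀ x ∈ P, f x ∈ T)
    (fun P f g _ h1 he => ⟨h1.1.congr he, h1.2.1, fun x hx => by rw [he x hx]; exact h1.2.2 x hx⟩)
    (fun P f _ h1 => h1.2)
    (fun P hP s hs => ⟨mp_conj F (hP.trans h.le) (h.le hs), mp_conj _ (hP.trans h.le) (h.le hs), hP,
      fun x hx => T.mul_mem (T.mul_mem hs (hP hx)) (T.inv_mem hs)⟩)
    (fun P Q f g _ _ h1 h2 hPQ => ⟨h1.1.comp h2.1 hPQ, h1.2.1, fun x hx => h2.2.2 _ (hPQ x hx)⟩)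
    (fun P R f g _ h1 _ hinv _ => ⟨h1.1.symm hinv, fun y hy => by
        obtain ⟨x, hx, rfl, -⟩ := hinv y hy
        exact h1.2.2 x hx, fun y hy => by
        obtain ⟨x, hx, -, h2⟩ := hinv y hy
        rw [h2]; exact h1.2.1 hx⟩)
  have hED : ∀ P, E.Hom P ⊆ D.Hom P := by
    intro P
    refine H802.le_of_centric (h.hS.to_le h.le) h.hE.1 D (fun Q hQn hQc _ α hα => ?_) P
    apply mem_of_mp_ac
    have hQT := hQn.1
    have hm : Mp E Q (ac α) := mp_ac hQT hα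
    have hQI : Q ⊓ T = Q := inf_eq_left.2 hQT
    refine mp_subSys_iff.2 ⟨mp_mono h.sub hm, mp_of_ke ?_ (mp_mono h.sub hm) ?_, hQT,
      fun x hx => hQT (ac_mem _ hx)⟩
    · refine ⟨hQT.trans h.le, ?_⟩
      rw [hQI]
      exact (isCentric_iff_tc h.hE.2.2).1 hQc
    · refine ⟨1, one_mem _, ?_⟩
      rw [hQI]
      exact Fr.one hm
  refine isSubsystemOf_of_mp fun P f hf => ?_
  obtain ⟨φ, hφ, h1⟩ := hf
  have h2 : Mp D P f := ⟨φ, hED P hφ, h1⟩
  exact (mp_subSys_iff.1 h2).2.1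

end CharData

end Cfsg.Agent.H770
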