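import Cfsg.Agent.H770.PIdx

/-!
# The invariant core of a subsystem over `S` (helper770)
-/

set_option autoImplicit false

namespace Cfsg.Agent.H770

open Cfsg Cfsg.FusionSystem Cfsg.Agent.H752

variable {Ω : Type*} [Group Ω] {S T : Subgroup Ω} {p : ℕ}

section

variable [Finite S] {F : FusionSystem S}

omit [Finite S] in
theorem mp_maps {a : Ω → Ω} (ha : Mp F S a) : ∀ x ∈ S, a x ∈ S := fun _ hx => ha.mem hx

/-- The inverse of a map from `S` to `S`. -/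
theorem exists_inv_S {a : Ω → Ω} (ha : Mp F S a) : ∃ b, Mp F S b ∧ (∀ x ∈ S, b (a x) = x) ∧
    (∀ x ∈ S, a (b x) = x) := by
  obtain ⟨b, hb, h1, h2⟩ := ha.exists_symm le_rfl (T := S) (Mp.im_of_maps ha (mp_maps ha))
  exact ⟨b, hb, h1, fun x hx => (h2 x hx).2⟩

/-- `F` is invariant in itself. -/
theorem invC_self : InvC F F := by
  intro P R f a h hf ha hR
  obtain ⟨b, hb, h1, h2⟩ := exists_inv_S ha
  have hRS : R ≤ S := by
    intro y hy
    obtain ⟨x, hx, rfl, -⟩ := hR y hy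
    exact ha.mem (hf.le hx)
  have h3 : ∀ y ∈ R, b y ∈ P := by
    intro y hy
    obtain ⟨x, hx, rfl, -⟩ := hR y hy
    rw [h1 x (hf.le hx)]; exact hx
  have h4 := ((hb.res hRS).comp hf h3).comp ha fun x hx => hf.mem (h3 x hx)
  refine h4.congr fun y hy => ?_
  obtain ⟨x, hx, rfl, h5⟩ := hR y hy
  rw [h5, h1 x (hf.le hx)]

/-- The maps of `F` all of whose `Aut_F(S)`-conjugates lie in `D`. -/
noncomputable def core' (F D : FusionSystem S) : FusionSystem S :=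
  subSys F S (fun P f => ∀ (a h : Ω → Ω) (R : Subgroup Ω), Mp F S a →
      (∀ y ∈ R, ∃ x ∈ P, a x = y ∧ h y = a (f x)) → Mp D R h)
    (by
      intro P f g hf h he a k R ha hR
      refine h a k R ha fun y hy => ?_
      obtain ⟨x, hx, h1, h2⟩ := hR y hy
      exact ⟨x, hx, h1, by rw [h2, he x hx]⟩)
    (fun P f hf _ => ⟨hf.le, fun x hx => hf.mem hx⟩)
    (by
      intro P hP s hs
      refine ⟨mp_conj F hP hs, fun a h R ha hR => ?_⟩
      have hRS : R ≤ S := by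
        intro y hy
        obtain ⟨x, hx, rfl, -⟩ := hR y hy
        exact ha.mem (hP hx)
      refine (mp_conj D hRS (ha.mem hs)).congr fun y hy => ?_
      obtain ⟨x, hx, rfl, h2⟩ := hR y hy
      rw [h2, ha.mul (mul_mem hs (hP hx)) (inv_mem hs), ha.mul hs (hP hx), ha.inv hs])
    (by
      intro P Q f g hf hg h1 h2 hPQ a h R ha hR
      obtain ⟨b, hb, hb1, hb2⟩ := exists_inv_S ha
      obtain ⟨Q', hQ', hQ'S, -⟩ := Mp.exists_im ha hg.le
      have h3 : Mp D R (fun y => a (f (b y))) := h1 a _ R ha fun y hy => by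
        obtain ⟨x, hx, rfl, -⟩ := hR y hy
        exact ⟨x, hx, rfl, by rw [hb1 x (hf.le hx)]⟩
      have h4 : Mp D Q' (fun y => a (g (b y))) := h2 a _ Q' ha fun y hy => by
        obtain ⟨x, hx, rfl⟩ := (hQ' y).1 hy
        exact ⟨x, hx, rfl, by rw [hb1 x (hg.le hx)]⟩
      refine (h3.comp h4 ?_).congr ?_
      · intro y hy
        obtain ⟨x, hx, rfl, -⟩ := hR y hy
        rw [hb1 x (hf.le hx)]
        exact hQ'.apply (hPQ x hx)
      · intro y hy
        obtain ⟨x, hx, rfl, h5⟩ := hR y hy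
        show h (a x) = a (g (b (a (f (b (a x))))))
        rw [h5, hb1 x (hf.le hx), hb1 _ (hf.mem hx)])
    (by
      intro P R f g hf h1 hg hinv hfR a h R' ha hR'
      obtain ⟨b, hb, hb1, hb2⟩ := exists_inv_S ha
      obtain ⟨P', hP', hP'S, -⟩ := Mp.exists_im ha hf.le
      have h3 : Mp D P' (fun y => a (f (b y))) := h1 a _ P' ha fun y hy => by
        obtain ⟨x, hx, rfl⟩ := (hP' y).1 hy
        exact ⟨x, hx, rfl, by rw [hb1 x (hf.le hx)]⟩
      refine h3.symm fun y hy => ?_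
      obtain ⟨z, hz, rfl, h5⟩ := hR' y hy
      obtain ⟨x, hx, rfl, h6⟩ := hinv z hz
      exact ⟨a x, hP'.apply hx, by rw [hb1 x (hf.le hx)], by rw [h5, h6]⟩)

theorem mp_core'_iff {D : FusionSystem S} {P : Subgroup Ω} {f : Ω → Ω} :
    Mp (core' F D) P f ↔ Mp F P f ∧ ∀ (a h : Ω → Ω) (R : Subgroup Ω), Mp F S a →
      (∀ y ∈ R, ∃ x ∈ P, a x = y ∧ h y = a (f x)) → Mp D R h := mp_subSys_iff

theorem mp_of_core' {D : FusionSystem S} {P : Subgroup Ω} {f : Ω → Ω} (h : Mp (core' F D) P f) :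
    Mp D P f := by
  obtain ⟨h1, h2⟩ := mp_core'_iff.1 h
  exact h2 (fun x => x) f P (mp_id F le_rfl) fun y hy => ⟨y, hy, rfl, rfl⟩

theorem invC_core' {D : FusionSystem S} : InvC (core' F D) F := by
  intro P R f a h hf ha hR
  obtain ⟨h1, h2⟩ := mp_core'_iff.1 hf
  rw [mp_core'_iff]
  refine ⟨invC_self P R f a h h1 ha hR, ?_⟩
  intro b k R' hb hR'
  refine h2 (fun x => b (a x)) k R' (ha.comp hb fun x hx => ha.mem hx) fun y hy => ?_
  obtain ⟨z, hz, rfl, h3⟩ := hR' y hy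
  obtain ⟨x, hx, rfl, h4⟩ := hR z hz
  exact ⟨x, hx, rfl, by rw [h3, h4]⟩

/-- Generation as an invariant system implies generation. -/
theorem gen_of_inv {E : FusionSystem S} (hEF : E.IsSubsystemOf F) (hI : InvC E F)
    (𝒬 : Subgroup Ω → Prop) (h𝒬c : ∀ P Q, 𝒬 P → F.IsConj P Q → 𝒬 Q)
    (hgen : ∀ D : FusionSystem S, InvC D F → (∀ P f, 𝒬 P → Mp E P f → Mp D P f) →
      ∀ P f, Mp E P f → Mp D P f) :
    ∀ D : FusionSystem S, (∀ P f, 𝒬 P → Mp E P f → Mp D P f) → ∀ P f, Mp E P f → Mp D P f := by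
  intro D hD P f hf
  refine mp_of_core' (F := F) (hgen (core' F D) invC_core' (fun P f hP hf => ?_) P f hf)
  rw [mp_core'_iff]
  refine ⟨mp_mono hEF hf, fun a h R ha hR => ?_⟩
  obtain ⟨b, hb, hb1, hb2⟩ := exists_inv_S ha
  obtain ⟨R₁, hR₁, hR₁S, -⟩ := Mp.exists_im ha hf.le
  have h1 : Mp E R₁ (fun y => a (f (b y))) := hI P R₁ f a _ hf ha fun y hy => by
    obtain ⟨x, hx, rfl⟩ := (hR₁ y).1 hy
    exact ⟨x, hx, rfl, by rw [hb1 x (hf.le hx)]⟩
  have h2 := hD R₁ _ (h𝒬c P R₁ hP (Mp.isConj (ha.res hf.le) hR₁)) h1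
  refine (h2.res fun y hy => ?_).congr fun y hy => ?_
  · obtain ⟨x, hx, rfl, -⟩ := hR y hy
    exact hR₁.apply hx
  · obtain ⟨x, hx, rfl, h3⟩ := hR y hy
    rw [h3, hb1 x (hf.le hx)]

end

end Cfsg.Agent.H770
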