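import Cfsg.Agent.H770.Frat
import Cfsg.Agent.H752.Ext

/-!
# Index prime to `p`: extension of the character from `𝒬` to the centric subgroups (helper770)
-/

set_option autoImplicit false

namespace Cfsg.Agent.H770

open Cfsg Cfsg.FusionSystem Cfsg.Agent.H752

variable {Ω : Type*} [Group Ω] {S T : Subgroup Ω} {p : ℕ}

/-- Downward induction on the order of the subgroups of `S`. -/
theorem down_ind [Finite S] (C : Subgroup Ω → Prop)
    (h : ∀ P : Subgroup Ω, P ≤ S → (∀ R : Subgroup Ω, R ≤ S → Nat.card P < Nat.card R → C R) → C P) :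
    ∀ P : Subgroup Ω, P ≤ S → C P := by
  have key : ∀ n : ℕ, ∀ P : Subgroup Ω, P ≤ S → Nat.card S - Nat.card P ≤ n → C P := by
    intro n
    induction n with
    | zero =>
      intro P hP hn
      refine h P hP fun R hR hlt => ?_
      have h1 : Nat.card R ≤ Nat.card S := Subgroup.card_le_of_le hR
      omega
    | succ n ih =>
      intro P hP hn
      refine h P hP fun R hR hlt => ih R hR ?_
      have h1 : Nat.card R ≤ Nat.card S := Subgroup.card_le_of_le hR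
      omega
  exact fun P hP => key _ P hP le_rfl

theorem mp_agree_centric [Fact p.Prime] [Finite S] (hS : IsPGroup p S) {F : FusionSystem S}
    (hF : F.IsSaturated p) {Q P : Subgroup Ω} {f g : Ω → Ω} (hQ : F.IsCentric Q) (hQP : Q ≤ P)
    (h1 : Mp F P f) (h2 : Mp F P g) (he : ∀ x ∈ Q, f x = g x) :
    ∃ z ∈ Q, z ∈ Subgroup.centralizer (Q : Set Ω) ∧ ∀ x ∈ P, z * x * z⁻¹ ∈ P ∧
      g x = f (z * x * z⁻¹) := by
  obtain ⟨φ, hφ, h3⟩ := h1
  obtain ⟨ψ, hψ, h4⟩ := h2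
  obtain ⟨z, hz, hzc, h5⟩ := H802.exists_conj_of_agree_on_centric hS hF hQ hQP hφ hψ
    (fun x hx => by rw [h3, h4, he x hx])
  refine ⟨z, hz, hzc, fun x hx => ?_⟩
  have h6 : z * x * z⁻¹ ∈ P := mul_mem (mul_mem (hQP hz) hx) (inv_mem (hQP hz))
  refine ⟨h6, ?_⟩
  rw [← h4 x hx, ← h3 _ h6]
  exact h5 ⟨x, hx⟩ h6

/-- The property (E3). -/
def E3 (E F : FusionSystem S) (P : Subgroup Ω) : Prop :=
  ∀ a, Fr E F P (fun x => x) a → a ∈ E.autGroup S

section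

variable {E F : FusionSystem S}

theorem autGroup_conj (hI : InvC E F) {a b : MulAut S} (hb : b ∈ F.autGroup S)
    (ha : a ∈ E.autGroup S) : b * a * b⁻¹ ∈ E.autGroup S := by
  apply mem_of_mp_ac
  refine hI S S (ac a) (ac b) _ (mp_ac le_rfl ha) (mp_ac le_rfl hb) fun y hy =>
    ⟨ac b⁻¹ y, ac_mem _ hy, ac_ac_inv b hy, ?_⟩
  rw [ac_mul _ _ hy, ac_mul _ _ (ac_mem _ hy)]

theorem E3.of_im (hEF : E.IsSubsystemOf F) (hI : InvC E F) {P P' : Subgroup Ω} {f : Ω → Ω}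
    {b : MulAut S} (hf : Fr E F P f b) (hP' : Im f P P') (h : E3 E F P) : E3 E F P' := by
  intro a ha
  have hm := hf.mp le_rfl hEF
  obtain ⟨i, hi, h1, h2⟩ := hm.exists_symm le_rfl hP'
  have hi' : Fr E F P' i b⁻¹ := hf.symm le_rfl hI fun y hy => ⟨i y, (h2 y hy).1, (h2 y hy).2, rfl⟩
  have h3 := (hf.comp le_rfl hI ha fun x hx => hP'.apply hx).comp le_rfl hI hi'
    fun x hx => hP'.apply hx
  have h4 := h _ (h3.congr fun x hx => (h1 x hx).symm)
  have h5 := autGroup_conj hI hf.mem h4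
  have h6 : b * (b⁻¹ * (a * b)) * b⁻¹ = a := by group
  rwa [h6] at h5

/-- In the presence of (E3), the Frattini factor of an extension. -/
theorem Fr.extend (hEF : E.IsSubsystemOf F) (hI : InvC E F) {P R : Subgroup Ω} {f : Ω → Ω}
    {a b : MulAut S} (hb : Fr E F R f b) (hPR : P ≤ R) (ha : Fr E F P f a) (h3 : E3 E F P) :
    Fr E F R f a := by
  have h1 := ha.div le_rfl hEF hI (hb.res hPR)
  have h2 := hb.mul_right le_rfl hI (h3 _ h1) hEF
  rwa [mul_inv_cancel_left] at h2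

/-- The elements of `N_S(Q)` that act on `Q` as elements of `K`. -/
def NK (S Q : Subgroup Ω) (K : Subgroup (MulAut Q)) : Subgroup Ω where
  carrier := {s | s ∈ S ∧ s ∈ Subgroup.normalizer (Q : Set Ω) ∧ ∃ κ ∈ K, ∀ x ∈ Q,
    s * x * s⁻¹ = ac κ x}
  one_mem' := ⟨one_mem _, one_mem _, 1, one_mem _, fun x hx => by rw [ac_one hx]; simp⟩
  mul_mem' := by
    rintro s t ⟨hs, hsn, κ, hκ, h1⟩ ⟨ht, htn, κ', hκ', h2⟩
    refine ⟨mul_mem hs ht, mul_mem hsn htn, κ * κ', mul_mem hκ hκ', fun x hx => ?_⟩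
    rw [ac_mul _ _ hx, ← h1 _ (ac_mem _ hx), ← h2 x hx]
    group
  inv_mem' := by
    rintro s ⟨hs, hsn, κ, hκ, h1⟩
    refine ⟨inv_mem hs, inv_mem hsn, κ⁻¹, inv_mem hκ, fun x hx => ?_⟩
    have h2 := h1 (ac κ⁻¹ x) (ac_mem _ hx)
    rw [ac_ac_inv κ hx] at h2
    generalize ac κ⁻¹ x = A at h2 ⊢
    rw [← h2]
    group

theorem NK_le {Q : Subgroup Ω} {K : Subgroup (MulAut Q)} : NK S Q K ≤ normalizerIn S Q :=
  fun _ hs => ⟨hs.1, hs.2.1⟩

/-- The image of `Q ⊔ NK` under an extension of an automorphism of `Q`. -/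
theorem NK_maps {Q : Subgroup Ω} {K : Subgroup (MulAut Q)}
    (hK : ∀ a ∈ F.autGroup Q, ∀ k ∈ K, a * k * a⁻¹ ∈ K) {α : MulAut Q} (hα : α ∈ F.autGroup Q)
    {k : Ω → Ω} (hk : Mp F (Q ⊔ NK S Q K) k) (he : ∀ x ∈ Q, k x = ac α x) :
    ∀ x ∈ Q ⊔ NK S Q K, k x ∈ Q ⊔ NK S Q K := by
  refine hk.mem_sup (fun x hx => ?_) (fun s hs => ?_)
  · rw [he x hx]
    exact (le_sup_left : Q ≤ _) (ac_mem _ hx)
  · refine (le_sup_right : NK S Q K ≤ _) ⟨hk.mem ((le_sup_right : NK S Q K ≤ _) hs), ?_, ?_⟩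
    · exact Mp.mem_normalizer hk le_sup_left ((im_ac α).congr he) ((le_sup_right : NK S Q K ≤ _) hs)
        hs.2.1
    · have hs' : s ∈ Q ⊔ NK S Q K := (le_sup_right : NK S Q K ≤ _) hs
      obtain ⟨-, hsn, κ, hκ, h1⟩ := hs
      refine ⟨α * κ * α⁻¹, hK α hα κ hκ, fun y hy => ?_⟩
      have hx : ac α⁻¹ y ∈ Q := ac_mem _ hy
      have hx' : ac α⁻¹ y ∈ Q ⊔ NK S Q K := (le_sup_left : Q ≤ _) hx
      have h2 : k (ac α⁻¹ y) = y := by rw [he _ hx, ac_ac_inv α hy]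
      have h3 : s * ac α⁻¹ y * s⁻¹ ∈ Q := (Subgroup.mem_normalizer_iff.1 hsn _).1 hx
      rw [ac_mul _ _ hy, ac_mul _ _ hx, ← h1 _ hx, ← he _ h3,
        hk.mul (mul_mem hs' hx') (inv_mem hs'), hk.mul hs' hx', hk.inv hs', h2]

variable [Finite S] [Fact p.Prime]

/-- (C1): the property (E3) holds for all centric subgroups. -/
theorem e3_of_centric (hS : IsPGroup p S) (hF : F.IsSaturated p)
    (hEF : E.IsSubsystemOf F) (hI : InvC E F)
    (hFr : ∀ (P : Subgroup Ω) (f : Ω → Ω), Mp F P f → ∃ a, Fr E F P f a)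
    (𝒬 : Subgroup Ω → Prop) (h𝒬S : 𝒬 S) (h𝒬c : ∀ P Q, 𝒬 P → F.IsConj P Q → 𝒬 Q)
    (hgen : ∀ D : FusionSystem S, (∀ P f, 𝒬 P → Mp E P f → Mp D P f) → ∀ P f, Mp E P f → Mp D P f)
    (hE3 : ∀ P, 𝒬 P → E3 E F P)
    (hcr : ∀ R : Subgroup Ω, F.IsFullyNormalized R → F.IsCentric R → ¬ 𝒬 R →
      ∃ K : Subgroup (MulAut R), K ≤ F.autGroup R ∧ (∀ a ∈ F.autGroup R, ∀ k ∈ K, a * k * a⁻¹ ∈ K) ∧
        IsPGroup p K ∧ ¬ K ≤ Inn R)
    {P : Subgroup Ω} (hP : F.IsCentric P) : E3 E F P := by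
  have main : ∀ P : Subgroup Ω, P ≤ S → F.IsCentric P → E3 E F P := by
    refine down_ind _ ?_
    intro P hPS IH hPc
    by_cases hP𝒬 : 𝒬 P
    · exact hE3 P hP𝒬
    -- pass to a fully normalized conjugate
    obtain ⟨Q, hPQ, hQn⟩ := H802.exists_isFullyNormalized hS hF hPS
    have hQc := H802.isCentric_of_isConj hPc hPQ
    have hQ𝒬 : ∀ R, F.IsConj Q R → ¬ 𝒬 R := fun R hQR hR =>
      hP𝒬 (h𝒬c R P hR (H802.isConj_symm (H802.isConj_trans hPQ hQR)))
    have hcard := H802.isConj_card_eq hPQ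
    suffices hQE : E3 E F Q by
      obtain ⟨f, hf, hfI⟩ := exists_mp_of_isConj (H802.isConj_symm hPQ)
      obtain ⟨b, hb⟩ := hFr _ _ hf
      exact hQE.of_im hEF hI hb hfI
    have hQS := hQn.1
    have hfQ : Finite Q := H802.finite_of_le hQS
    have hQa := H802.isFullyAutomized_of_isFullyNormalized hS hF hQn
    have hQr := H802.isReceptive_of_isFullyNormalized hS hF hQn
    have IH' : ∀ R : Subgroup Ω, Q ≤ R → Q ≠ R → R ≤ S → E3 E F R := by
      intro R hQR hne hRS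
      have hfR : Finite R := H802.finite_of_le hRS
      refine IH R hRS ?_ (H802.isCentric_of_le hQc hQR hRS)
      rw [hcard]
      exact lt_of_le_of_ne (Subgroup.card_le_of_le hQR) fun h =>
        hne (Subgroup.eq_of_le_of_card_ge hQR h.ge)
    obtain ⟨K, hKA, hK, hKp, hKI⟩ := hcr Q hQn hQc (hQ𝒬 Q (H802.isConj_refl F hQS))
    have hKS := le_autInducedBy_of_normal hQa K hKA hK hKp
    have hXS : Q ⊔ NK S Q K ≤ S := sup_le hQS (NK_le.trans inf_le_left)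
    have hQX : Q ≠ Q ⊔ NK S Q K := by
      obtain ⟨κ, hκ, hκI⟩ := SetLike.not_le_iff_exists.1 hKI
      obtain ⟨s, hs, hsκ⟩ := (H802.mem_autInducedBy_iff S Q κ).1 (hKS hκ)
      have hsn : s ∈ Subgroup.normalizer (Q : Set Ω) := H802.mem_normalizer_of_aut hsκ
      intro h
      apply hκI
      have hsQ : s ∈ Q := by
        rw [h]
        exact (le_sup_right : NK S Q K ≤ _) ⟨hs, hsn, κ, hκ, fun x hx => by
          rw [ac_apply κ hx]; exact (hsκ ⟨x, hx⟩).symm⟩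
      have : κ = MulAut.conj (⟨s, hsQ⟩ : Q) := by
        ext x
        rw [hsκ]
        simp
      rw [this]
      exact ⟨_, rfl⟩
    -- extension of automorphisms
    have hextend : ∀ (W : Subgroup Ω) (f : Ω → Ω) (a : MulAut S), Q ≤ W → Q ≠ W →
        W ≤ normalizerIn S Q → Fr E F W f a → (∀ x ∈ Q, f x ∈ Q) →
        Th E F Q (Q ⊔ NK S Q K) f a := by
      intro W f a hQW hne hWN hf hfQ
      have hfm := hf.mp le_rfl hEF
      obtain ⟨α, hα, hαf⟩ := exists_ac (hfm.res hQW) hfQ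
      have hIm : Im f Q Q := Mp.im_of_maps (hfm.res hQW) hfQ
      obtain ⟨X', k, hk, hke, hQX', -, -, hX'⟩ := mp_receptive hQr (hfm.res hQW) hIm
      have hWX' : W ≤ X' := fun g hg => hX' g (hWN hg).1 (hWN hg).2 ⟨f g, hfm.mem hg, fun x hx => by
        rw [← hfm.inv hg, ← hfm.mul hg (hQW hx), ← hfm.mul (mul_mem hg (hQW hx)) (inv_mem hg)]⟩
      have hNX' : NK S Q K ≤ X' := by
        rintro s ⟨hs, hsn, κ, hκ, h1⟩
        obtain ⟨t, ht, htκ⟩ := (H802.mem_autInducedBy_iff S Q _).1 (hKS (hK α hα κ hκ))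
        refine hX' s hs hsn ⟨t, ht, fun x hx => ?_⟩
        rw [h1 x hx, hαf x hx, hαf _ (ac_mem _ hx)]
        have h2 := htκ ⟨ac α x, ac_mem _ hx⟩
        rw [← ac_apply _ (ac_mem α hx), ac_mul _ _ (ac_mem _ hx), ac_inv_ac α hx,
          ac_mul _ _ hx] at h2
        exact h2
      obtain ⟨b, hb⟩ := hFr _ _ hk
      -- compare on `W`
      obtain ⟨z, hz, hzc, hzk⟩ := mp_agree_centric hS hF hQc hQW hfm (hk.res hWX')
        (fun x hx => (hke x hx).symm)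
      have hkW : Fr E F W k a := by
        have h1 : Fr E F W (fun x => z * x * z⁻¹) 1 := Fr.one (mp_conj E hfm.le (hQS hz))
        have h2 := h1.comp le_rfl hI hf fun x hx => (hzk x hx).1
        rw [mul_one] at h2
        exact h2.congr fun x hx => (hzk x hx).2
      have hkX' := Fr.extend hEF hI hb hWX' hkW (IH' W hQW hne (hWN.trans inf_le_left))
      have hkX := hkX'.res (sup_le hQX' hNX')
      exact ⟨k, hkX, NK_maps hK hα (hkX.mp le_rfl hEF) fun x hx => by rw [hke x hx, hαf x hx], hke⟩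
    intro a ha
    obtain ⟨g, hg, -, hge⟩ := chain_lemma hS hF hEF hI hFr 𝒬 h𝒬S hgen hQn le_sup_left hXS hQ𝒬
      hextend ha
    obtain ⟨z, hz, hzc, hzk⟩ := mp_agree_centric hS hF hQc (le_sup_left : Q ≤ Q ⊔ NK S Q K)
      (mp_id F hXS) (hg.mp le_rfl hEF) (fun x hx => (hge x hx).symm)
    have h1 : Fr E F (Q ⊔ NK S Q K) g 1 :=
      Fr.one ((mp_conj E hXS (hQS hz)).congr fun x hx => (hzk x hx).2)
    have h2 := hg.div le_rfl hEF hI h1
    rw [inv_one, one_mul] at h2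
    exact IH' _ le_sup_left hQX hXS a h2
  exact main P hP.1 hP

end

end Cfsg.Agent.H770
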