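import Cfsg.Agent.H752.Inv
import Cfsg.Agent.H802.FusSub
import Cfsg.Agent.H802.FusAlp
import Cfsg.Agent.H802.FusCentric

/-!
# Frattini factors of maps (helper770)

`Fr E F P f a`: on `P` the function `f` is a map of `E` followed by the automorphism `a ∈ Aut_F(T)`.
Constructor of subsystems from predicates on functions.
-/

set_option autoImplicit false

namespace Cfsg.Agent.H770

open Cfsg Cfsg.FusionSystem Cfsg.Agent.H752

variable {Ω : Type*} [Group Ω] {S T : Subgroup Ω}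

/-- An automorphism of `T` as a function on `Ω`. -/
noncomputable def ac (a : MulAut T) : Ω → Ω := ex fun x : T => ((a x : T) : Ω)

theorem ac_apply (a : MulAut T) {x : Ω} (hx : x ∈ T) : ac a x = ((a ⟨x, hx⟩ : T) : Ω) :=
  ex_apply _ hx

theorem ac_mem (a : MulAut T) {x : Ω} (hx : x ∈ T) : ac a x ∈ T := by
  rw [ac_apply a hx]
  exact (a _).2

theorem ac_mul (a b : MulAut T) {x : Ω} (hx : x ∈ T) : ac (a * b) x = ac a (ac b x) := by
  rw [ac_apply _ hx, ac_apply b hx, ac_apply a (b _).2]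
  rfl

theorem ac_one {x : Ω} (hx : x ∈ T) : ac (1 : MulAut T) x = x := by
  rw [ac_apply _ hx]
  rfl

theorem ac_inv_ac (a : MulAut T) {x : Ω} (hx : x ∈ T) : ac a⁻¹ (ac a x) = x := by
  rw [← ac_mul _ _ hx, inv_mul_cancel, ac_one hx]

theorem ac_ac_inv (a : MulAut T) {x : Ω} (hx : x ∈ T) : ac a (ac a⁻¹ x) = x := by
  rw [← ac_mul _ _ hx, mul_inv_cancel, ac_one hx]

theorem mp_ac {F : FusionSystem S} (hT : T ≤ S) {a : MulAut T} (ha : a ∈ F.autGroup T) :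
    Mp F T (ac a) := (mp_iff_autGroup hT a).1 ha

theorem mem_of_mp_ac {F : FusionSystem S} {a : MulAut T} (ha : Mp F T (ac a)) :
    a ∈ F.autGroup T := (mp_iff_autGroup ha.le a).2 ha

/-- A map of `F` from `T` to `T` comes from an element of the automorphism group. -/
theorem exists_ac {F : FusionSystem S} [Finite T] {f : Ω → Ω} (h : Mp F T f)
    (hm : ∀ x ∈ T, f x ∈ T) : ∃ a ∈ F.autGroup T, ∀ x ∈ T, f x = ac a x := by
  obtain ⟨a, ha, h1⟩ := h.exists_aut hm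
  exact ⟨a, ha, fun x hx => by rw [h1 x hx, ac_apply a hx]⟩

/-- On `P`, `f` is a map of `E` followed by the automorphism `a` of `T` in `F`. -/
def Fr (E : FusionSystem T) (F : FusionSystem S) (P : Subgroup Ω) (f : Ω → Ω) (a : MulAut T) :
    Prop :=
  a ∈ F.autGroup T ∧ ∃ f₀, Mp E P f₀ ∧ ∀ x ∈ P, f x = ac a (f₀ x)

variable {E : FusionSystem T} {F : FusionSystem S} {P Q R : Subgroup Ω} {f g h : Ω → Ω}
  {a b : MulAut T}

theorem Fr.mem (h : Fr E F P f a) : a ∈ F.autGroup T := h.1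

theorem Fr.res (h : Fr E F P f a) (hR : R ≤ P) : Fr E F R f a := by
  obtain ⟨ha, f₀, hf₀, h1⟩ := h
  exact ⟨ha, f₀, hf₀.res hR, fun x hx => h1 x (hR hx)⟩

theorem Fr.congr (h : Fr E F P f a) (he : ∀ x ∈ P, g x = f x) : Fr E F P g a := by
  obtain ⟨ha, f₀, hf₀, h1⟩ := h
  exact ⟨ha, f₀, hf₀, fun x hx => (he x hx).trans (h1 x hx)⟩

theorem Fr.one (h : Mp E P f) : Fr E F P f 1 :=
  ⟨one_mem _, f, h, fun _ hx => (ac_one (h.mem hx)).symm⟩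

theorem Fr.of_aut (ha : a ∈ F.autGroup T) (hP : P ≤ T) : Fr E F P (ac a) a :=
  ⟨ha, fun x => x, mp_id E hP, fun _ _ => rfl⟩

theorem Fr.le (h : Fr E F P f a) : P ≤ T := by
  obtain ⟨-, f₀, hf₀, -⟩ := h
  exact hf₀.le

theorem Fr.apply_mem (h : Fr E F P f a) {x : Ω} (hx : x ∈ P) : f x ∈ T := by
  obtain ⟨-, f₀, hf₀, h1⟩ := h
  rw [h1 x hx]
  exact ac_mem a (hf₀.mem hx)

theorem Fr.mp (hTS : T ≤ S) (hE : E.IsSubsystemOf F) (h : Fr E F P f a) : Mp F P f := by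
  obtain ⟨ha, f₀, hf₀, h1⟩ := h
  exact ((mp_mono hE hf₀).comp (mp_ac hTS ha) fun x hx => hf₀.mem hx).congr h1

theorem Fr.comp (hTS : T ≤ S) (hI : InvC E F) (hf : Fr E F P f a) (hg : Fr E F Q g b)
    (hPQ : ∀ x ∈ P, f x ∈ Q) : Fr E F P (fun x => g (f x)) (b * a) := by
  obtain ⟨ha, f₀, hf₀, h1⟩ := hf
  obtain ⟨hb, g₀, hg₀, h2⟩ := hg
  obtain ⟨R, hR, hRT, -⟩ := hf₀.exists_image le_rfl
  have hk : Mp E R (fun y => ac a⁻¹ (g₀ (ac a y))) := by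
    refine hI Q R g₀ (ac a⁻¹) _ hg₀ (mp_ac hTS (inv_mem ha)) fun y hy =>
      ⟨ac a y, ?_, ac_inv_ac a (hRT hy), rfl⟩
    obtain ⟨x, hx, rfl⟩ := (hR y).1 hy
    rw [← h1 x hx]
    exact hPQ x hx
  refine ⟨mul_mem hb ha, _, hf₀.comp hk fun x hx => (hR _).2 ⟨x, hx, rfl⟩, fun x hx => ?_⟩
  have h5 : ac a (f₀ x) ∈ Q := by
    rw [← h1 x hx]
    exact hPQ x hx
  show g (f x) = ac (b * a) (ac a⁻¹ (g₀ (ac a (f₀ x))))
  rw [← ac_mul _ _ (hg₀.mem h5), mul_assoc, mul_inv_cancel, mul_one, h1 x hx, h2 _ h5]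

theorem Fr.symm (hTS : T ≤ S) (hI : InvC E F) (hf : Fr E F P f a)
    (hg : ∀ y ∈ R, ∃ x ∈ P, f x = y ∧ g y = x) : Fr E F R g a⁻¹ := by
  obtain ⟨ha, f₀, hf₀, h1⟩ := hf
  obtain ⟨R₀, hR₀, hRT, -⟩ := hf₀.exists_image le_rfl
  obtain ⟨f₁, hf₁, h5, h6⟩ := hf₀.exists_symm le_rfl hR₀
  have hk : Mp E R (fun y => ac a (g y)) := by
    refine hI R₀ R f₁ (ac a) _ hf₁ (mp_ac hTS ha) fun y hy => ?_
    obtain ⟨x, hx, hxy, hgy⟩ := hg y hy
    refine ⟨f₀ x, (hR₀ _).2 ⟨x, hx, rfl⟩, ?_, ?_⟩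
    · rw [← h1 x hx, hxy]
    · rw [h5 x hx, hgy]
  refine ⟨inv_mem ha, _, hk, fun y hy => ?_⟩
  obtain ⟨x, hx, hxy, hgy⟩ := hg y hy
  show g y = ac a⁻¹ (ac a (g y))
  rw [hgy, ac_inv_ac a (hf₀.le hx)]

theorem FratC.exists_fr [Finite T] (h : FratC E F P f) (hT : F.StronglyClosed T) :
    ∃ a, Fr E F P f a := by
  obtain ⟨a, ha, f₀, hf₀, h1⟩ := h
  obtain ⟨α, hα, h2⟩ := exists_ac ha fun x hx => mp_mem_of_stronglyClosed hT ha hx hx
  exact ⟨α, hα, f₀, hf₀, fun x hx => by rw [h1 x hx, h2 _ (hf₀.mem hx)]⟩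

theorem Fr.fratC (hTS : T ≤ S) (h : Fr E F P f a) : FratC E F P f := by
  obtain ⟨ha, f₀, hf₀, h1⟩ := h
  exact ⟨ac a, mp_ac hTS ha, f₀, hf₀, h1⟩

/-- Two Frattini factors of the same map differ by a Frattini factor of the identity. -/
theorem Fr.div (hTS : T ≤ S) (hEF : E.IsSubsystemOf F) (hI : InvC E F) (hf : Fr E F P f a)
    (hg : Fr E F P f b) : Fr E F P (fun x => x) (b⁻¹ * a) := by
  have hm := hf.mp hTS hEF
  obtain ⟨R, hR, -⟩ := hm.exists_image le_rfl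
  obtain ⟨g, -, h1, h2⟩ := hm.exists_symm le_rfl hR
  have h3 : Fr E F R g b⁻¹ := hg.symm hTS hI fun y hy => by
    obtain ⟨x, hx, rfl⟩ := (hR y).1 hy
    exact ⟨x, hx, rfl, h1 x hx⟩
  exact (hf.comp hTS hI h3 fun x hx => (hR _).2 ⟨x, hx, rfl⟩).congr fun x hx => (h1 x hx).symm

/-- If the identity of `P` has the Frattini factor `a`, then `a` on `P` is a map of `E`. -/
theorem Fr.mp_of_id (hTS : T ≤ S) (hI : InvC E F) (h : Fr E F P (fun x => x) a) :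
    Mp E P (ac a) := by
  have h1 : Fr E F P (fun x => x) a⁻¹ := by
    have := h.symm hTS hI (R := P) (g := fun x => x) fun y hy => ⟨y, hy, rfl, rfl⟩
    exact this
  obtain ⟨-, f₀, hf₀, h2⟩ := h1
  refine hf₀.congr fun x hx => ?_
  have h3 : x = ac a⁻¹ (f₀ x) := h2 x hx
  calc ac a x = ac a (ac a⁻¹ (f₀ x)) := congrArg _ h3
    _ = f₀ x := ac_ac_inv a (hf₀.mem hx)

/-- If `a` on `P` is a map of `E`, then the identity of `P` has the Frattini factor `a`. -/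
theorem Fr.of_mp (hTS : T ≤ S) (hI : InvC E F) (ha : a ∈ F.autGroup T) (h : Mp E P (ac a)) :
    Fr E F P (fun x => x) a := by
  have h1 : Fr E F P (fun x => x) a⁻¹ := ⟨inv_mem ha, _, h, fun x hx => (ac_inv_ac a (h.le hx)).symm⟩
  have := h1.symm hTS hI (R := P) (g := fun x => x) fun y hy => ⟨y, hy, rfl, rfl⟩
  rwa [inv_inv] at this

theorem Fr.mul_right (hTS : T ≤ S) (hI : InvC E F) (h : Fr E F P f a)
    (hb : b ∈ E.autGroup T) (hEF : E.IsSubsystemOf F) : Fr E F P f (a * b) := by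
  have hbF : b ∈ F.autGroup T := mem_of_mp_ac (mp_mono hEF (mp_ac le_rfl hb))
  have h1 : Fr E F P (fun x => x) b :=
    Fr.of_mp hTS hI hbF ((mp_ac le_rfl hb).res h.le)
  exact h1.comp hTS hI h fun x hx => hx

/-! ### Subsystems from predicates on functions -/

/-- The subsystem over `T` of `F` given by a predicate on functions. -/
noncomputable def subSys (F : FusionSystem S) (T : Subgroup Ω)
    (M : Subgroup Ω → (Ω → Ω) → Prop)
    (h_congr : ∀ (P : Subgroup Ω) (f g : Ω → Ω), Mp F P f → M P f → (∀ x ∈ P, g x = f x) → M P g)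
    (h_mem : ∀ (P : Subgroup Ω) (f : Ω → Ω), Mp F P f → M P f → P ≤ T ∧ ∀ x ∈ P, f x ∈ T)
    (h_conj : ∀ P : Subgroup Ω, P ≤ T → ∀ s ∈ T,
      Mp F P (fun x => s * x * s⁻¹) ∧ M P (fun x => s * x * s⁻¹))
    (h_comp : ∀ (P Q : Subgroup Ω) (f g : Ω → Ω), Mp F P f → Mp F Q g → M P f → M Q g →
      (∀ x ∈ P, f x ∈ Q) → M P (fun x => g (f x)))
    (h_inv : ∀ (P R : Subgroup Ω) (f g : Ω → Ω), Mp F P f → M P f → Mp F R g →
      (∀ y ∈ R, ∃ x ∈ P, f x = y ∧ g y = x) → (∀ x ∈ P, f x ∈ R) → M R g) : FusionSystem T where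
  Hom P := {φ | φ ∈ F.Hom P ∧ M P (ex φ)}
  le_of_mem := by
    rintro P φ ⟨h1, h2⟩
    obtain ⟨h3, h4⟩ := h_mem P _ (mp_ex h1) h2
    exact ⟨h3, fun x => by have := h4 x x.2; rwa [ex_coe] at this⟩
  injective_of_mem h := F.injective_of_mem h.1
  conj_mem := by
    intro P s hP hs
    obtain ⟨h1, h2⟩ := h_conj P hP s hs
    have h3 : conjHom P s ∈ F.Hom P := h1.mem_hom fun _ _ => rfl
    exact ⟨h3, h_congr P _ _ h1 h2 fun x hx => ex_apply _ hx⟩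
  comp_mem := by
    rintro P Q φ ψ ⟨h1, h2⟩ ⟨h3, h4⟩ h
    have h5 : ∀ x ∈ P, ex φ x ∈ Q := fun x hx => by rw [ex_apply _ hx]; exact h _
    refine ⟨F.comp_mem h1 h3 h, h_congr P _ _ ((mp_ex h1).comp (mp_ex h3) h5)
      (h_comp P Q _ _ (mp_ex h1) (mp_ex h3) h2 h4 h5) fun x hx => ?_⟩
    have h6 := h5 x hx
    rw [ex_apply _ hx] at h6 ⊢
    rw [ex_apply (φ : P → Ω) hx, ex_apply _ h6]
    rfl
  inv_mem := by
    rintro P φ ⟨h1, h2⟩
    obtain ⟨ψ, hψ, h3⟩ := F.inv_mem h1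
    refine ⟨ψ, ⟨hψ, h_inv P _ (ex φ) _ (mp_ex h1) h2 (mp_ex hψ) ?_ ?_⟩, h3⟩
    · rintro _ ⟨x, rfl⟩
      refine ⟨x, x.2, ex_coe _ x, ?_⟩
      rw [ex_apply _ (show φ x ∈ φ.range from ⟨x, rfl⟩), h3]
    · intro x hx
      rw [ex_apply _ hx]
      exact ⟨_, rfl⟩

section subSys

variable {M : Subgroup Ω → (Ω → Ω) → Prop}
    {h_congr : ∀ (P : Subgroup Ω) (f g : Ω → Ω), Mp F P f → M P f → (∀ x ∈ P, g x = f x) → M P g}
    {h_mem : ∀ (P : Subgroup Ω) (f : Ω → Ω), Mp F P f → M P f → P ≤ T ∧ ∀ x ∈ P, f x ∈ T}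
    {h_conj : ∀ P : Subgroup Ω, P ≤ T → ∀ s ∈ T,
      Mp F P (fun x => s * x * s⁻¹) ∧ M P (fun x => s * x * s⁻¹)}
    {h_comp : ∀ (P Q : Subgroup Ω) (f g : Ω → Ω), Mp F P f → Mp F Q g → M P f → M Q g →
      (∀ x ∈ P, f x ∈ Q) → M P (fun x => g (f x))}
    {h_inv : ∀ (P R : Subgroup Ω) (f g : Ω → Ω), Mp F P f → M P f → Mp F R g →
      (∀ y ∈ R, ∃ x ∈ P, f x = y ∧ g y = x) → (∀ x ∈ P, f x ∈ R) → M R g}

theorem mp_subSys_iff : Mp (subSys F T M h_congr h_mem h_conj h_comp h_inv) P f ↔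
    Mp F P f ∧ M P f := by
  constructor
  · rintro ⟨φ, ⟨h1, h2⟩, h3⟩
    exact ⟨⟨φ, h1, h3⟩, h_congr P _ _ (mp_ex h1) h2 fun x hx => by rw [ex_apply _ hx, h3]⟩
  · rintro ⟨⟨φ, h1, h3⟩, h2⟩
    exact ⟨φ, ⟨h1, h_congr P _ _ ⟨φ, h1, h3⟩ h2 fun x hx => by rw [ex_apply _ hx, h3]⟩, h3⟩

theorem subSys_isSubsystemOf :
    (subSys F T M h_congr h_mem h_conj h_comp h_inv).IsSubsystemOf F := fun _ _ hφ => hφ.1

end subSys

end Cfsg.Agent.H770
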