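import Cfsg.Agent.H770.Chain
import Cfsg.Agent.H802.FusEss

/-!
# The Frattini property from automizers of centric subgroups (helper770)
-/

set_option autoImplicit false

namespace Cfsg.Agent.H770

open Cfsg Cfsg.FusionSystem Cfsg.Agent.H752

variable {Ω : Type*} [Group Ω] {S T : Subgroup Ω} {p : ℕ}

/-- A normal `p`-subgroup of `Aut_F(Q)` is contained in `Aut_S(Q)`, for `Q` fully automized. -/
theorem le_autInducedBy_of_normal [Fact p.Prime] {F : FusionSystem S} {Q : Subgroup Ω} [Finite Q]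
    (hQa : F.IsFullyAutomized p Q) (K : Subgroup (MulAut Q)) (hKA : K ≤ F.autGroup Q)
    (hK : ∀ a ∈ F.autGroup Q, ∀ k ∈ K, a * k * a⁻¹ ∈ K) (hKp : IsPGroup p K) :
    K ≤ autInducedBy S Q := by
  obtain ⟨-, R, hR⟩ := hQa
  have hn : (K.subgroupOf (F.autGroup Q)).Normal := ⟨fun n hn g => by
    rw [Subgroup.mem_subgroupOf] at hn ⊢
    exact hK g g.2 n hn⟩
  have hp : IsPGroup p (K.subgroupOf (F.autGroup Q)) :=
    hKp.of_injective (Subgroup.subgroupOfEquivOfLe hKA).toMonoidHom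
      (Subgroup.subgroupOfEquivOfLe hKA).injective
  have h1 := hp.le_sylow_of_normal R
  intro k hk
  have h2 : (⟨k, hKA hk⟩ : F.autGroup Q) ∈ (R : Subgroup (F.autGroup Q)) :=
    h1 (Subgroup.mem_subgroupOf.2 hk)
  rw [hR] at h2
  exact h2

/-- The elements of `p`-power order of a group of automorphisms generate a normal subgroup. -/
theorem closure_ppow_conj {A : Type*} [Group A] (B : Subgroup A) {a : A} (ha : a ∈ B) {k : A}
    (hk : k ∈ Subgroup.closure {x : A | x ∈ B ∧ ∃ n : ℕ, x ^ p ^ n = 1}) :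
    a * k * a⁻¹ ∈ Subgroup.closure {x : A | x ∈ B ∧ ∃ n : ℕ, x ^ p ^ n = 1} := by
  induction hk using Subgroup.closure_induction with
  | mem x hx =>
    obtain ⟨hx, n, hn⟩ := hx
    refine Subgroup.subset_closure ⟨mul_mem (mul_mem ha hx) (inv_mem ha), n, ?_⟩
    rw [conj_pow, hn, mul_one, mul_inv_cancel]
  | one => simp
  | mul x y _ _ hx hy =>
    have : a * (x * y) * a⁻¹ = (a * x * a⁻¹) * (a * y * a⁻¹) := by group
    rw [this]; exact mul_mem hx hy
  | inv x _ hx =>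
    have : a * x⁻¹ * a⁻¹ = (a * x * a⁻¹)⁻¹ := by group
    rw [this]; exact inv_mem hx

theorem ac_conj_apply {Q : Subgroup Ω} {α : MulAut Q} {g : Ω}
    (hg : g ∈ Subgroup.normalizer (Q : Set Ω)) {x : Ω} (hx : x ∈ Q) :
    ac (α * H759.conjAut Q g hg * α⁻¹) (ac α x) = ac α (g * x * g⁻¹) := by
  rw [ac_mul _ _ (ac_mem α hx), ac_inv_ac α hx, ac_mul _ _ hx]
  congr 1
  rw [ac_apply _ hx]
  rfl

theorem conjAut_ppow [Finite S] [Fact p.Prime] (hS : IsPGroup p S) {Q : Subgroup Ω} {g : Ω}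
    (hgS : g ∈ S) (hg : g ∈ Subgroup.normalizer (Q : Set Ω)) :
    ∃ n : ℕ, (H759.conjAut Q g hg) ^ p ^ n = 1 := by
  obtain ⟨n, hn⟩ := hS ⟨g, hgS⟩
  have hn' : g ^ p ^ n = 1 := congrArg Subtype.val hn
  refine ⟨n, ?_⟩
  have key : ∀ m : ℕ, ∀ x : Q, (((H759.conjAut Q g hg ^ m) x : Q) : Ω) = g ^ m * x * (g ^ m)⁻¹ := by
    intro m
    induction m with
    | zero => intro x; simp
    | succ m ih =>
      intro x
      rw [pow_succ', MulAut.mul_apply, H759.coe_conjAut, ih, pow_succ']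
      group
  ext x
  rw [key, hn']
  simp

theorem conjAut_mem_autGroup {F : FusionSystem S} {Q : Subgroup Ω} (hQS : Q ≤ S) {g : Ω}
    (hgS : g ∈ S) (hg : g ∈ Subgroup.normalizer (Q : Set Ω)) :
    H759.conjAut Q g hg ∈ F.autGroup Q :=
  H759.autGroup_map F (H759.conj_mem' F hQS hgS (fun _ => rfl))

section

variable [Finite S] [Fact p.Prime] {E F : FusionSystem S}

/-- **Frattini property.** -/
theorem exists_fr (hS : IsPGroup p S) (hF : F.IsSaturated p)
    (hEF : E.IsSubsystemOf F) (hI : InvC E F) (𝒬 : Subgroup Ω → Prop)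
    (hE2 : ∀ R : Subgroup Ω, F.IsFullyNormalized R → F.IsCentric R → 𝒬 R → R ≠ S →
      ∀ α ∈ F.autGroup R, (∃ n : ℕ, α ^ p ^ n = 1) → Mp E R (ac α))
    (hcr : ∀ R : Subgroup Ω, F.IsFullyNormalized R → F.IsCentric R → ¬ 𝒬 R →
      ∃ K : Subgroup (MulAut R), K ≤ F.autGroup R ∧ (∀ a ∈ F.autGroup R, ∀ k ∈ K, a * k * a⁻¹ ∈ K) ∧
        IsPGroup p K ∧ ¬ K ≤ Inn R)
    {P : Subgroup Ω} {f : Ω → Ω} (hf : Mp F P f) : ∃ a, Fr E F P f a := by
  let D : FusionSystem S := subSys F S (fun P f => ∃ a, Fr E F P f a)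
    (fun P f g _ h he => by
      obtain ⟨a, ha⟩ := h
      exact ⟨a, ha.congr he⟩)
    (fun P f hf _ => ⟨hf.le, fun x hx => hf.mem hx⟩)
    (fun P hP s hs => ⟨mp_conj F hP hs, 1, Fr.one (mp_conj E hP hs)⟩)
    (fun P Q f g _ _ h1 h2 hPQ => by
      obtain ⟨a, ha⟩ := h1
      obtain ⟨b, hb⟩ := h2
      exact ⟨_, ha.comp le_rfl hI hb hPQ⟩)
    (fun P R f g _ h _ hinv _ => by
      obtain ⟨a, ha⟩ := h
      exact ⟨_, ha.symm le_rfl hI hinv⟩)
  have hD : ∀ P, F.Hom P ⊆ D.Hom P := by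
    intro P
    refine H802.le_of_centric hS hF D (fun Q hQn hQc hbig α hα => ?_) P
    have hQS := hQn.1
    have hfQ : Finite Q := H802.finite_of_le hQS
    have hQa := H802.isFullyAutomized_of_isFullyNormalized hS hF hQn
    have hQr := H802.isReceptive_of_isFullyNormalized hS hF hQn
    have hbig' : ∀ (R : Subgroup Ω) (k : Ω → Ω), Nat.card Q < Nat.card R → Mp F R k →
        ∃ a, Fr E F R k a := by
      intro R k hR hk
      obtain ⟨φ, hφ, h1⟩ := hk
      have h2 : Mp D R k := ⟨φ, hbig R hR hφ, h1⟩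
      exact (mp_subSys_iff.1 h2).2
    apply mem_of_mp_ac
    refine mp_subSys_iff.2 ⟨mp_ac hQS hα, ?_⟩
    by_cases hQeS : Q = S
    · subst hQeS
      exact ⟨α, Fr.of_aut hα le_rfl⟩
    by_cases hQ𝒬 : 𝒬 Q
    · -- the generic case
      let K : Subgroup (MulAut Q) :=
        Subgroup.closure {x : MulAut Q | x ∈ F.autGroup Q ∧ ∃ n : ℕ, x ^ p ^ n = 1}
      have hKA : K ≤ F.autGroup Q := by
        rw [Subgroup.closure_le]
        exact fun x hx => hx.1
      have hKE : K ≤ E.autGroup Q := by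
        rw [Subgroup.closure_le]
        rintro x ⟨hx, hn⟩
        exact mem_of_mp_ac (hE2 Q hQn hQc hQ𝒬 hQeS x hx hn)
      obtain ⟨k, hk, ψ, hψ, h1⟩ := mp_ext_kernel (F := F) hS (N := normalizerIn S Q) hQa hQr hα K hKA
        (fun a ha k hk => closure_ppow_conj (F.autGroup Q) ha hk) inf_le_left inf_le_right (by
          intro g hg
          refine ⟨α * H759.conjAut Q g hg.2 * α⁻¹, Subgroup.subset_closure
            ⟨mul_mem (mul_mem hα (conjAut_mem_autGroup hQS hg.1 hg.2)) (inv_mem hα), ?_⟩, 1,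
            one_mem _, one_mem _, fun x hx => ?_⟩
          · obtain ⟨n, hn⟩ := conjAut_ppow (p := p) hS hg.1 hg.2
            exact ⟨n, by rw [conj_pow, hn, mul_one, mul_inv_cancel]⟩
          · rw [one_mul, inv_one, mul_one, ac_conj_apply hg.2 hx])
      have hcard : Nat.card Q < Nat.card (Q ⊔ normalizerIn S Q : Subgroup Ω) := by
        have hfin : Finite (Q ⊔ normalizerIn S Q : Subgroup Ω) :=
          H802.finite_of_le (sup_le hQS inf_le_left)
        exact (H802.card_lt_card_normalizerIn hS hQS hQeS).trans_le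
          (Nat.card_mono (Set.toFinite _) (le_sup_right : normalizerIn S Q ≤ _))
      obtain ⟨a, ha⟩ := hbig' _ _ hcard hψ
      have hk' : Mp E Q (ac k⁻¹) := mp_ac hQS (inv_mem (hKE hk))
      have h2 := (ha.res le_sup_left).comp le_rfl hI (Fr.one hk') fun x hx => by
        rw [h1 x hx]
        exact ac_mem _ (ac_mem _ hx)
      refine ⟨_, h2.congr fun x hx => ?_⟩
      show ac α x = ac k⁻¹ (ψ x)
      rw [h1 x hx, ac_inv_ac k (ac_mem _ hx)]
    · -- extension along a normal `p`-subgroup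
      obtain ⟨K, hKA, hK, hKp, hKI⟩ := hcr Q hQn hQc hQ𝒬
      have hKS := le_autInducedBy_of_normal hQa K hKA hK hKp
      obtain ⟨κ, hκ, hκI⟩ := SetLike.not_le_iff_exists.1 hKI
      obtain ⟨s, hs, hsκ⟩ := (H802.mem_autInducedBy_iff S Q κ).1 (hKS hκ)
      have hsn : s ∈ Subgroup.normalizer (Q : Set Ω) := H802.mem_normalizer_of_aut hsκ
      obtain ⟨t, ht, htκ⟩ := (H802.mem_autInducedBy_iff S Q _).1 (hKS (hK α hα κ hκ))
      obtain ⟨X, k, hk, hke, hQX, -, -, hX⟩ := mp_receptive hQr (mp_ac hQS hα) (im_ac α)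
      have hsX : s ∈ X := hX s hs hsn ⟨t, ht, fun x hx => by
        have h1 := htκ (α ⟨x, hx⟩)
        rw [ac_apply α hx, ← h1]
        have h2 : s * x * s⁻¹ ∈ Q := by rw [← hsκ ⟨x, hx⟩]; exact (κ _).2
        rw [ac_apply α h2]
        have h3 : (⟨s * x * s⁻¹, h2⟩ : Q) = κ ⟨x, hx⟩ := Subtype.ext (hsκ ⟨x, hx⟩).symm
        rw [h3]
        simp⟩
      have hsQ : s ∉ Q := by
        intro hsQ
        apply hκI
        have : κ = MulAut.conj (⟨s, hsQ⟩ : Q) := by
          ext x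
          rw [hsκ]
          simp
        rw [this]
        exact ⟨_, rfl⟩
      have hcard : Nat.card Q < Nat.card X := by
        have hfin : Finite X := H802.finite_of_le hk.le
        refine lt_of_le_of_ne (Nat.card_mono (Set.toFinite _) hQX) fun h => hsQ ?_
        rw [Subgroup.eq_of_le_of_card_ge hQX h.ge]
        exact hsX
      obtain ⟨a, ha⟩ := hbig' _ _ hcard hk
      exact ⟨a, (ha.res hQX).congr fun x hx => (hke x hx).symm⟩
  obtain ⟨φ, hφ, h1⟩ := hf
  have h2 : Mp D P f := ⟨φ, hD P hφ, h1⟩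
  exact (mp_subSys_iff.1 h2).2

end

end Cfsg.Agent.H770
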