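import Cfsg.Agent.H757.RvThree

/-!
# An element inverting `x` and commuting with `Q₈` has square `z` (helper770, for S5207)
-/

set_option autoImplicit false

namespace Cfsg.Agent.H770.MonThirSq

open Subgroup Cfsg Cfsg.Agent.H757.RvT

universe u

variable {G : Type u} [Group G] [Finite G] {p : ℕ} {x z i j w : G} {P : Sylow p G} {O : Subgroup G}

/-- elements of `P` fixed by `w` are trivial -/
theorem free (h : H757.RvT.Out p x z P O) (hpp : p.Prime) (hp : Odd p) (hxo : orderOf x = p)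
    (ix : i * x = x * i) (jx : j * x = x * j) (ij : i * j = j * i * z)
    (wx : w * x * w⁻¹ = x⁻¹) (wi : w * i = i * w) (wj : w * j = j * w)
    (hc : ¬ p ^ 2 ∣ Nat.card (centralizer ({w} : Set G))) {g : G} (hg : g ∈ P) (hwg : w * g = g * w) : g = 1 := by
  have : Fact p.Prime := ⟨hpp⟩
  by_contra hg1
  obtain ⟨F, hF⟩ : ∃ F, F = (P : Subgroup G) ⊓ centralizer ({w} : Set G) := ⟨_, rfl⟩
  have memF : ∀ y, y ∈ F ↔ y ∈ P ∧ y * w = w * y := by
    intro y
    rw [hF, mem_inf, mem_centralizer_singleton_iff]; rfl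
  have hgF : g ∈ F := (memF g).2 ⟨hg, hwg.symm⟩
  have hgo : orderOf g = p := by
    rcases (Nat.dvd_prime hpp).1 (orderOf_dvd_of_pow_eq_one (h.exp g hg)) with h1 | h1
    · exact absurd (orderOf_eq_one_iff.1 h1) hg1
    · exact h1
  have hFp : IsPGroup p F := P.2.to_le (by rw [hF]; exact inf_le_left)
  obtain ⟨n, hn⟩ := IsPGroup.iff_card.1 hFp
  have hn1 : n ≤ 1 := by
    by_contra hcon
    apply hc
    refine (pow_dvd_pow p (by omega : 2 ≤ n)).trans ?_
    rw [← hn]
    exact Subgroup.card_dvd_of_le (by rw [hF]; exact inf_le_right)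
  have hFg : zpowers g = F := by
    refine eq_of_le_of_card_ge (by rwa [zpowers_le]) ?_
    rw [Nat.card_zpowers, hgo, hn]
    calc p ^ n ≤ p ^ 1 := Nat.pow_le_pow_right hpp.pos hn1
      _ = p := pow_one p
  -- `i`, `j` normalise `F`
  have key : ∀ c : G, c * x = x * c → w * c = c * w → ∃ k : ℤ, c * g * c⁻¹ = g ^ k := by
    intro c hcx hwc
    have h1 : c * g * c⁻¹ ∈ F := by
      rw [memF]
      refine ⟨h.norm c hcx g hg, ?_⟩
      have h2 : Commute w (c * g * c⁻¹) :=
        ((show Commute w c from hwc).mul_right hwg).mul_right ((show Commute w c from hwc).inv_right)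
      exact h2.eq.symm
    rw [← hFg] at h1
    obtain ⟨k, hk⟩ := h1
    exact ⟨k, hk.symm⟩
  obtain ⟨a, ha⟩ := key i ix wi
  obtain ⟨b, hb⟩ := key j jx wj
  have e1 : i * j * g * (i * j)⁻¹ = g ^ (a * b) := by
    calc i * j * g * (i * j)⁻¹ = i * (j * g * j⁻¹) * i⁻¹ := by group
      _ = g ^ (a * b) := by rw [hb, ← conj_zpow, ha, zpow_mul]
  have e2 : j * i * g * (j * i)⁻¹ = g ^ (a * b) := by
    calc j * i * g * (j * i)⁻¹ = j * (i * g * i⁻¹) * j⁻¹ := by group
      _ = g ^ (a * b) := by rw [ha, ← conj_zpow, hb, mul_comm, zpow_mul]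
  have e3 : z * g * z⁻¹ = g := by
    have h1 : j * i * (z * g * z⁻¹) * (j * i)⁻¹ = j * i * g * (j * i)⁻¹ := by
      rw [e2, ← e1, ij]; group
    exact mul_left_cancel (mul_right_cancel h1)
  have e4 : g ∈ zpowers x := h.inf g (h.PO hg) (by rw [mul_inv_eq_iff_eq_mul] at e3; exact e3.symm)
  apply hg1
  refine eq_one_of_sq hp hxo e4 ?_
  obtain ⟨k, hk⟩ := e4
  have h1 : w * g * w⁻¹ = g⁻¹ := by
    rw [← hk]
    show w * x ^ k * w⁻¹ = (x ^ k)⁻¹
    rw [← conj_zpow, wx, inv_zpow]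
  rw [hwg, mul_inv_cancel_right] at h1
  rw [mul_eq_one_iff_eq_inv]
  exact h1

/-- such an involution inverts `P` -/
theorem inverts (h : H757.RvT.Out p x z P O) (hpp : p.Prime) (hp : Odd p) (hxo : orderOf x = p)
    (ix : i * x = x * i) (jx : j * x = x * j) (ij : i * j = j * i * z)
    (wx : w * x * w⁻¹ = x⁻¹) (wi : w * i = i * w) (wj : w * j = j * w) (ww : w * w = 1)
    (hc : ¬ p ^ 2 ∣ Nat.card (centralizer ({w} : Set G))) {g : G} (hg : g ∈ P) : w * g * w⁻¹ = g⁻¹ := by
  let φ : (P : Subgroup G) →* (P : Subgroup G) :=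
    { toFun := fun v => ⟨w * v * w⁻¹, h.norm_inv wx v v.2⟩
      map_one' := Subtype.ext (by simp)
      map_mul' := fun a b => Subtype.ext (by
        show w * (a * b : G) * w⁻¹ = w * a * w⁻¹ * (w * b * w⁻¹)
        group) }
  have hφ : ∀ v : (P : Subgroup G), ((φ v : (P : Subgroup G)) : G) = w * v * w⁻¹ := fun v => rfl
  have h1 : MonoidHom.FixedPointFree φ := by
    intro v hv
    have h2 : w * (v : G) * w⁻¹ = v := by rw [← hφ, hv]
    exact Subtype.ext (free h hpp hp hxo ix jx ij wx wi wj hc v.2 (mul_inv_eq_iff_eq_mul.1 h2))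
  have h2 : Function.Involutive φ := by
    intro v
    apply Subtype.ext
    rw [hφ, hφ]
    have h3 : w⁻¹ = w := inv_eq_of_mul_eq_one_right ww
    calc w * (w * (v : G) * w⁻¹) * w⁻¹ = (w * w) * v * (w * w)⁻¹ := by group
      _ = v := by rw [ww]; group
  have h3 := congrFun (h1.coe_eq_inv_of_involutive h2) ⟨g, hg⟩
  have h4 := congrArg (Subtype.val) h3
  rw [hφ] at h4
  exact h4

/-- **the square of `w` is `z`** -/
theorem sq_eq (h : H757.RvT.Out p x z P O) (hpp : p.Prime) (hp : Odd p) (hxo : orderOf x = p) (hzz : z * z = 1)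
    (xz : x * z = z * x) (ix : i * x = x * i) (jx : j * x = x * j) (ii : i * i = z) (jj : j * j = z)
    (ij : i * j = j * i * z)
    (wx : w * x * w⁻¹ = x⁻¹) (wz : w * z = z * w) (wi : w * i = i * w) (wj : w * j = j * w)
    (ww : w * w = 1 ∨ w * w = z)
    (hc : ∀ t : G, t * t = 1 → t * x * t⁻¹ = x⁻¹ → ¬ p ^ 2 ∣ Nat.card (centralizer ({t} : Set G))) :
    w * w = z := by
  refine ww.resolve_left fun hw => ?_
  have zi : z * i = i * z := by rw [← ii, mul_assoc]
  have zj : z * j = j * z := by rw [← jj, mul_assoc]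
  have hzw : (w * z) * (w * z) = 1 := by
    calc (w * z) * (w * z) = w * (z * w) * z := by group
      _ = (w * w) * (z * z) := by rw [← wz]; group
      _ = 1 := by rw [hw, hzz, one_mul]
  have hzx : (w * z) * x * (w * z)⁻¹ = x⁻¹ := by
    calc (w * z) * x * (w * z)⁻¹ = w * (z * x) * z⁻¹ * w⁻¹ := by group
      _ = w * x * w⁻¹ := by rw [← xz]; group
      _ = x⁻¹ := wx
  have h1 : (P : Subgroup G) ≤ zpowers x := by
    intro g hg
    have e1 := inverts h hpp hp hxo ix jx ij wx wi wj hw (hc w hw wx) hg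
    have e2 := inverts h hpp hp hxo ix jx ij hzx
      (by rw [mul_assoc, zi, ← mul_assoc, wi, mul_assoc]) (by rw [mul_assoc, zj, ← mul_assoc, wj, mul_assoc])
      hzw (hc _ hzw hzx) hg
    have e3 : z * g * z⁻¹ = g := by
      have e4 : w * (z * g * z⁻¹) * w⁻¹ = w * g * w⁻¹ := by
        rw [e1, ← e2]; group
      exact mul_left_cancel (mul_right_cancel e4)
    exact h.inf g (h.PO hg) (by rw [mul_inv_eq_iff_eq_mul] at e3; exact e3.symm)
  have h2 := Nat.le_of_dvd Nat.card_pos (Subgroup.card_dvd_of_le h1)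
  have h3 : Nat.card (P : Subgroup G) = p ^ 3 := h.card
  rw [h3, Nat.card_zpowers, hxo] at h2
  have h4 : p ^ 1 < p ^ 3 := Nat.pow_lt_pow_right hpp.one_lt (by norm_num)
  rw [pow_one] at h4
  omega

end Cfsg.Agent.H770.MonThirSq
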