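import Cfsg.Agent.H770.C2

/-!
# Subsystems of index prime to `p` (helper770)

Main theorem: a subsystem `E` of `F` over `S` generated by its maps on a family `𝒬`, invariant under `Aut_F(S)`,
containing the elements of `p`-power order of the automizers of members of `𝒬` and such that an element of
`Aut_F(S)` whose restriction to a member of `𝒬` lies in `E` belongs to `E`, is saturated, of index prime to `p`
and normal in `F`.
-/

set_option autoImplicit false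

namespace Cfsg.Agent.H770

open Cfsg Cfsg.FusionSystem Cfsg.Agent.H752

variable {Ω : Type*} [Group Ω] {S T : Subgroup Ω} {p : ℕ}

theorem Fr.mp_of_one {E : FusionSystem T} {F : FusionSystem S} {P : Subgroup Ω} {f : Ω → Ω}
    (h : Fr E F P f 1) : Mp E P f := by
  obtain ⟨-, f₀, hf₀, h1⟩ := h
  exact hf₀.congr fun x hx => by rw [h1 x hx, ac_one (hf₀.mem hx)]

/-- The image of a fully normalized subgroup under an element of `Aut_F(S)`. -/
theorem isFullyNormalized_ac [Finite S] {F : FusionSystem S} {a : MulAut S}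
    (ha : a ∈ F.autGroup S) {Q Q' : Subgroup Ω} (hQ : F.IsFullyNormalized Q) (hI : Im (ac a) Q Q') :
    F.IsFullyNormalized Q' := by
  have hm := mp_ac (F := F) le_rfl ha
  have hQ'S : Q' ≤ S := Mp.im_le (hm.res hQ.1) hI
  have hconj : F.IsConj Q Q' := Mp.isConj (hm.res hQ.1) hI
  refine ⟨hQ'S, fun R hR => (hQ.2 R (H802.isConj_trans hconj hR)).trans ?_⟩
  obtain ⟨M, hM, hMS, hMc⟩ := Mp.exists_im hm (R := normalizerIn S Q) inf_le_left
  rw [← hMc]
  have hfin : Finite (normalizerIn S Q') := H802.finite_of_le inf_le_left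
  refine Nat.card_mono (Set.toFinite _) ?_
  intro y hy
  obtain ⟨x, hx, rfl⟩ := (hM y).1 hy
  exact ⟨ac_mem _ hx.1, Mp.mem_normalizer hm hQ.1 hI hx.1 hx.2⟩

/-- The hypotheses on a subsystem. -/
structure PData (p : ℕ) (E F : FusionSystem S) (𝒬 : Subgroup Ω → Prop) : Prop where
  sub : E.IsSubsystemOf F
  inv : InvC E F
  memS : 𝒬 S
  conj : ∀ P Q, 𝒬 P → F.IsConj P Q → 𝒬 Q
  gen : ∀ D : FusionSystem S, (∀ P f, 𝒬 P → Mp E P f → Mp D P f) → ∀ P f, Mp E P f → Mp D P f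
  e3 : ∀ P, 𝒬 P → E3 E F P
  e2 : ∀ R : Subgroup Ω, F.IsFullyNormalized R → F.IsCentric R → 𝒬 R → R ≠ S →
      ∀ α ∈ F.autGroup R, (∃ n : ℕ, α ^ p ^ n = 1) → Mp E R (ac α)
  cr : ∀ R : Subgroup Ω, F.IsFullyNormalized R → F.IsCentric R → ¬ 𝒬 R →
      ∃ K : Subgroup (MulAut R), K ≤ F.autGroup R ∧ (∀ a ∈ F.autGroup R, ∀ k ∈ K, a * k * a⁻¹ ∈ K) ∧
        IsPGroup p K ∧ ¬ K ≤ Inn R

namespace PData

variable [Finite S] [Fact p.Prime] {E F : FusionSystem S} {𝒬 : Subgroup Ω → Prop}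

theorem frat (h : PData p E F 𝒬) (hS : IsPGroup p S) (hF : F.IsSaturated p) :
    ∀ (P : Subgroup Ω) (f : Ω → Ω), Mp F P f → ∃ a, Fr E F P f a := fun _ _ hf =>
  exists_fr hS hF h.sub h.inv 𝒬 h.e2 h.cr hf

theorem e3c (h : PData p E F 𝒬) (hS : IsPGroup p S) (hF : F.IsSaturated p) :
    ∀ P, F.IsCentric P → E3 E F P := fun _ hP =>
  e3_of_centric hS hF h.sub h.inv (h.frat hS hF) 𝒬 h.memS h.conj h.gen h.e3 h.cr hP

theorem invariant (h : PData p E F 𝒬) (hS : IsPGroup p S) (hF : F.IsSaturated p) :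
    E.IsInvariantIn F := by
  rw [isInvariantIn_iff]
  refine ⟨h.sub, ⟨le_rfl, fun R _ φ hφ x => (F.le_of_mem hφ).2 x⟩, h.inv, fun P f _ hf => ?_⟩
  obtain ⟨a, ha⟩ := h.frat hS hF P f hf
  exact ha.fratC le_rfl

/-- All elements of `p`-power order of automizers lie in `E`. -/
theorem mem_of_ppow (h : PData p E F 𝒬) (hS : IsPGroup p S) (hF : F.IsSaturated p)
    {P : Subgroup Ω} (hPS : P ≤ S) {α : MulAut P} (hα : α ∈ F.autGroup P)
    (hn : ∃ n : ℕ, α ^ p ^ n = 1) : α ∈ E.autGroup P := by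
  obtain ⟨n, hn⟩ := hn
  have hSI : StrongInvC E F := strongInvC_of_invC h.inv fun P f _ hf => by
    obtain ⟨a, ha⟩ := h.frat hS hF P f hf
    exact ha.fratC le_rfl
  obtain ⟨φ, hφ, g, hg, hge⟩ := H802.exists_conj_of_orderOf hF hPS hα hn
  have hφm := mp_ex hφ
  obtain ⟨P₁, hP₁, hP₁S, -⟩ := Mp.exists_im hφm le_rfl
  obtain ⟨i, hi, hi1, hi2⟩ := hφm.exists_symm le_rfl hP₁
  have hval : ∀ x ∈ P, g * ex φ x * g⁻¹ = ex φ (ac α x) := fun x hx => by
    rw [ex_apply _ hx, ex_apply _ (ac_mem α hx), ← hge ⟨x, hx⟩]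
    congr 1
    exact Subtype.ext (ac_apply α hx).symm
  apply mem_of_mp_ac
  refine hSI P₁ P₁ P (fun x => g * x * g⁻¹) i (ac α) le_rfl hP₁S (mp_conj E hP₁S hg) ?_ hi ?_
  · intro y hy
    obtain ⟨x, hx, rfl⟩ := (hP₁ y).1 hy
    show g * ex φ x * g⁻¹ ∈ P₁
    rw [hval x hx]
    exact hP₁.apply (ac_mem _ hx)
  · intro x hx
    refine ⟨ex φ x, hP₁.apply hx, hi1 x hx, ?_⟩
    show ac α x = i (g * ex φ x * g⁻¹)
    rw [hval x hx, hi1 _ (ac_mem _ hx)]

/-- `E` has index prime to `p` in `F`. -/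
theorem primeIndex (h : PData p E F 𝒬) (hS : IsPGroup p S) (hF : F.IsSaturated p) :
    E.HasPrimeToPIndexIn F p := by
  refine ⟨h.sub, fun P hPS => ?_⟩
  rw [Subgroup.map_le_iff_le_comap, Subgroup.closure_le]
  rintro ⟨α, hα⟩ ⟨k, hk⟩
  refine h.mem_of_ppow hS hF hPS hα ⟨k, ?_⟩
  have h1 : (⟨α, hα⟩ : F.autGroup P) ^ p ^ k = 1 := by rw [← hk]; exact pow_orderOf_eq_one _
  exact congrArg Subtype.val h1

/-- **Saturation.** -/
theorem isSaturated (h : PData p E F 𝒬) (hS : IsPGroup p S) (hF : F.IsSaturated p) :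
    E.IsSaturated p := by
  have hEF := h.sub
  have hI := h.inv
  have hFr := h.frat hS hF
  have hE3 := h.e3c hS hF
  have hC2 := c2 hS hF hEF hI hFr 𝒬 h.memS h.conj h.gen h.e3 hE3
  intro P hPS
  obtain ⟨Q₀, hPQ₀, hQ₀⟩ := H802.exists_isFullyNormalized hS hF hPS
  obtain ⟨f, hf, hfI⟩ := exists_mp_of_isConj hPQ₀
  obtain ⟨a, haF, f₁, hf₁, hfe⟩ := hFr _ _ hf
  obtain ⟨Q, hQ, hQS, -⟩ := Mp.exists_im hf₁ le_rfl
  have hQI : Im (ac a⁻¹) Q₀ Q := fun y => by
    rw [hQ y]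
    constructor
    · rintro ⟨x, hx, rfl⟩
      exact ⟨f x, hfI.apply hx, by rw [hfe x hx, ac_inv_ac a (hf₁.mem hx)]⟩
    · rintro ⟨z, hz, rfl⟩
      obtain ⟨x, hx, rfl⟩ := (hfI z).1 hz
      exact ⟨x, hx, by rw [hfe x hx, ac_inv_ac a (hf₁.mem hx)]⟩
  have hQn : F.IsFullyNormalized Q := isFullyNormalized_ac (inv_mem haF) hQ₀ hQI
  have hQa := H802.isFullyAutomized_of_isFullyNormalized hS hF hQn
  have hQr := H802.isReceptive_of_isFullyNormalized hS hF hQn
  refine ⟨Q, Mp.isConj hf₁ hQ, H802.isFullyAutomized_of_le hS (F := F) (F' := E)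
    (fun P => hEF P) hQa, hQS, fun P' φ hφ hr => ?_⟩
  have hφF := hEF P' hφ
  have hP'S : P' ≤ S := (F.le_of_mem hφF).1
  obtain ⟨ψ, hψ, hψe⟩ := hQr.2 P' φ hφF hr
  have hP'X : P' ≤ extender S P' φ := H802.le_extender hP'S (H802.hom_apply_mem hφF)
  have hψm := mp_ex hψ
  obtain ⟨b, hb⟩ := hFr _ _ hψm
  have hfX : Finite (extender S P' φ) := H802.finite_of_le hψm.le
  have hfQ : Finite Q := H802.finite_of_le hQS
  have hφm : Mp E P' (ex φ) := mp_ex hφ
  have hφI : Im (ex φ) P' Q := fun y => by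
    rw [← hr]
    constructor
    · rintro ⟨x, rfl⟩
      exact ⟨x, x.2, ex_coe _ x⟩
    · rintro ⟨x, hx, rfl⟩
      exact ⟨⟨x, hx⟩, (ex_apply _ hx).symm⟩
  have hψφ : ∀ x ∈ P', ex ψ x = ex φ x := fun x hx => by
    rw [ex_apply _ (hP'X hx), ex_apply _ hx]
    exact hψe x hx (hP'X hx)
  obtain ⟨i, hi, hi1, hi2⟩ := hφm.exists_symm le_rfl hφI
  have hidb : Fr E F Q (fun x => x) b := by
    have h1 := (Fr.one (F := F) hi).comp le_rfl hI (hb.res hP'X) fun y hy => (hi2 y hy).1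
    rw [mul_one] at h1
    exact h1.congr fun y hy => by rw [hψφ _ (hi2 y hy).1, (hi2 y hy).2]
  obtain ⟨g, hg, hge⟩ := hC2 Q hQS hQn b hidb
  -- extension of `g` to `N_S(Q)`
  have hXS : Q ⊔ centralizerIn S Q ≤ S := sup_le hQS inf_le_left
  have hfX' : Finite (Q ⊔ centralizerIn S Q : Subgroup Ω) := H802.finite_of_le hXS
  obtain ⟨N, hN⟩ := H802.exists_normalizerSystem F hQS
  have hNs := H802.normalizerSystem_isSaturated hS hF hQn hN
  have hNF : N.IsSubsystemOf F := normalizerSystem_isSubsystemOf hN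
  have hNf : Finite (normalizerIn S Q) := H802.finite_of_le inf_le_left
  have hNp : IsPGroup p (normalizerIn S Q) := hS.to_le inf_le_left
  have hQNS : Q ≤ normalizerIn S Q := le_inf hQS Subgroup.le_normalizer
  have hXN : Q ⊔ centralizerIn S Q ≤ normalizerIn S Q :=
    sup_le hQNS (inf_le_inf_left S (Subgroup.centralizer_le_normalizer _))
  have hQN : ∀ {P : Subgroup Ω} {f : Ω → Ω}, Mp N P f → Q ≤ P → ∀ x ∈ Q, f x ∈ Q := by
    intro P f hf hQP
    exact ((mp_normalizerSystem_iff' hN hQS hQP).1 hf).2.2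
  have hXmaps : ∀ {f : Ω → Ω}, Mp F (Q ⊔ centralizerIn S Q) f → (∀ x ∈ Q, f x ∈ Q) →
      ∀ x ∈ Q ⊔ centralizerIn S Q, f x ∈ Q ⊔ centralizerIn S Q := by
    intro f hf hfQ'
    refine hf.mem_sup (fun y hy => (le_sup_left : Q ≤ _) (hfQ' y hy)) (fun y hy => ?_)
    refine (le_sup_right : centralizerIn S Q ≤ _)
      ⟨hf.mem ((le_sup_right : centralizerIn S Q ≤ _) hy), ?_⟩
    exact Mp.mem_centralizer hf le_sup_left (Mp.im_of_maps (hf.res le_sup_left) hfQ')
      ((le_sup_right : centralizerIn S Q ≤ _) hy) hy.2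
  have hNX : normalizerIn S Q ≤ normalizerIn (normalizerIn S Q) (Q ⊔ centralizerIn S Q) := by
    intro s hs
    refine ⟨hs, ?_⟩
    have h1 := hXmaps (mp_conj F hXS hs.1) fun x hx => (Subgroup.mem_normalizer_iff.1 hs.2 x).1 hx
    have h2 := Mp.im_of_maps (mp_conj F hXS hs.1) h1
    show s ∈ Subgroup.normalizer ((Q ⊔ centralizerIn S Q : Subgroup Ω) : Set Ω)
    rw [Subgroup.mem_normalizer_iff]
    intro x
    refine ⟨h1 x, fun hx => ?_⟩
    obtain ⟨y, hy, hyx⟩ := (h2 _).1 hx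
    have : y = x := mul_left_cancel (mul_right_cancel hyx)
    rwa [← this]
  have hXn : N.IsFullyNormalized (Q ⊔ centralizerIn S Q) := by
    refine ⟨hXN, fun R _ => ?_⟩
    have hfin : Finite (normalizerIn (normalizerIn S Q) (Q ⊔ centralizerIn S Q)) :=
      H802.finite_of_le (inf_le_left.trans inf_le_left)
    exact (Nat.card_mono (Set.toFinite _) (inf_le_left : normalizerIn _ R ≤ _)).trans
      (Nat.card_mono (Set.toFinite _) hNX)
  have hXa := H802.isFullyAutomized_of_isFullyNormalized hNp hNs hXn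
  have hXr := H802.isReceptive_of_isFullyNormalized hNp hNs hXn
  have hgF := hg.mp le_rfl hEF
  have hgQ : ∀ x ∈ Q, g x ∈ Q := fun x hx => by rw [hge x hx]; exact hx
  have hgN : Mp N (Q ⊔ centralizerIn S Q) g := by
    rw [mp_normalizerSystem_iff' hN hQS le_sup_left]
    exact ⟨hgF, hXN, hgQ⟩
  obtain ⟨α, hα, hαg⟩ := exists_ac hgN (hXmaps hgF hgQ)
  let K : Subgroup (MulAut (Q ⊔ centralizerIn S Q : Subgroup Ω)) :=
    { carrier := {k | k ∈ N.autGroup (Q ⊔ centralizerIn S Q) ∧ (∀ x ∈ Q, ac k x = x) ∧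
        Fr E F (Q ⊔ centralizerIn S Q) (ac k) 1}
      one_mem' := by
        exact ⟨one_mem _, fun x hx => ac_one ((le_sup_left : Q ≤ _) hx),
          (Fr.one (mp_id E hXS)).congr fun x hx => ac_one hx⟩
      mul_mem' := by
        rintro k k' ⟨h1, h2, h3⟩ ⟨h1', h2', h3'⟩
        refine ⟨mul_mem h1 h1', fun x hx => ?_, ?_⟩
        · rw [ac_mul _ _ ((le_sup_left : Q ≤ _) hx), h2' x hx, h2 x hx]
        · have h4 := h3'.comp le_rfl hI h3 fun x hx => ac_mem _ hx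
          rw [mul_one] at h4
          exact h4.congr fun x hx => ac_mul _ _ hx
      inv_mem' := by
        rintro k ⟨h1, h2, h3⟩
        refine ⟨inv_mem h1, fun x hx => ?_, ?_⟩
        · conv_lhs => rw [← h2 x hx]
          exact ac_inv_ac k ((le_sup_left : Q ≤ _) hx)
        · have h4 := h3.symm le_rfl hI (R := Q ⊔ centralizerIn S Q) (g := ac k⁻¹) fun y hy =>
            ⟨ac k⁻¹ y, ac_mem _ hy, ac_ac_inv k hy, rfl⟩
          rwa [inv_one] at h4 }
  have hKA : K ≤ N.autGroup (Q ⊔ centralizerIn S Q) := fun k hk => hk.1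
  have hconj : ∀ c ∈ N.autGroup (Q ⊔ centralizerIn S Q), ∀ k ∈ K, c * k * c⁻¹ ∈ K := by
    rintro c hc k ⟨h1, h2, h3⟩
    have hcm := mp_mono hNF (mp_ac hXN hc)
    obtain ⟨t, ht⟩ := hFr _ _ hcm
    refine ⟨mul_mem (mul_mem hc h1) (inv_mem hc), fun x hx => ?_, ?_⟩
    · have hx' : x ∈ Q ⊔ centralizerIn S Q := (le_sup_left : Q ≤ _) hx
      rw [ac_mul _ _ hx', ac_mul _ _ (ac_mem _ hx'),
        h2 _ (hQN (mp_ac hXN (inv_mem hc)) le_sup_left x hx), ac_ac_inv c hx']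
    · have h4 := ht.symm le_rfl hI (R := Q ⊔ centralizerIn S Q) (g := ac c⁻¹) fun y hy =>
            ⟨ac c⁻¹ y, ac_mem _ hy, ac_ac_inv c hy, rfl⟩
      have h5 := (h4.comp le_rfl hI h3 fun x hx => ac_mem _ hx).comp le_rfl hI ht
        fun x hx => ac_mem _ (ac_mem _ hx)
      rw [one_mul, mul_inv_cancel] at h5
      exact h5.congr fun x hx => by rw [ac_mul _ _ hx, ac_mul _ _ (ac_mem _ hx)]
  obtain ⟨k, hk, n, hn, hne⟩ := mp_ext_kernel (F := N) hNp
    (N := normalizerIn (normalizerIn S Q) (Q ⊔ centralizerIn S Q)) hXa hXr hα K hKA hconj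
    inf_le_left inf_le_right (by
      intro s hs
      have hsN : s ∈ normalizerIn S Q := hs.1
      have hcs := conjAut_mem_autGroup (F := N) hXN hs.1 hs.2
      refine ⟨α * H759.conjAut _ s hs.2 * α⁻¹ * (H759.conjAut _ s hs.2)⁻¹, ?_, s, hs.1, hs.2,
        fun x hx => ?_⟩
      · have hsQ : ∀ x ∈ Q, ac (H759.conjAut _ s hs.2) x ∈ Q := fun x hx =>
          hQN (mp_ac hXN hcs) le_sup_left x hx
        have hsiQ : ∀ x ∈ Q, ac (H759.conjAut _ s hs.2)⁻¹ x ∈ Q := fun x hx =>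
          hQN (mp_ac hXN (inv_mem hcs)) le_sup_left x hx
        have hαQ : ∀ x ∈ Q, ac α x = x := fun x hx => by
          rw [← hαg x ((le_sup_left : Q ≤ _) hx), hge x hx]
        have hαiQ : ∀ x ∈ Q, ac α⁻¹ x = x := fun x hx => by
          conv_lhs => rw [← hαQ x hx]
          exact ac_inv_ac α ((le_sup_left : Q ≤ _) hx)
        refine ⟨mul_mem (mul_mem (mul_mem hα hcs) (inv_mem hα)) (inv_mem hcs), fun x hx => ?_, ?_⟩
        · have hx' : x ∈ Q ⊔ centralizerIn S Q := (le_sup_left : Q ≤ _) hx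
          rw [ac_mul _ _ hx', ac_mul _ _ (ac_mem _ hx'), hαiQ _ (hsiQ x hx),
            ac_mul _ _ (ac_mem _ hx'), ac_ac_inv _ hx', hαQ x hx]
        · have hcF : Fr E F (Q ⊔ centralizerIn S Q) (ac (H759.conjAut _ s hs.2)) 1 :=
            (Fr.one (mp_conj E hXS hsN.1)).congr fun x hx => by
              rw [ac_apply _ hx]; rfl
          have hcFi : Fr E F (Q ⊔ centralizerIn S Q) (ac (H759.conjAut _ s hs.2)⁻¹) 1⁻¹ :=
            hcF.symm le_rfl hI fun y hy => ⟨_, ac_mem _ hy, ac_ac_inv _ hy, rfl⟩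
          have hαF : Fr E F (Q ⊔ centralizerIn S Q) (ac α) b :=
            hg.congr fun x hx => (hαg x hx).symm
          have hαFi : Fr E F (Q ⊔ centralizerIn S Q) (ac α⁻¹) b⁻¹ :=
            hαF.symm le_rfl hI fun y hy => ⟨_, ac_mem _ hy, ac_ac_inv _ hy, rfl⟩
          have h5 := ((hcFi.comp le_rfl hI hαFi fun x hx => ac_mem _ hx).comp le_rfl hI hcF
            fun x hx => ac_mem _ (ac_mem _ hx)).comp le_rfl hI hαF
            fun x hx => ac_mem _ (ac_mem _ (ac_mem _ hx))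
          have e1 : b * (1 * (b⁻¹ * 1⁻¹)) = 1 := by group
          rw [e1] at h5
          exact h5.congr fun x hx => by
            rw [ac_mul _ _ hx, ac_mul _ _ (ac_mem _ hx), ac_mul _ _ (ac_mem _ (ac_mem _ hx))]
      · have h1 := ac_conj_apply (α := α) hs.2 hx
        have h3 : ac (H759.conjAut _ s hs.2)⁻¹ (s * ac α x * s⁻¹) = ac α x := by
          have h4 : s * ac α x * s⁻¹ = ac (H759.conjAut _ s hs.2) (ac α x) := by
            rw [ac_apply _ (ac_mem α hx)]; rfl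
          rw [h4]
          exact ac_inv_ac _ (ac_mem _ hx)
        have h2 : s * ac α x * s⁻¹ ∈ Q ⊔ centralizerIn S Q :=
          (Subgroup.mem_normalizer_iff.1 hs.2 _).1 (ac_mem α hx)
        rw [ac_mul _ _ h2, h3, h1])
  have hnN : Mp N (normalizerIn S Q) n := hn.res (hNX.trans le_sup_right)
  have hnF := mp_mono hNF hnN
  have hnQ : ∀ x ∈ Q, n x = x := fun x hx => by
    have hx' : x ∈ Q ⊔ centralizerIn S Q := (le_sup_left : Q ≤ _) hx
    rw [hne x hx', ← hαg x hx', hge x hx]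
    exact hk.2.1 x hx
  have hnb : Fr E F (normalizerIn S Q) n b := by
    obtain ⟨t, ht⟩ := hFr _ _ hnF
    refine Fr.extend hEF hI ht hXN ?_ (hE3 _ (isCentric_sup_centralizer
      (H802.isFullyCentralized_of_isFullyNormalized hS hF hQn)))
    have h1 := (hg.congr fun x hx => (hαg x hx).symm).comp le_rfl hI hk.2.2 fun x hx => ac_mem _ hx
    rw [one_mul] at h1
    exact h1.congr fun x hx => hne x hx
  have hnI : Im n (normalizerIn S Q) (normalizerIn S Q) := Mp.im_of_maps hnF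
    fun x hx => hnN.mem hx
  obtain ⟨m, hm, hm1, hm2⟩ := hnF.exists_symm le_rfl hnI
  have hmb : Fr E F (normalizerIn S Q) m b⁻¹ := hnb.symm le_rfl hI fun y hy =>
    ⟨m y, (hm2 y hy).1, (hm2 y hy).2, rfl⟩
  have hψN : ∀ x ∈ extender S P' φ, ex ψ x ∈ normalizerIn S Q := fun x hx =>
    ⟨hψm.mem hx, Mp.mem_normalizer hψm hP'X (hφI.congr hψφ) hx
      (H802.extender_le_normalizerIn S P' φ hx).2⟩
  have hfin := hb.comp le_rfl hI hmb hψN
  rw [inv_mul_cancel] at hfin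
  obtain ⟨χ, hχ, hχe⟩ := hfin.mp_of_one
  refine ⟨χ, hχ, fun x hx hx' => ?_⟩
  rw [hχe x hx']
  show m (ex ψ x) = _
  rw [hψφ x hx, ex_apply _ hx]
  have h1 : φ ⟨x, hx⟩ ∈ Q := hr.le ⟨_, rfl⟩
  conv_lhs => rw [← hnQ _ h1]
  exact hm1 _ (hQNS h1)

/-- `E` is normal in `F`. -/
theorem isNormalIn (h : PData p E F 𝒬) (hS : IsPGroup p S) (hF : F.IsSaturated p) :
    E.IsNormalIn F p := by
  rw [isNormalIn_iff le_rfl]
  refine ⟨h.isSaturated hS hF, hF, h.invariant hS hF, fun a ha => ?_⟩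
  have haF := mp_mono h.sub ha
  have hle : centralizerIn S S ≤ S := inf_le_left
  refine ⟨a, by rwa [sup_eq_left.2 hle], fun _ _ => rfl, fun c hc => ?_⟩
  obtain ⟨hc1, hc2⟩ := hc
  have hc1' : c ∈ S := hc1
  have hc2' : c ∈ Subgroup.centralizer (S : Set Ω) := hc2
  exact ⟨S.mul_mem (S.inv_mem hc1') (haF.mem hc1'),
    Subgroup.mul_mem _ (Subgroup.inv_mem _ hc2') (Mp.mem_centralizer haF le_rfl
      (Mp.im_of_maps haF fun x hx => haF.mem hx) hc1' hc2')⟩

end PData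

end Cfsg.Agent.H770
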