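import Cfsg.Agent.H770.StepA

/-!
# The step of `p`-power index (helper770)
-/

set_option autoImplicit false
set_option linter.unusedVariables false

namespace Cfsg.Agent.H770

open Cfsg Cfsg.FusionSystem Cfsg.Agent.H752 Cfsg.Agent.H756

variable {Ω : Type*} [Group Ω] {S T U : Subgroup Ω} {p : ℕ}

theorem exists_pow_coprime {A : Type*} [Group A] [Fact p.Prime] {g : A} (hg : 0 < orderOf g)
    {n : ℕ} (hn : n.Coprime p) : ∃ r : ℕ, r ≡ 1 [MOD n] ∧ (orderOf (g ^ r)).Coprime p := by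
  obtain ⟨k, m, hm, he⟩ := Nat.exists_eq_pow_mul_and_not_dvd hg.ne' p (Fact.out : p.Prime).ne_one
  have hco : Nat.Coprime n (p ^ k) := Nat.Coprime.pow_right k hn
  obtain ⟨r, hr1, hr2⟩ := Nat.chineseRemainder hco 1 0
  refine ⟨r, hr1, ?_⟩
  have h1 : p ^ k ∣ r := (Nat.modEq_zero_iff_dvd).1 hr2
  have h2 : orderOf (g ^ r) ∣ m := by
    rw [orderOf_dvd_iff_pow_eq_one, ← pow_mul]
    apply orderOf_dvd_iff_pow_eq_one.1
    rw [he]
    exact mul_dvd_mul_right h1 m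
  have h3 : m.Coprime p := ((Nat.Prime.coprime_iff_not_dvd Fact.out).2 hm).symm
  exact Nat.Coprime.coprime_dvd_left h2 h3

/-- Lifting of automorphisms of order prime to `p` modulo a strongly closed subgroup. -/
theorem exists_lift_coprime [Finite S] [Fact p.Prime] (hS : IsPGroup p S) {F : FusionSystem S}
    (hF : F.IsSaturated p) (hT : F.StronglyClosed T) {P : Subgroup Ω} (hPS : P ≤ S)
    {α : MulAut P} (hα : α ∈ F.autGroup P) (hc : (orderOf α).Coprime p) :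
    ∃ β ∈ F.autGroup (P ⊔ T), (orderOf β).Coprime p ∧ ∀ x ∈ P, (ac α x)⁻¹ * ac β x ∈ T := by
  have hPTS : P ⊔ T ≤ S := sup_le hPS hT.1
  have hfPT : Finite (P ⊔ T : Subgroup Ω) := H802.finite_of_le hPTS
  obtain ⟨ψ, hψ, h1⟩ := H759.exists_lift hS hF hT P _ ((H802.mem_autGroup_iff F hPS α).1 hα)
  have hψm := mp_ex hψ
  have h2 : ∀ x ∈ P, (ac α x)⁻¹ * ex ψ x ∈ T := by
    intro x hx
    have hx' : x ∈ P ⊔ T := (le_sup_left : P ≤ _) hx
    rw [ac_apply _ hx, ex_apply _ hx']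
    exact h1 ⟨x, hx⟩ hx'
  have hm : ∀ x ∈ P ⊔ T, ex ψ x ∈ P ⊔ T := by
    refine hψm.mem_sup (fun x hx => ?_) (fun x hx => ?_)
    · have h3 : ex ψ x = ac α x * ((ac α x)⁻¹ * ex ψ x) := by group
      rw [h3]
      exact mul_mem ((le_sup_left : P ≤ _) (ac_mem _ hx)) ((le_sup_right : T ≤ _) (h2 x hx))
    · exact (le_sup_right : T ≤ _) (mp_mem_of_stronglyClosed hT hψm ((le_sup_right : T ≤ _) hx) hx)
  obtain ⟨β, hβ, hβe⟩ := exists_ac hψm hm
  have h3 : ∀ n : ℕ, ∀ x ∈ P, (ac (α ^ n) x)⁻¹ * ac (β ^ n) x ∈ T := by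
    intro n
    induction n with
    | zero =>
      intro x hx
      rw [pow_zero, pow_zero, ac_one hx, ac_one ((le_sup_left : P ≤ _) hx), inv_mul_cancel]
      exact one_mem _
    | succ n ih =>
      intro x hx
      have hx' : x ∈ P ⊔ T := (le_sup_left : P ≤ _) hx
      rw [pow_succ', pow_succ', ac_mul _ _ hx, ac_mul _ _ hx']
      have h4 := ih x hx
      have hy : ac (α ^ n) x ∈ P := ac_mem _ hx
      have hz : ac (β ^ n) x ∈ P ⊔ T := ac_mem _ hx'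
      generalize ac (α ^ n) x = y at h4 hy ⊢
      generalize ac (β ^ n) x = z at h4 hz ⊢
      have hy' : y ∈ P ⊔ T := (le_sup_left : P ≤ _) hy
      have h5 := mp_mem_of_stronglyClosed hT hψm ((le_sup_right : T ≤ _) h4) h4
      have h6 := h2 y hy
      rw [hβe _ hy'] at h6
      rw [hβe _ ((le_sup_right : T ≤ _) h4)] at h5
      have h7 : z = y * (y⁻¹ * z) := by group
      have h8 : ac β z = ac β y * ac β (y⁻¹ * z) := by
        conv_lhs => rw [h7]
        exact (mp_ac hPTS hβ).mul hy' ((le_sup_right : T ≤ _) h4)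
      rw [h8, ← mul_assoc]
      exact mul_mem h6 h5
  obtain ⟨r, hr, hrc⟩ := exists_pow_coprime (orderOf_pos β) hc
  refine ⟨β ^ r, pow_mem hβ r, hrc, fun x hx => ?_⟩
  have h4 := h3 r x hx
  have h5 : α ^ r = α := by
    have := pow_eq_pow_iff_modEq.2 hr
    rwa [pow_one] at this
  rwa [h5] at h4

/-- The hyperfocal subgroup lies in `NK`. -/
theorem hyp_le_NK [Finite U] [Fact p.Prime] (hU : IsPGroup p U) {G : FusionSystem U}
    (hG : G.IsSaturated p) (hT : G.StronglyClosed T) {K' : Subgroup (MulAut T)}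
    (hK'n : ∀ a ∈ G.autGroup T, ∀ k ∈ K', a * k * a⁻¹ ∈ K')
    (hp : ∀ a ∈ G.autGroup T, (orderOf a).Coprime p → a ∈ K')
    (hTK : T ≤ NK U T K') : G.hyperfocalSubgroup p ≤ NK U T K' := by
  rw [hyp_le_iff]
  intro P hPU α hα hc x
  obtain ⟨β, hβ, hβc, h1⟩ := exists_lift_coprime hU hG hT hPU hα hc
  have hPTU : P ⊔ T ≤ U := sup_le hPU hT.1
  have hfT : Finite T := H802.finite_of_le hT.1
  have hβm := mp_ac hPTU hβ
  obtain ⟨b, hb, hbr⟩ := H752.exists_restr (le_sup_right : T ≤ P ⊔ T) hPTU hβ fun y hy => by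
    have := mp_mem_of_stronglyClosed hT hβm ((le_sup_right : T ≤ _) hy) hy
    rwa [ac_apply] at this
  have hbc : (orderOf b).Coprime p := Nat.Coprime.coprime_dvd_left hbr.orderOf_dvd hβc
  have hbK := hp b hb hbc
  have hbe : ∀ t ∈ T, ac β t = ac b t := by
    intro t ht
    rw [ac_apply _ ((le_sup_right : T ≤ P ⊔ T) ht), ac_apply _ ht]
    exact hbr t ht
  have hxU : (x : Ω) ∈ U := hPU x.2
  have hxn := H759.StronglyClosed.le_normalizer hT hxU
  have hx' : (x : Ω) ∈ P ⊔ T := (le_sup_left : P ≤ _) x.2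
  set c := H759.conjAut T (x : Ω) hxn with hcdef
  have hcG : c ∈ G.autGroup T := conjAut_mem_autGroup hT.1 hxU hxn
  have hce : ∀ t ∈ T, (x : Ω) * t * (x : Ω)⁻¹ = ac c t := by
    intro t ht
    rw [ac_apply _ ht]
    rfl
  have h2 : (x : Ω)⁻¹ * ac β x ∈ NK U T K' := by
    have hgU : (x : Ω)⁻¹ * ac β x ∈ U := U.mul_mem (U.inv_mem hxU) (hPTU (ac_mem _ hx'))
    refine ⟨hgU, H759.StronglyClosed.le_normalizer hT hgU, c⁻¹ * b * c⁻¹⁻¹ * b⁻¹,
      mul_mem (hK'n _ (inv_mem hcG) _ hbK) (inv_mem hbK), fun t ht => ?_⟩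
    have hs : ac b⁻¹ t ∈ T := ac_mem _ ht
    have hs' : ac b⁻¹ t ∈ P ⊔ T := (le_sup_right : T ≤ _) hs
    have h3 : ac β (ac b⁻¹ t) = t := by rw [hbe _ hs, ac_ac_inv b ht]
    have h4 : ac β ((x : Ω) * ac b⁻¹ t * (x : Ω)⁻¹) = ac β x * t * (ac β x)⁻¹ := by
      rw [hβm.mul (mul_mem hx' hs') (inv_mem hx'), hβm.mul hx' hs', hβm.inv hx', h3]
    have e : c⁻¹ * b * c⁻¹⁻¹ * b⁻¹ = c⁻¹ * (b * (c * b⁻¹)) := by group
    rw [e, ac_mul _ _ ht, ac_mul _ _ ht, ac_mul _ _ ht, ← hce _ hs,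
      ← hbe _ (by rw [hce _ hs]; exact ac_mem _ hs), h4]
    have h5 : ac β x * t * (ac β x)⁻¹ ∈ T := H759.StronglyClosed.conj_mem hT
      (hPTU (ac_mem _ hx')) ht
    have h6 : ac c ((x : Ω)⁻¹ * (ac β x * t * (ac β x)⁻¹) * x) = ac β x * t * (ac β x)⁻¹ := by
      have h7 := H759.StronglyClosed.conj_mem' hT hxU h5
      rw [← hce _ h7]
      group
    rw [← h6, ac_inv_ac _ (H759.StronglyClosed.conj_mem' hT hxU h5)]
    group
  have h3 : (x : Ω)⁻¹ * ((α x : P) : Ω) = ((x : Ω)⁻¹ * ac β x) * ((ac α x)⁻¹ * ac β x)⁻¹ := by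
    rw [← ac_apply α x.2]
    group
  rw [h3]
  exact mul_mem h2 (inv_mem (hTK (h1 x x.2)))

/-- `E ≤ G` if `G` contains the automorphisms in `E` of order prime to `p`. -/
theorem sub_of_coprime [Finite T] [Fact p.Prime] (hT : IsPGroup p T) {E : FusionSystem T}
    (hE : E.IsSaturated p) {G : FusionSystem U} (hTU : T ≤ U)
    (h : ∀ P ≤ T, ∀ α ∈ E.autGroup P, (orderOf α).Coprime p → α ∈ G.autGroup P) :
    E.IsSubsystemOf G := by
  refine isSubsystemOf_of_mp (mp_generation E hT hE (fun P f => Mp G P f) ?_ ?_ ?_ ?_ ?_ ?_)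
  · exact fun P f g _ h he => h.congr he
  · exact fun P R f _ h hR => h.res hR
  · exact fun P Q f g _ _ h1 h2 hPQ => h1.comp h2 hPQ
  · exact fun P R f g _ h1 _ hinv => h1.symm hinv
  · exact fun P hP s hs => mp_conj G (hP.trans hTU) (hTU hs)
  · intro Q hQa _ α hα hc f hf
    exact (mp_ac (hQa.1.trans hTU) (h Q hQa.1 α hα hc)).congr fun x hx => by
      rw [hf x hx, ac_apply α hx]

/-- An element of `Aut_F(T)` of `p`-power order is conjugate to a conjugation by an element of `S`. -/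
theorem exists_conj_T [Finite S] [Fact p.Prime] {F : FusionSystem S} (hF : F.IsSaturated p)
    (hT : F.StronglyClosed T) {α : MulAut T} (hα : α ∈ F.autGroup T) {n : ℕ} (hn : α ^ p ^ n = 1) :
    ∃ γ ∈ F.autGroup T, ∃ s ∈ S, ∃ hs : s ∈ Subgroup.normalizer (T : Set Ω),
      γ * α * γ⁻¹ = H759.conjAut T s hs := by
  have hfT : Finite T := H802.finite_of_le hT.1
  obtain ⟨φ, hφ, g, hg, h1⟩ := H802.exists_conj_of_orderOf hF hT.1 hα hn
  have hφm := mp_ex hφ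
  obtain ⟨γ, hγ, h2⟩ := exists_ac hφm fun x hx => mp_mem_of_stronglyClosed hT hφm hx hx
  refine ⟨γ, hγ, g, hg, H759.StronglyClosed.le_normalizer hT hg, ?_⟩
  rw [mul_inv_eq_iff_eq_mul]
  ext x
  have h3 := h1 x
  rw [MulAut.mul_apply, MulAut.mul_apply, H759.coe_conjAut]
  have h4 : ((γ x : T) : Ω) = φ x := by
    rw [← ac_apply γ x.2, ← h2 x x.2, ex_apply _ x.2]
  have h5 : ((γ (α x) : T) : Ω) = φ (α x) := by
    rw [← ac_apply γ (α x).2, ← h2 _ (α x).2, ex_apply _ (α x).2]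
  rw [h4, h5, h3]

end Cfsg.Agent.H770
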